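import Mathlib
import Cfsg.Agent.Lib.Helper18.LSDefs

/-! Project LS (helper18, S2333), piece SEP. -/

set_option autoImplicit false

namespace Cfsg.Agent.Lib.Helper18.LS

open Matrix

universe u

variable {F : Type u} [Field F] {n : ℕ}

theorem sep_trace (c : F) (x : Fin n → F) (M : Matrix (Fin n) (Fin n) F) :
    trace ((c • vecMulVec x x) * M) = c * qf M x := by
  rw [Matrix.smul_mul, trace_smul, vecMulVec_mul, trace_vecMulVec, smul_eq_mul]
  unfold qf
  rw [dotProduct_comm x (x ᵥ* M), ← dotProduct_mulVec]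

theorem char_sep (ψ : AddChar F ℂ) (hψ : ∀ d : F, (∀ c : F, ψ (c * d) = 1) → d = 0)
    (M M' : Matrix (Fin n) (Fin n) F)
    (h : ∀ S : Matrix (Fin n) (Fin n) F, S.IsSymm →
      ψ (trace (S * M)) = ψ (trace (S * M'))) :
    ∀ x : Fin n → F, qf M x = qf M' x := by
  intro x
  have hd : qf M x - qf M' x = 0 := by
    apply hψ
    intro c
    have hsymm : (c • vecMulVec x x).IsSymm := by
      unfold Matrix.IsSymm
      rw [transpose_smul, transpose_vecMulVec]
    have h1 := h (c • vecMulVec x x) hsymm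
    rw [sep_trace, sep_trace] at h1
    have h2 : ψ (c * (qf M x - qf M' x)) * ψ (c * qf M' x) = ψ (c * qf M x) := by
      rw [← AddChar.map_add_eq_mul]
      congr 1
      ring
    have h3 : ψ (c * qf M' x) ≠ 0 := by
      intro h0
      have h4 : ψ (c * qf M' x) * ψ (-(c * qf M' x)) = 1 := by
        rw [← AddChar.map_add_eq_mul, add_neg_cancel, AddChar.map_zero_eq_one]
      rw [h0, zero_mul] at h4
      exact zero_ne_one h4
    rw [h1] at h2
    have h5 : ψ (c * (qf M x - qf M' x)) * ψ (c * qf M' x) = 1 * ψ (c * qf M' x) := by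
      rw [h2, one_mul]
    exact mul_right_cancel₀ h3 h5
  exact sub_eq_zero.mp hd

end Cfsg.Agent.Lib.Helper18.LS
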