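import Mathlib
import Cfsg.Agent.Lib.Helper18.LSDefs

/-! Project LS (helper18, S2333), piece WTMOVE. -/

set_option autoImplicit false

namespace Cfsg.Agent.Lib.Helper18.LS

open Matrix

universe u

variable {F : Type u} [Field F] {n : ℕ}

theorem weight_move {k : ℕ}
    (ρ : Representation ℂ (symplecticGroup (Fin n) F) (Fin k → ℂ)) (ψ : F → ℂ)
    (hconj : ∀ (g : GL (Fin n) F) (S : Matrix (Fin n) (Fin n) F), S.IsSymm →
      dG g * uS S =
        uS ((g : Matrix (Fin n) (Fin n) F) * S * (g : Matrix (Fin n) (Fin n) F)ᵀ) * dG g)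
    (M : Matrix (Fin n) (Fin n) F) (v : Fin k → ℂ) (hv : v ≠ 0)
    (hw : ∀ S : Matrix (Fin n) (Fin n) F, S.IsSymm → ρ (uS S) v = ψ (trace (S * M)) • v)
    (g : GL (Fin n) F) :
    ∃ (w : Fin k → ℂ) (M' : Matrix (Fin n) (Fin n) F), w ≠ 0 ∧
      (∀ S : Matrix (Fin n) (Fin n) F, S.IsSymm → ρ (uS S) w = ψ (trace (S * M')) • w) ∧
      (∀ x : Fin n → F, qf M' x = qf M ((g : Matrix (Fin n) (Fin n) F) *ᵥ x)) := by
  refine ⟨ρ (dG g⁻¹) v,
    (g : Matrix (Fin n) (Fin n) F)ᵀ * M * (g : Matrix (Fin n) (Fin n) F), ?_, ?_, ?_⟩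
  · intro h0
    apply hv
    have h1 : ρ (dG g⁻¹)⁻¹ (ρ (dG g⁻¹) v) = v := by
      rw [← Module.End.mul_apply, ← map_mul, inv_mul_cancel, map_one, Module.End.one_apply]
    rw [h0, map_zero] at h1
    exact h1.symm
  · intro S hS
    have hS'' : ((g : Matrix (Fin n) (Fin n) F) * S * (g : Matrix (Fin n) (Fin n) F)ᵀ).IsSymm := by
      unfold Matrix.IsSymm
      rw [transpose_mul, transpose_mul, transpose_transpose, hS.eq, Matrix.mul_assoc]
    have hgi : ((g⁻¹ : GL (Fin n) F) : Matrix (Fin n) (Fin n) F) *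
        (g : Matrix (Fin n) (Fin n) F) = 1 := Units.inv_mul g
    have hback : ((g⁻¹ : GL (Fin n) F) : Matrix (Fin n) (Fin n) F) *
        ((g : Matrix (Fin n) (Fin n) F) * S * (g : Matrix (Fin n) (Fin n) F)ᵀ) *
        ((g⁻¹ : GL (Fin n) F) : Matrix (Fin n) (Fin n) F)ᵀ = S := by
      have h2 : (g : Matrix (Fin n) (Fin n) F)ᵀ *
          ((g⁻¹ : GL (Fin n) F) : Matrix (Fin n) (Fin n) F)ᵀ = 1 := by
        rw [← transpose_mul, hgi, transpose_one]
      calc ((g⁻¹ : GL (Fin n) F) : Matrix (Fin n) (Fin n) F) *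
          ((g : Matrix (Fin n) (Fin n) F) * S * (g : Matrix (Fin n) (Fin n) F)ᵀ) *
          ((g⁻¹ : GL (Fin n) F) : Matrix (Fin n) (Fin n) F)ᵀ
          = (((g⁻¹ : GL (Fin n) F) : Matrix (Fin n) (Fin n) F) *
            (g : Matrix (Fin n) (Fin n) F)) * S * ((g : Matrix (Fin n) (Fin n) F)ᵀ *
            ((g⁻¹ : GL (Fin n) F) : Matrix (Fin n) (Fin n) F)ᵀ) := by
            simp only [Matrix.mul_assoc]
        _ = S := by rw [hgi, h2, Matrix.one_mul, Matrix.mul_one]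
    have h3 := hconj g⁻¹ _ hS''
    rw [hback] at h3
    have h4 : ρ (uS S) (ρ (dG g⁻¹) v) = ρ (dG g⁻¹) (ρ (uS ((g : Matrix (Fin n) (Fin n) F) * S *
        (g : Matrix (Fin n) (Fin n) F)ᵀ)) v) := by
      rw [← Module.End.mul_apply, ← map_mul, ← h3, map_mul, Module.End.mul_apply]
    rw [h4, hw _ hS'', map_smul]
    congr 2
    rw [Matrix.mul_assoc, Matrix.mul_assoc, trace_mul_comm]
    simp only [Matrix.mul_assoc]
  · intro x
    rw [qf_mulVec]

end Cfsg.Agent.Lib.Helper18.LS
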