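import Mathlib
import Cfsg.Agent.Lib.Helper18.SLMDefs

/-!
# Project SLM (helper18, S2332), piece MULT: the multiplicity formula for the weight spaces of
the abelian group `{x1 u}`.
-/

set_option autoImplicit false

namespace Cfsg.Agent.Lib.Helper18.SLM

open Matrix

universe u

variable {F : Type u} [Field F] [Fintype F]

omit [Fintype F] in
theorem mult_x1_add {k : ℕ} (u v : Fin k → F) :
    (x1 (u + v) : Matrix.SpecialLinearGroup (Fin (k + 1)) F) = x1 u * x1 v := by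
  apply Subtype.ext
  show x1m (u + v) = x1m u * x1m v
  unfold x1m
  ext i j
  refine Fin.cases ?_ (fun i' => ?_) i <;> refine Fin.cases ?_ (fun j' => ?_) j <;>
    simp [Matrix.mul_apply, Matrix.add_apply, Matrix.one_apply, vecMulVec_apply,
      Fin.sum_univ_succ, Fin.succ_ne_zero, Ne.symm (Fin.succ_ne_zero _), add_comm]

-- piece MULT
theorem mult_formula {V : Type*} [AddCommGroup V] [Module ℂ V] [FiniteDimensional ℂ V]
    (ψ : AddChar F ℂ) {k : ℕ}
    (ρ : Representation ℂ (Matrix.SpecialLinearGroup (Fin (k + 1)) F) V) (l : Fin k → F) :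
    (Module.finrank ℂ (wt ψ ρ l) : ℂ) = ((Fintype.card F : ℂ) ^ k)⁻¹ *
      ∑ u : Fin k → F, ψ (-(l ⬝ᵥ u)) * LinearMap.trace ℂ V (ρ (x1 u)) := by
  classical
  have hq : ((Fintype.card F : ℂ) ^ k) ≠ 0 := by
    apply pow_ne_zero
    exact_mod_cast Fintype.card_ne_zero
  obtain ⟨e, he⟩ : ∃ e : Module.End ℂ V, e = ((Fintype.card F : ℂ) ^ k)⁻¹ •
      ∑ u : Fin k → F, ψ (-(l ⬝ᵥ u)) • ρ (x1 u) := ⟨_, rfl⟩
  have happ : ∀ v : V, e v = ((Fintype.card F : ℂ) ^ k)⁻¹ •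
      ∑ u : Fin k → F, ψ (-(l ⬝ᵥ u)) • ρ (x1 u) v := by
    intro v
    rw [he, LinearMap.smul_apply, LinearMap.sum_apply]
    rfl
  have h1 : ∀ v : V, e v ∈ wt ψ ρ l := by
    intro v
    rw [mem_wt]
    intro w
    rw [happ, (ρ (x1 w)).map_smul, map_sum (ρ (x1 w)), smul_comm (ψ (l ⬝ᵥ w))]
    congr 1
    rw [Finset.smul_sum]
    refine Fintype.sum_equiv (Equiv.addLeft w) _ _ (fun u => ?_)
    rw [(ρ (x1 w)).map_smul, smul_smul]
    have e1 : ρ (x1 w) (ρ (x1 u) v) = ρ (x1 (w + u)) v := by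
      rw [mult_x1_add, map_mul]
      rfl
    have e2 : ψ (l ⬝ᵥ w) * ψ (-(l ⬝ᵥ (Equiv.addLeft w u))) = ψ (-(l ⬝ᵥ u)) := by
      rw [← AddChar.map_add_eq_mul]
      congr 1
      rw [Equiv.coe_addLeft, dotProduct_add]
      ring
    rw [e1, e2]
    rfl
  have h2 : ∀ v ∈ wt ψ ρ l, e v = v := by
    intro v hv
    rw [mem_wt] at hv
    rw [happ]
    have e3 : ∀ u : Fin k → F, ψ (-(l ⬝ᵥ u)) • ρ (x1 u) v = v := by
      intro u
      rw [hv u, smul_smul, ← AddChar.map_add_eq_mul, neg_add_cancel, AddChar.map_zero_eq_one,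
        one_smul]
    rw [Finset.sum_congr rfl (fun u _ => e3 u), Finset.sum_const, Finset.card_univ,
      Fintype.card_fun, Fintype.card_fin, ← Nat.cast_smul_eq_nsmul ℂ, smul_smul, Nat.cast_pow,
      inv_mul_cancel₀ hq, one_smul]
  have hproj : LinearMap.IsProj (wt ψ ρ l) e := ⟨h1, h2⟩
  have htr := hproj.trace
  rw [← htr, he, map_smul, map_sum, smul_eq_mul]
  congr 1
  apply Finset.sum_congr rfl
  intro u _
  rw [map_smul, smul_eq_mul]

end Cfsg.Agent.Lib.Helper18.SLM
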