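import Mathlib
import Cfsg.Agent.Lib.Helper79.NormDef1
import Cfsg.Agent.Lib.Helper81.RegPart
import Cfsg.Agent.Lib.Helper81.BlockReg

/-!
# `l(B) = l(B̄)` for the block `B̄` of `G/Q` contained in `B` (helper79)

`Q` a normal `p`-subgroup whose centralizer has `p`-power index (for instance `G = Q · C_G(Q)`).
-/

set_option autoImplicit false

namespace Cfsg.Agent.Lib.Helper79

open Cfsg Cfsg.Agent.Lib.Helper4 Cfsg.Agent.Lib.Helper21 Cfsg.Agent.Lib.Helper22
  Cfsg.Agent.Lib.Helper81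
open scoped ComplexConjugate

section

variable {G : Type*} [Group G] [Fintype G] {p : ℕ} [Fact p.Prime] {M : Ideal AlgInt}

open scoped Classical in
/-- The `p`-regular elements of `G` and of `G/Q` correspond bijectively when the `p`-regular
elements centralize the normal `p`-subgroup `Q`. -/
theorem sum_regular_quot (Q : Subgroup G) [Q.Normal] [Fintype (G ⧸ Q)] (hQ : IsPGroup p Q)
    (hC : ∃ k : ℕ, (Subgroup.centralizer (Q : Set G)).index = p ^ k) (F : G ⧸ Q → ℂ) :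
    ∑ g : G, (if ¬ p ∣ orderOf g then F (g : G ⧸ Q) else 0) =
      ∑ q : G ⧸ Q, (if ¬ p ∣ orderOf q then F q else 0) := by
  rw [← Finset.sum_filter, ← Finset.sum_filter]
  refine Finset.sum_bij (fun g _ => (g : G ⧸ Q)) ?_ ?_ ?_ ?_
  · intro a ha
    rw [Finset.mem_filter] at ha ⊢
    refine ⟨Finset.mem_univ _, fun hdvd => ha.2 (dvd_trans hdvd ?_)⟩
    exact orderOf_map_dvd (QuotientGroup.mk' Q) a
  · intro a₁ ha₁ a₂ ha₂ h
    rw [Finset.mem_filter] at ha₁ ha₂
    have hq : a₁⁻¹ * a₂ ∈ Q := QuotientGroup.eq.mp h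
    have ha₁C := pRegular_mem_centralizer p Q hC a₁ ha₁.2
    have hcomm : Commute (a₁⁻¹ * a₂) a₁ :=
      (Subgroup.mem_centralizer_iff.mp ha₁C _ hq)
    by_contra hne
    have hq1 : a₁⁻¹ * a₂ ≠ 1 := by
      intro h1
      exact hne (inv_mul_eq_one.mp h1)
    obtain ⟨k, hk⟩ := hQ ⟨a₁⁻¹ * a₂, hq⟩
    have hk' : (a₁⁻¹ * a₂) ^ (p ^ k) = 1 := by simpa using congrArg Subtype.val hk
    have hsing := singular_of_ppart_ne_one p (a₁⁻¹ * a₂) a₁ hcomm hq1 k hk' ha₁.2
    rw [hcomm.eq, mul_inv_cancel_left] at hsing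
    exact ha₂.2 hsing
  · intro b hb
    rw [Finset.mem_filter] at hb
    obtain ⟨y, hy, hyb⟩ := exists_pRegular_lift p Q b hb.2
    exact ⟨y, by rw [Finset.mem_filter]; exact ⟨Finset.mem_univ _, hy⟩, hyb⟩
  · intro a _
    rfl

open scoped Classical in
/-- Sums over the characters with `Q` in the kernel are sums over the characters of `G/Q`. -/
theorem sum_inflate (Q : Subgroup G) [Q.Normal] [Fintype (IrrCharacter G)]
    [Fintype (IrrCharacter (G ⧸ Q))] (f : IrrCharacter G → ℂ) :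
    ∑ χ : IrrCharacter G, (if (∀ u ∈ Q, (χ : G → ℂ) u = (χ : G → ℂ) 1) then f χ else 0) =
      ∑ ψ : IrrCharacter (G ⧸ Q), f (Cfsg.Agent.Lib.Helper83.inflate Q ψ) := by
  rw [← Finset.sum_filter, Finset.sum_subtype (Finset.univ.filter _)
    (p := fun χ : IrrCharacter G => ∀ u ∈ Q, (χ : G → ℂ) u = (χ : G → ℂ) 1) (by simp)]
  exact (Fintype.sum_equiv (Cfsg.Agent.Lib.Helper83.inflateEquiv Q) _ _ (fun ψ => rfl)).symm

omit [Fact p.Prime] in
open scoped Classical in
/-- The trace formula for the `p`-regular rank, with the sums interchanged. -/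
theorem rank_sum_swap [Fintype (IrrCharacter G)] (B : Set (IrrCharacter G)) :
    ∑ χ : IrrCharacter G,
      (if χ ∈ B then classInner (pRegularPart p (χ : G → ℂ)) (χ : G → ℂ) else 0) =
    (Nat.card G : ℂ)⁻¹ * ∑ g : G, (if ¬ p ∣ orderOf g then
      ∑ χ : IrrCharacter G, (if χ ∈ B then (χ : G → ℂ) g * conj ((χ : G → ℂ) g) else 0)
      else 0) := by
  unfold classInner
  have h1 : ∀ χ : IrrCharacter G,
      (if χ ∈ B then (Nat.card G : ℂ)⁻¹ *
        ∑ g : G, pRegularPart p (χ : G → ℂ) g * conj ((χ : G → ℂ) g) else 0) =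
      (Nat.card G : ℂ)⁻¹ * ∑ g : G, (if ¬ p ∣ orderOf g then
        (if χ ∈ B then (χ : G → ℂ) g * conj ((χ : G → ℂ) g) else 0) else 0) := by
    intro χ
    by_cases hχ : χ ∈ B
    · rw [if_pos hχ]
      congr 1
      refine Finset.sum_congr rfl fun g _ => ?_
      by_cases hg : p ∣ orderOf g
      · rw [pRegularPart_of_sing _ hg, if_neg (not_not.mpr hg), zero_mul]
      · rw [pRegularPart_of_reg _ hg, if_pos hg, if_pos hχ]
    · rw [if_neg hχ]
      symm
      rw [mul_eq_zero]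
      right
      refine Finset.sum_eq_zero fun g _ => ?_
      by_cases hg : p ∣ orderOf g
      · rw [if_neg (not_not.mpr hg)]
      · rw [if_pos hg, if_neg hχ]
  rw [Finset.sum_congr rfl (fun χ _ => h1 χ), ← Finset.mul_sum, Finset.sum_comm]
  congr 1
  refine Finset.sum_congr rfl fun g _ => ?_
  by_cases hg : p ∣ orderOf g
  · simp [hg]
  · simp [hg]

/-- `l(B) = l(B̄)`: the `p`-regular rank of a block equals that of the block of `G/Q` it
contains, for a normal `p`-subgroup `Q` whose centralizer has `p`-power index. -/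
theorem blockRank_quot (hM : IsPModular p M) (Q : Subgroup G) [Q.Normal] (hQ : IsPGroup p Q)
    (hC : ∃ k : ℕ, (Subgroup.centralizer (Q : Set G)).index = p ^ k)
    (B : Set (IrrCharacter G)) (hB : IsPBlock M B) :
    blockRank p B =
      blockRank p {ψ : IrrCharacter (G ⧸ Q) | Cfsg.Agent.Lib.Helper83.inflate Q ψ ∈ B} := by
  classical
  letI : Fintype (G ⧸ Q) := Fintype.ofFinite _
  haveI := irr_finite (G := G)
  letI := Fintype.ofFinite (IrrCharacter G)
  haveI := irr_finite (G := G ⧸ Q)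
  letI := Fintype.ofFinite (IrrCharacter (G ⧸ Q))
  have hB' := isPBlock_deflate hM Q hQ hC B hB
  apply Nat.cast_injective (R := ℂ)
  rw [blockRank_eq_sum hM B hB, blockRank_eq_sum hM _ hB', rank_sum_swap, rank_sum_swap]
  -- the inner sums
  set F : G ⧸ Q → ℂ := fun q => ∑ ψ : IrrCharacter (G ⧸ Q),
    (if ψ ∈ {ψ : IrrCharacter (G ⧸ Q) | Cfsg.Agent.Lib.Helper83.inflate Q ψ ∈ B} then
      (ψ : G ⧸ Q → ℂ) q * conj ((ψ : G ⧸ Q → ℂ) q) else 0) with hF
  have hinner : ∀ g : G, ¬ p ∣ orderOf g →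
      ∑ χ : IrrCharacter G, (if χ ∈ B then (χ : G → ℂ) g * conj ((χ : G → ℂ) g) else 0) =
        (Nat.card Q : ℂ) * F (g : G ⧸ Q) := by
    intro g hg
    rw [block_two_point_normal hM B hB Q hQ g g hg hg (pRegular_mem_centralizer p Q hC g hg)]
    congr 1
    have h2 : ∀ χ : IrrCharacter G,
        (if χ ∈ B ∧ (∀ u ∈ Q, (χ : G → ℂ) u = (χ : G → ℂ) 1) then
          (χ : G → ℂ) g * conj ((χ : G → ℂ) g) else 0) =
        (if (∀ u ∈ Q, (χ : G → ℂ) u = (χ : G → ℂ) 1) then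
          (if χ ∈ B then (χ : G → ℂ) g * conj ((χ : G → ℂ) g) else 0) else 0) := by
      intro χ
      by_cases h1 : χ ∈ B <;> by_cases h2 : (∀ u ∈ Q, (χ : G → ℂ) u = (χ : G → ℂ) 1) <;>
        simp [h1, h2]
    rw [Finset.sum_congr rfl (fun χ _ => h2 χ),
      sum_inflate Q (fun χ => if χ ∈ B then (χ : G → ℂ) g * conj ((χ : G → ℂ) g) else 0)]
    rfl
  have hlhs : ∑ g : G, (if ¬ p ∣ orderOf g then
      ∑ χ : IrrCharacter G, (if χ ∈ B then (χ : G → ℂ) g * conj ((χ : G → ℂ) g) else 0)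
      else 0) = ∑ g : G, (if ¬ p ∣ orderOf g then (Nat.card Q : ℂ) * F (g : G ⧸ Q) else 0) := by
    refine Finset.sum_congr rfl fun g _ => ?_
    by_cases hg : p ∣ orderOf g
    · rw [if_neg (not_not.mpr hg), if_neg (not_not.mpr hg)]
    · rw [if_pos hg, if_pos hg, hinner g hg]
  rw [hlhs, sum_regular_quot Q hQ hC (fun q => (Nat.card Q : ℂ) * F q)]
  have hrhs : ∑ q : G ⧸ Q, (if ¬ p ∣ orderOf q then (Nat.card Q : ℂ) * F q else 0) =
      (Nat.card Q : ℂ) * ∑ q : G ⧸ Q, (if ¬ p ∣ orderOf q then F q else 0) := by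
    rw [Finset.mul_sum]
    refine Finset.sum_congr rfl fun q _ => ?_
    by_cases hq : p ∣ orderOf q
    · rw [if_neg (not_not.mpr hq), if_neg (not_not.mpr hq), mul_zero]
    · rw [if_pos hq, if_pos hq]
  rw [hrhs, ← mul_assoc]
  congr 1
  have hcard : (Nat.card G : ℂ) = (Nat.card (G ⧸ Q) : ℂ) * (Nat.card Q : ℂ) := by
    rw [Subgroup.card_eq_card_quotient_mul_card_subgroup Q]
    push_cast; rfl
  have hQ0 : (Nat.card Q : ℂ) ≠ 0 := card_ne_zero Q
  have hGQ0 : (Nat.card (G ⧸ Q) : ℂ) ≠ 0 := card_ne_zero (G ⧸ Q)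
  rw [hcard]
  field_simp

end

end Cfsg.Agent.Lib.Helper79
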