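import Cfsg.Agent.Lib.Helper47.S76Defs

/-!
# S5976 project (helper47), piece UFORMA: the trace form on a field with an isometry of order `r`
whose commuting skew-adjoint maps have square zero.
-/

set_option autoImplicit false

universe u

namespace Cfsg.Agent.Lib.Helper79.S76UFORMA

open Matrix Polynomial Cfsg.Agent.Lib.Helper47 Cfsg.Agent.Lib.Helper47.S76

variable {F : Type u} [Field F]

theorem uform_comm_of_field (d r : ℕ) (K : Type*) [Field K] [Algebra F K] [FiniteDimensional F K]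
    [Algebra.IsSeparable F K] (h2 : (2 : F) ≠ 0)
    (σ : K ≃ₐ[F] K) (hσ : ∀ x, σ (σ x) = x) (lam : K) (hl1 : lam ≠ 1)
    (hlr : lam ^ r = 1) (hls : lam * σ lam = 1) (hsl : σ lam ≠ lam)
    (hgen : Algebra.adjoin F {lam} = ⊤)
    (hsq : ∀ ε : K, (∃ c : F, ε * ε = algebraMap F K c) → σ ε = ε)
    (e : (Fin d ⊕ Fin d → F) ≃ₗ[F] K) :
    ∃ (B : (Fin d ⊕ Fin d → F) → (Fin d ⊕ Fin d → F) → F)
      (g : (Fin d ⊕ Fin d → F) →ₗ[F] (Fin d ⊕ Fin d → F)),
      IsSForm (RingHom.id F) (-1) B ∧ Nondeg B ∧ (∀ x, B x x = 0) ∧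
      (∀ x y, B (g x) (g y) = B x y) ∧ g ^ r = 1 ∧ (∀ v, g v = v → v = 0) ∧
      ∀ (T : (Fin d ⊕ Fin d → F) →ₗ[F] (Fin d ⊕ Fin d → F)) (δ : F),
        (∀ v, T (g v) = g (T v)) → (∀ x y, B (T x) y = - B x (T y)) → (∀ v, T (T v) = δ • v) →
        ∃ c : F, c * c = δ := by
  obtain ⟨B₀, hB₀⟩ : ∃ B₀ : K → K → F,
      ∀ x y, B₀ x y = Algebra.trace F K (lam * (x * σ y - σ x * y)) := ⟨_, fun _ _ => rfl⟩
  have hadd : ∀ x y z, B₀ (x + y) z = B₀ x z + B₀ y z := by
    intro x y z
    rw [hB₀, hB₀, hB₀, ← map_add]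
    congr 1
    rw [map_add]
    ring
  have hsmul : ∀ (c : F) x y, B₀ (c • x) y = c * B₀ x y := by
    intro c x y
    rw [hB₀, hB₀]
    have h1 : lam * (c • x * σ y - σ (c • x) * y) = c • (lam * (x * σ y - σ x * y)) := by
      rw [map_smul, Algebra.smul_def, Algebra.smul_def, Algebra.smul_def]
      ring
    rw [h1, map_smul, smul_eq_mul]
  have hsymm : ∀ x y, B₀ y x = -1 * B₀ x y := by
    intro x y
    rw [hB₀, hB₀, neg_one_mul, ← map_neg]
    congr 1
    ring
  have halt : ∀ x, B₀ x x = 0 := by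
    intro x
    rw [hB₀]
    have h0 : lam * (x * σ x - σ x * x) = 0 := by ring
    rw [h0, map_zero]
  have hinv : ∀ x y, B₀ (lam * x) (lam * y) = B₀ x y := by
    intro x y
    rw [hB₀, hB₀]
    congr 1
    rw [map_mul, map_mul]
    linear_combination (lam * (x * σ y - σ x * y)) * hls
  have hnd : ∀ x, (∀ y, B₀ x y = 0) → x = 0 := by
    intro x hx
    have h1 : ∀ y, B₀ x y = Algebra.trace F K ((lam - σ lam) * x * σ y) := by
      intro y
      rw [hB₀]
      have h2 : lam * (x * σ y - σ x * y) = lam * x * σ y - σ (σ lam * x * σ y) := by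
        rw [map_mul, map_mul, hσ, hσ]
        ring
      rw [h2, map_sub, Algebra.trace_eq_of_algEquiv, ← map_sub]
      congr 1
      ring
    by_contra hx0
    have hc : (lam - σ lam) * x ≠ 0 := mul_ne_zero (sub_ne_zero.mpr (Ne.symm hsl)) hx0
    apply Algebra.trace_ne_zero F K
    apply LinearMap.ext
    intro w
    have h3 := hx (σ (((lam - σ lam) * x)⁻¹ * w))
    rw [h1, hσ, ← mul_assoc, mul_inv_cancel₀ hc, one_mul] at h3
    rw [h3]
    rfl
  obtain ⟨g, hg⟩ : ∃ g : (Fin d ⊕ Fin d → F) →ₗ[F] (Fin d ⊕ Fin d → F),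
      ∀ v, g v = e.symm (lam * e v) :=
    ⟨e.symm.toLinearMap ∘ₗ (LinearMap.mulLeft F lam) ∘ₗ e.toLinearMap, fun _ => rfl⟩
  have hg' : ∀ v, e (g v) = lam * e v := fun v => by rw [hg, e.apply_symm_apply]
  have hpow : ∀ (n : ℕ) v, (g ^ n) v = e.symm (lam ^ n * e v) := by
    intro n
    induction n with
    | zero =>
      intro v
      rw [pow_zero, pow_zero, one_mul, e.symm_apply_apply, Module.End.one_apply]
    | succ n ih =>
      intro v
      rw [pow_succ, Module.End.mul_apply, ih, hg', pow_succ, mul_assoc]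
  refine ⟨fun x y => B₀ (e x) (e y), g, ⟨fun x y z => ?_, fun c x y => ?_, fun x y => ?_⟩,
    ?_, fun x => halt (e x), ?_, ?_, ?_, ?_⟩
  · show B₀ (e (x + y)) (e z) = B₀ (e x) (e z) + B₀ (e y) (e z)
    rw [map_add, hadd]
  · show B₀ (e (c • x)) (e y) = c * B₀ (e x) (e y)
    rw [map_smul, hsmul]
  · show B₀ (e y) (e x) = -1 * (RingHom.id F) (B₀ (e x) (e y))
    rw [RingHom.id_apply]
    exact hsymm _ _
  · intro x hx
    have h1 : e x = 0 := by
      apply hnd
      intro y
      have h2 := hx (e.symm y)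
      have h3 : B₀ (e x) (e (e.symm y)) = 0 := h2
      rw [e.apply_symm_apply] at h3
      exact h3
    exact e.map_eq_zero_iff.mp h1
  · intro x y
    show B₀ (e (g x)) (e (g y)) = B₀ (e x) (e y)
    rw [hg', hg', hinv]
  · apply LinearMap.ext
    intro v
    rw [hpow, hlr, one_mul, e.symm_apply_apply]
    rfl
  · intro v hv
    have h1 : lam * e v = e v := by rw [← hg' v, hv]
    have h2 : (lam - 1) * e v = 0 := by linear_combination h1
    rcases mul_eq_zero.mp h2 with h | h
    · exact absurd (sub_eq_zero.mp h) hl1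
    · exact e.map_eq_zero_iff.mp h
  · intro T δ hTg hTskew hTT
    obtain ⟨T', hT'⟩ : ∃ T' : K →ₗ[F] K, ∀ x, T' x = e (T (e.symm x)) :=
      ⟨e.toLinearMap ∘ₗ T ∘ₗ e.symm.toLinearMap, fun _ => rfl⟩
    have hTlam : ∀ x, T' (lam * x) = lam * T' x := by
      intro x
      rw [hT', hT']
      have h1 : e.symm (lam * x) = g (e.symm x) := by rw [hg, e.apply_symm_apply]
      rw [h1, hTg, hg']
    have hTall : ∀ a x : K, T' (a * x) = a * T' x := by
      intro a
      have ha : a ∈ Algebra.adjoin F {lam} := by rw [hgen]; exact Algebra.mem_top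
      induction ha using Algebra.adjoin_induction with
      | mem y hy =>
        rw [Set.mem_singleton_iff] at hy
        rw [hy]
        exact hTlam
      | algebraMap c =>
        intro x
        rw [← Algebra.smul_def, map_smul, Algebra.smul_def]
      | add a b _ _ iha ihb =>
        intro x
        rw [add_mul, map_add, iha, ihb, add_mul]
      | mul a b _ _ iha ihb =>
        intro x
        rw [mul_assoc, iha, ihb, mul_assoc]
    obtain ⟨ε, hε⟩ : ∃ ε : K, ε = T' 1 := ⟨_, rfl⟩
    have hTε : ∀ x, T' x = x * ε := by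
      intro x
      have h1 := hTall x 1
      rw [mul_one] at h1
      rw [h1, hε]
    have hεε : ε * ε = algebraMap F K δ := by
      have h1 : T' (T' 1) = δ • (1 : K) := by
        rw [hT', hT', e.symm_apply_apply, hTT, map_smul, e.apply_symm_apply]
      rw [hTε (T' 1), hTε 1, one_mul] at h1
      rw [h1, Algebra.smul_def, mul_one]
    have hσε : σ ε = ε := hsq ε ⟨δ, hεε⟩
    have hskew : ∀ x y : K, B₀ (x * ε) y = - B₀ x (y * ε) := by
      intro x y
      have h1 : B₀ (e (T (e.symm x))) (e (e.symm y)) =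
          - B₀ (e (e.symm x)) (e (T (e.symm y))) := hTskew (e.symm x) (e.symm y)
      rw [← hT', ← hT', e.apply_symm_apply, e.apply_symm_apply, hTε, hTε] at h1
      exact h1
    have hzero : ∀ x, B₀ ε x = 0 := by
      intro x
      have h1 := hskew x 1
      have h3 : B₀ (x * ε) 1 = B₀ x (1 * ε) := by
        rw [hB₀, hB₀]
        congr 1
        rw [map_mul, map_one, map_mul, map_one, hσε]
        ring
      rw [h3, one_mul] at h1
      have h4 : (2 : F) * B₀ x ε = 0 := by linear_combination h1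
      have h5 : B₀ x ε = 0 := by
        rcases mul_eq_zero.mp h4 with h | h
        · exact absurd h h2
        · exact h
      rw [hsymm, h5, mul_zero]
    have hε0 : ε = 0 := hnd ε hzero
    refine ⟨0, ?_⟩
    have h6 : algebraMap F K δ = 0 := by rw [← hεε, hε0, mul_zero]
    rw [mul_zero]
    exact ((map_eq_zero (algebraMap F K)).mp h6).symm

end Cfsg.Agent.Lib.Helper79.S76UFORMA
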