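import Cfsg.Agent.Lib.Helper47.S76Defs

/-!
# S5976 project (helper47), piece UFORMB: the field of degree `2 n` over `F` with an element of
order `r`, `ord_r(q) = 2 n`, `n` even.
-/

set_option autoImplicit false

universe u

namespace Cfsg.Agent.Lib.Helper79.S76UFORMB

open Matrix Polynomial Cfsg.Agent.Lib.Helper47 Cfsg.Agent.Lib.Helper47.S76

variable {F : Type u} [Field F]

theorem s76uformb_core [Fintype F] {p : ℕ} [Fact p.Prime] [CharP F p] {q : ℕ}
    (hq : Fintype.card F = q) (r : ℕ) (hr : r.Prime) (hr2 : r ≠ 2) (hrp : r ≠ p) (n : ℕ)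
    (hn : 2 * n = orderOf (q : ZMod r)) (hev : Even n)
    (K : Type*) [Field K] [Algebra F K] [FiniteDimensional F K]
    (hfr : Module.finrank F K = 2 * n) :
    ∃ (σ : K ≃ₐ[F] K) (lam : K),
      (∀ x, σ (σ x) = x) ∧ lam ≠ 1 ∧ lam ^ r = 1 ∧ lam * σ lam = 1 ∧ σ lam ≠ lam ∧
      Algebra.adjoin F {lam} = ⊤ ∧
      (∀ ε : K, (∃ c : F, ε * ε = algebraMap F K c) → σ ε = ε) ∧
      Nonempty ((Fin n ⊕ Fin n → F) ≃ₗ[F] K) := by
  classical
  haveI hrf : Fact r.Prime := ⟨hr⟩
  have hq2 : 2 ≤ q := by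
    rw [← hq]
    exact Fintype.one_lt_card
  have hqr : (q : ZMod r) ≠ 0 := by
    intro h
    rw [ZMod.natCast_eq_zero_iff] at h
    obtain ⟨k, -, hk⟩ := FiniteField.card F p
    rw [hq] at hk
    rw [hk] at h
    exact hrp ((Nat.prime_dvd_prime_iff_eq hr (Fact.out : p.Prime)).mp (hr.dvd_of_dvd_pow h))
  have hfer : (q : ZMod r) ^ (r - 1) = 1 := ZMod.pow_card_sub_one_eq_one hqr
  have ho_pos : 0 < orderOf (q : ZMod r) := by
    rw [orderOf_pos_iff, isOfFinOrder_iff_pow_eq_one]
    exact ⟨r - 1, by have := hr.two_le; omega, hfer⟩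
  have hn1 : 1 ≤ n := by omega
  have hx2 : ((q : ZMod r) ^ n) * ((q : ZMod r) ^ n) = 1 := by
    rw [← pow_add, ← two_mul, hn, pow_orderOf_eq_one]
  have hx1 : (q : ZMod r) ^ n ≠ 1 := pow_ne_one_of_lt_orderOf (by omega) (by omega)
  have hxm : (q : ZMod r) ^ n = -1 := by
    have h1 : ((q : ZMod r) ^ n - 1) * ((q : ZMod r) ^ n + 1) = 0 := by linear_combination hx2
    rcases mul_eq_zero.mp h1 with h | h
    · exact absurd (sub_eq_zero.mp h) hx1
    · exact eq_neg_of_add_eq_zero_left h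
  have hdvd : r ∣ q ^ n + 1 := by
    rw [← ZMod.natCast_eq_zero_iff]
    push_cast
    rw [hxm]
    ring
  haveI : Finite K := Module.finite_of_finite F
  letI : Fintype K := Fintype.ofFinite K
  have hcardK : Fintype.card K = q ^ (2 * n) := by
    rw [Module.card_eq_pow_finrank (K := F) (V := K), hq, hfr]
  have hpowK : ∀ x : K, x ^ (q ^ (2 * n)) = x := by
    intro x
    have h := FiniteField.pow_card x
    rwa [hcardK] at h
  have hqq : q ^ n * q ^ n = q ^ (2 * n) := by rw [two_mul, pow_add]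
  have hN2 : 2 ≤ q ^ n := by
    calc 2 ≤ q := hq2
      _ = q ^ 1 := (pow_one q).symm
      _ ≤ q ^ n := Nat.pow_le_pow_right (by omega) hn1
  obtain ⟨φ, hφ⟩ : ∃ φ : K ≃ₐ[F] K, ∀ x, φ x = x ^ q :=
    ⟨FiniteField.frobeniusAlgEquivOfAlgebraic F K, fun x => by
      rw [FiniteField.coe_frobeniusAlgEquivOfAlgebraic, hq]⟩
  have hφpow : ∀ (k : ℕ) (x : K), (φ ^ k) x = x ^ (q ^ k) := by
    intro k
    induction k with
    | zero =>
      intro x
      simp
    | succ k ih =>
      intro x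
      rw [pow_succ, AlgEquiv.mul_apply, hφ, ih, ← pow_mul, ← pow_succ']
  obtain ⟨σ, hσ⟩ : ∃ σ : K ≃ₐ[F] K, ∀ x, σ x = x ^ (q ^ n) := ⟨φ ^ n, hφpow n⟩
  have hσσ : ∀ x, σ (σ x) = x := by
    intro x
    rw [hσ, hσ, ← pow_mul, hqq, hpowK]
  have hcardU : Nat.card Kˣ = q ^ (2 * n) - 1 := by
    rw [Nat.card_units, Nat.card_eq_fintype_card, hcardK]
  have hrdvd : r ∣ Nat.card Kˣ := by
    rw [hcardU, ← hqq]
    have h1 : q ^ n * q ^ n - 1 = (q ^ n - 1) * (q ^ n + 1) := by
      obtain ⟨N, hN⟩ : ∃ N, q ^ n = N + 2 := ⟨q ^ n - 2, by omega⟩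
      rw [hN]
      have h2 : (N + 2) * (N + 2) = (N + 1) * (N + 2 + 1) + 1 := by ring
      rw [h2]
      rfl
    rw [h1]
    exact Dvd.dvd.mul_left hdvd _
  obtain ⟨u, hu⟩ := exists_prime_orderOf_dvd_card' r hrdvd
  have hur : u ^ r = 1 := by
    rw [← hu]
    exact pow_orderOf_eq_one u
  have hu1 : u ≠ 1 := by
    intro h
    rw [h, orderOf_one] at hu
    exact hr.one_lt.ne hu
  have huq : u ^ (q ^ n + 1) = 1 := by
    rw [← orderOf_dvd_iff_pow_eq_one, hu]
    exact hdvd
  have hl1 : (u : K) ≠ 1 := by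
    intro h
    apply hu1
    exact Units.ext h
  have hlr : (u : K) ^ r = 1 := by
    rw [← Units.val_pow_eq_pow_val, hur, Units.val_one]
  have hls : (u : K) * σ u = 1 := by
    rw [hσ, ← pow_succ', ← Units.val_pow_eq_pow_val, huq, Units.val_one]
  have hsl : σ (u : K) ≠ u := by
    intro h
    rw [h] at hls
    have h2 : orderOf u ∣ 2 := orderOf_dvd_of_pow_eq_one (by
      apply Units.ext
      rw [Units.val_pow_eq_pow_val, pow_two, hls, Units.val_one])
    rw [hu] at h2
    exact hr2 ((Nat.prime_dvd_prime_iff_eq hr Nat.prime_two).mp h2)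
  have hgen : Algebra.adjoin F {(u : K)} = ⊤ := by
    have halg : IsAlgebraic F (u : K) := Algebra.IsAlgebraic.isAlgebraic _
    have hfin : Finite (IntermediateField.adjoin F {(u : K)}) :=
      Finite.of_injective (fun x : IntermediateField.adjoin F {(u : K)} => (x : K))
        Subtype.val_injective
    letI : Fintype (IntermediateField.adjoin F {(u : K)}) := Fintype.ofFinite _
    have hcardL : Fintype.card (IntermediateField.adjoin F {(u : K)}) =
        q ^ Module.finrank F (IntermediateField.adjoin F {(u : K)}) := by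
      rw [Module.card_eq_pow_finrank (K := F) (V := IntermediateField.adjoin F {(u : K)}), hq]
    have hj1 : 0 < Module.finrank F (IntermediateField.adjoin F {(u : K)}) := Module.finrank_pos
    have hmem : (u : K) ∈ IntermediateField.adjoin F {(u : K)} :=
      IntermediateField.mem_adjoin_simple_self F (u : K)
    have hne : (⟨(u : K), hmem⟩ : IntermediateField.adjoin F {(u : K)}) ≠ 0 := by
      intro h
      exact u.ne_zero (congrArg Subtype.val h)
    have hpw := FiniteField.pow_card_sub_one_eq_one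
      (⟨(u : K), hmem⟩ : IntermediateField.adjoin F {(u : K)}) hne
    rw [hcardL] at hpw
    have hpw' : (u : K) ^ (q ^ Module.finrank F (IntermediateField.adjoin F {(u : K)}) - 1) = 1 := by
      have h1 := congrArg Subtype.val hpw
      simpa using h1
    have hpwu : u ^ (q ^ Module.finrank F (IntermediateField.adjoin F {(u : K)}) - 1) = 1 := by
      apply Units.ext
      rw [Units.val_pow_eq_pow_val, hpw', Units.val_one]
    have hrd : r ∣ q ^ Module.finrank F (IntermediateField.adjoin F {(u : K)}) - 1 := by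
      rw [← hu]
      exact orderOf_dvd_of_pow_eq_one hpwu
    have hq1 : 1 ≤ q ^ Module.finrank F (IntermediateField.adjoin F {(u : K)}) :=
      Nat.one_le_pow _ _ (by omega)
    have hzj : (q : ZMod r) ^ Module.finrank F (IntermediateField.adjoin F {(u : K)}) = 1 := by
      have h1 := (ZMod.natCast_eq_zero_iff _ _).mpr hrd
      rw [Nat.cast_sub hq1] at h1
      push_cast at h1
      exact sub_eq_zero.mp h1
    have h2nj : 2 * n ∣ Module.finrank F (IntermediateField.adjoin F {(u : K)}) := by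
      rw [hn]
      exact orderOf_dvd_of_pow_eq_one hzj
    have hjle : Module.finrank F (IntermediateField.adjoin F {(u : K)}) ≤ 2 * n := by
      rw [← hfr]
      exact Submodule.finrank_le
        (Subalgebra.toSubmodule (IntermediateField.adjoin F {(u : K)}).toSubalgebra)
    have hjeq : Module.finrank F (IntermediateField.adjoin F {(u : K)}) = Module.finrank F K := by
      rw [hfr]
      exact le_antisymm hjle (Nat.le_of_dvd hj1 h2nj)
    rw [← IntermediateField.adjoin_simple_toSubalgebra_of_isAlgebraic halg]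
    apply Algebra.toSubmodule_eq_top.mp
    exact Submodule.eq_top_of_finrank_eq hjeq
  have hsq : ∀ ε : K, (∃ c : F, ε * ε = algebraMap F K c) → σ ε = ε := by
    rintro ε ⟨c, hc⟩
    have h1 : φ ε * φ ε = ε * ε := by
      rw [← map_mul, hc, AlgEquiv.commutes]
    have h2 : (φ ε - ε) * (φ ε + ε) = 0 := by linear_combination h1
    have h3 : φ (φ ε) = ε := by
      rcases mul_eq_zero.mp h2 with h | h
      · have h4 : φ ε = ε := sub_eq_zero.mp h
        rw [h4, h4]
      · have h4 : φ ε = -ε := eq_neg_of_add_eq_zero_left h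
        rw [h4, map_neg, h4, neg_neg]
    have h5 : ε ^ (q ^ 2) = ε := by
      have h6 := h3
      rw [hφ, hφ, ← pow_mul, ← pow_two] at h6
      exact h6
    obtain ⟨m, hm⟩ := hev
    have h6 : ∀ j : ℕ, ε ^ ((q ^ 2) ^ j) = ε := by
      intro j
      induction j with
      | zero => simp
      | succ j ih => rw [pow_succ, pow_mul, ih, h5]
    rw [hσ, hm, ← two_mul, pow_mul]
    exact h6 m
  have hfrK : Module.finrank F (Fin n ⊕ Fin n → F) = Module.finrank F K := by
    rw [hfr, Module.finrank_fintype_fun_eq_card, Fintype.card_sum, Fintype.card_fin, two_mul]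
  exact ⟨σ, u, hσσ, hl1, hlr, hls, hsl, hgen, hsq, ⟨LinearEquiv.ofFinrankEq _ _ hfrK⟩⟩

theorem exists_field_even [Fintype F] {p : ℕ} [Fact p.Prime] [CharP F p] {q : ℕ}
    (hq : Fintype.card F = q) (r : ℕ) (hr : r.Prime) (hr2 : r ≠ 2) (hrp : r ≠ p) (n : ℕ)
    (hn : 2 * n = orderOf (q : ZMod r)) (hev : Even n) :
    ∃ (K : Type u) (_ : Field K) (_ : Algebra F K) (_ : FiniteDimensional F K)
      (_ : Algebra.IsSeparable F K) (σ : K ≃ₐ[F] K) (lam : K),
      (∀ x, σ (σ x) = x) ∧ lam ≠ 1 ∧ lam ^ r = 1 ∧ lam * σ lam = 1 ∧ σ lam ≠ lam ∧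
      Algebra.adjoin F {lam} = ⊤ ∧
      (∀ ε : K, (∃ c : F, ε * ε = algebraMap F K c) → σ ε = ε) ∧
      Nonempty ((Fin n ⊕ Fin n → F) ≃ₗ[F] K) := by
  have hn0 : NeZero (2 * n) := by
    constructor
    intro h
    have hrf : Fact r.Prime := ⟨hr⟩
    have hqr : (q : ZMod r) ≠ 0 := by
      intro h'
      rw [ZMod.natCast_eq_zero_iff] at h'
      obtain ⟨k, -, hk⟩ := FiniteField.card F p
      rw [hq] at hk
      rw [hk] at h'
      exact hrp ((Nat.prime_dvd_prime_iff_eq hr (Fact.out : p.Prime)).mp (hr.dvd_of_dvd_pow h'))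
    have hfer : (q : ZMod r) ^ (r - 1) = 1 := ZMod.pow_card_sub_one_eq_one hqr
    have ho_pos : 0 < orderOf (q : ZMod r) := by
      rw [orderOf_pos_iff, isOfFinOrder_iff_pow_eq_one]
      exact ⟨r - 1, by have := hr.two_le; omega, hfer⟩
    omega
  have hfr : Module.finrank F (ULift.{u} (FiniteField.Extension F p (2 * n))) = 2 * n := by
    rw [finrank_ulift, FiniteField.finrank_extension]
  obtain ⟨σ, lam, h⟩ := s76uformb_core hq r hr hr2 hrp n hn hev
    (ULift.{u} (FiniteField.Extension F p (2 * n))) hfr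
  exact ⟨ULift.{u} (FiniteField.Extension F p (2 * n)), inferInstance, inferInstance,
    inferInstance, inferInstance, σ, lam, h⟩

end Cfsg.Agent.Lib.Helper79.S76UFORMB
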