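import Mathlib

/-!
# Project QB (helper48, S2359), piece CF5 (helper79): the normal 2-complement centralizes the
Sylow 2-subgroup.
-/

set_option autoImplicit false

namespace Cfsg.Agent.Lib.Helper48.QB

/-- a 2-element centralizing a Sylow 2-subgroup lies in it -/
theorem CF5_mem {C : Type*} [Group C] [Finite C] (V : Sylow 2 C) (w : C) (hw : w * w = 1)
    (hc : w ∈ Subgroup.centralizer ((V : Subgroup C) : Set C)) : w ∈ (V : Subgroup C) := by
  have hP : IsPGroup 2 ↥(Subgroup.zpowers w) := by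
    rintro ⟨x, hx⟩
    obtain ⟨n, rfl⟩ := Subgroup.mem_zpowers_iff.mp hx
    refine ⟨1, Subtype.ext ?_⟩
    show (w ^ n) ^ 2 ^ 1 = 1
    rw [pow_one, ← zpow_natCast, ← zpow_mul, mul_comm, zpow_mul, zpow_natCast, pow_two, hw,
      one_zpow]
  have h1 := IsPGroup.inf_normalizer_sylow hP V
  have h2 : w ∈ Subgroup.zpowers w ⊓ Subgroup.normalizer ((V : Subgroup C) : Set C) :=
    ⟨Subgroup.mem_zpowers w, Subgroup.centralizer_le_normalizer _ hc⟩
  have h3 : w ∈ Subgroup.zpowers w ⊓ (V : Subgroup C) := by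
    rw [← h1]
    exact h2
  exact h3.2

-- QB-CF5
theorem cf_kernel {C : Type*} [Group C] [Finite C] (V : Sylow 2 C) (hV4 : Nat.card V = 4)
    (hE : ∀ x ∈ V, x * x = 1)
    (hcent : ∀ v ∈ V, v ≠ 1 →
      Subgroup.centralizer {v} = Subgroup.centralizer ((V : Subgroup C) : Set C))
    (K : Subgroup C) (hKn : K.Normal) (hKV : K ⊓ (V : Subgroup C) = ⊥)
    (hKV' : ∀ c : C, ∃ k ∈ K, ∃ v ∈ V, c = k * v)
    (hdih : ∀ a b : C, a * a = 1 → b * b = 1 → (∃ g : C, g * a * g⁻¹ = b) ∨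
      ∃ z : C, z ≠ 1 ∧ z * z = 1 ∧ z * a = a * z ∧ z * b = b * z) :
    ∀ k ∈ K, k ∈ Subgroup.centralizer ((V : Subgroup C) : Set C) := by
  classical
  intro k hk
  -- `V` is abelian
  have hinv : ∀ x ∈ V, x⁻¹ = x := fun x hx => inv_eq_of_mul_eq_one_left (hE x hx)
  have hcomm : ∀ x ∈ V, ∀ y ∈ V, x * y = y * x := by
    intro x hx y hy
    have hxy : (x * y)⁻¹ = x * y := inv_eq_of_mul_eq_one_left (hE _ (mul_mem hx hy))
    calc x * y = (x * y)⁻¹ := hxy.symm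
      _ = y⁻¹ * x⁻¹ := mul_inv_rev x y
      _ = y * x := by rw [hinv x hx, hinv y hy]
  -- two distinct non-identity elements
  have hex : ∃ v₁ v₂ : C, v₁ ∈ V ∧ v₂ ∈ V ∧ v₁ ≠ 1 ∧ v₂ ≠ 1 ∧ v₁ ≠ v₂ := by
    haveI : Fintype ↥(V : Subgroup C) := Fintype.ofFinite _
    have h3 : 2 < Fintype.card ↥(V : Subgroup C) := by
      rw [← Nat.card_eq_fintype_card, hV4]
      norm_num
    obtain ⟨a, b, c, hab, hac, hbc⟩ := Fintype.two_lt_card_iff.mp h3
    have hne : ∀ x y : ↥(V : Subgroup C), x ≠ y → (x : C) ≠ (y : C) :=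
      fun x y h h' => h (Subtype.ext h')
    by_cases ha : (a : C) = 1
    · refine ⟨b, c, b.2, c.2, ?_, ?_, hne b c hbc⟩
      · intro hb
        exact hne a b hab (ha.trans hb.symm)
      · intro hc
        exact hne a c hac (ha.trans hc.symm)
    · by_cases hb : (b : C) = 1
      · refine ⟨a, c, a.2, c.2, ha, ?_, hne a c hac⟩
        intro hc
        exact hne b c hbc (hb.trans hc.symm)
      · exact ⟨a, b, a.2, b.2, ha, hb, hne a b hab⟩
  obtain ⟨v₁, v₂, hv₁, hv₂, hv₁1, hv₂1, hne⟩ := hex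
  have hb2 : (k * v₂ * k⁻¹) * (k * v₂ * k⁻¹) = 1 := by
    have e : (k * v₂ * k⁻¹) * (k * v₂ * k⁻¹) = k * (v₂ * v₂) * k⁻¹ := by group
    rw [e, hE v₂ hv₂, mul_one, mul_inv_cancel]
  rcases hdih v₁ (k * v₂ * k⁻¹) (hE v₁ hv₁) hb2 with ⟨g, hg⟩ | ⟨z, hz1, hz2, hza, hzb⟩
  · exfalso
    obtain ⟨k', hk', v', hv', hgk⟩ := hKV' g
    have hvc : v' * v₁ * v'⁻¹ = v₁ := by
      rw [hcomm v' hv' v₁ hv₁, mul_inv_cancel_right]
    have hm : k⁻¹ * k' ∈ K := K.mul_mem (K.inv_mem hk) hk'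
    have h2 : v₂ = (k⁻¹ * k') * v₁ * (k⁻¹ * k')⁻¹ := by
      have h : k * v₂ * k⁻¹ = k' * (v' * v₁ * v'⁻¹) * k'⁻¹ := by
        rw [← hg, hgk]
        group
      rw [hvc] at h
      calc v₂ = k⁻¹ * (k * v₂ * k⁻¹) * k := by group
        _ = k⁻¹ * (k' * v₁ * k'⁻¹) * k := by rw [h]
        _ = _ := by group
    have h3 : v₁⁻¹ * v₂ ∈ K := by
      have h4 := hKn.conj_mem _ hm v₁⁻¹
      have h5 := K.mul_mem h4 (K.inv_mem hm)
      have e : v₁⁻¹ * v₂ = v₁⁻¹ * (k⁻¹ * k') * v₁⁻¹⁻¹ * (k⁻¹ * k')⁻¹ := by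
        rw [h2]
        group
      rw [e]
      exact h5
    have h6 : v₁⁻¹ * v₂ ∈ (V : Subgroup C) :=
      (V : Subgroup C).mul_mem ((V : Subgroup C).inv_mem hv₁) hv₂
    have h7 : v₁⁻¹ * v₂ = 1 := by
      have h8 : v₁⁻¹ * v₂ ∈ K ⊓ (V : Subgroup C) := ⟨h3, h6⟩
      rw [hKV] at h8
      exact Subgroup.mem_bot.mp h8
    exact hne (inv_mul_eq_one.mp h7)
  · -- `z ∈ V`
    have hzc : z ∈ Subgroup.centralizer ((V : Subgroup C) : Set C) := by
      rw [← hcent v₁ hv₁ hv₁1, Subgroup.mem_centralizer_iff]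
      intro h hh
      rw [Set.mem_singleton_iff] at hh
      rw [hh]
      exact hza.symm
    have hzV : z ∈ (V : Subgroup C) := CF5_mem V z hz2 hzc
    -- `z' = k⁻¹ z k ∈ V`
    have hz'2 : (k⁻¹ * z * k) * (k⁻¹ * z * k) = 1 := by
      have e : (k⁻¹ * z * k) * (k⁻¹ * z * k) = k⁻¹ * (z * z) * k := by group
      rw [e, hz2, mul_one, inv_mul_cancel]
    have hz'c : k⁻¹ * z * k ∈ Subgroup.centralizer ((V : Subgroup C) : Set C) := by
      rw [← hcent v₂ hv₂ hv₂1, Subgroup.mem_centralizer_iff]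
      intro h hh
      rw [Set.mem_singleton_iff] at hh
      rw [hh]
      calc v₂ * (k⁻¹ * z * k) = k⁻¹ * ((k * v₂ * k⁻¹) * z) * k := by group
        _ = k⁻¹ * (z * (k * v₂ * k⁻¹)) * k := by rw [hzb]
        _ = k⁻¹ * z * k * v₂ := by group
    have hz'V : k⁻¹ * z * k ∈ (V : Subgroup C) := CF5_mem V _ hz'2 hz'c
    have h3 : k⁻¹ * z * k * z⁻¹ ∈ K := by
      have h4 := hKn.conj_mem k hk z
      have h5 := K.mul_mem (K.inv_mem hk) h4
      have e : k⁻¹ * z * k * z⁻¹ = k⁻¹ * (z * k * z⁻¹) := by group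
      rw [e]
      exact h5
    have h6 : k⁻¹ * z * k * z⁻¹ ∈ (V : Subgroup C) :=
      (V : Subgroup C).mul_mem hz'V ((V : Subgroup C).inv_mem hzV)
    have h7 : k⁻¹ * z * k * z⁻¹ = 1 := by
      have h8 : k⁻¹ * z * k * z⁻¹ ∈ K ⊓ (V : Subgroup C) := ⟨h3, h6⟩
      rw [hKV] at h8
      exact Subgroup.mem_bot.mp h8
    have h9 : z * k = k * z := by
      have h10 : k⁻¹ * z * k = z := mul_inv_eq_one.mp h7
      calc z * k = k * (k⁻¹ * z * k) := by group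
        _ = k * z := by rw [h10]
    rw [← hcent z hzV hz1, Subgroup.mem_centralizer_iff]
    intro h hh
    rw [Set.mem_singleton_iff] at hh
    rw [hh]
    exact h9

end Cfsg.Agent.Lib.Helper48.QB
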