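import Mathlib
import Cfsg.Agent.Lib.Helper59.XS0

/-!
# S3054 / S3055 piece ZLE (helper79 for helper59)

In an extraspecial group `P` of order `p³` with centre `Z`, every subgroup of order `p²`
contains `Z`.
-/

set_option autoImplicit false

namespace Cfsg.Agent.Lib.Helper59.XS

open scoped commutatorElement

variable {G : Type*} [Group G]

/-! ### Piece ZLE : the centre lies in every subgroup of order `p²` -/
theorem Z_le_of_card {p : ℕ} [Fact p.Prime] {P Z : Subgroup G} (h : Setup p P Z)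
    {A : Subgroup G} (hAP : A ≤ P) (hA : Nat.card A = p ^ 2) : Z ≤ A := by
  have hp : p.Prime := Fact.out
  by_contra hZA
  have hdisj : ∀ z, z ∈ A → z ∈ Z → z = 1 := by
    intro z hzA hzZ
    by_contra hz1
    apply hZA
    intro w hw
    have hmem : (⟨w, hw⟩ : Z) ∈ Subgroup.zpowers (⟨z, hzZ⟩ : Z) :=
      mem_zpowers_of_prime_card h.hZcard (fun hh => hz1 (congrArg Subtype.val hh))
    obtain ⟨k, hk⟩ := Subgroup.mem_zpowers_iff.mp hmem
    have hwk : w = z ^ k := by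
      have := congrArg Subtype.val hk
      simpa using this.symm
    rw [hwk]
    exact A.zpow_mem hzA k
  have hfinP : Finite P :=
    Nat.finite_of_card_ne_zero (by rw [h.hcard]; exact (pow_pos hp.pos 3).ne')
  have hfinZ : Finite Z :=
    Nat.finite_of_card_ne_zero (by rw [h.hZcard]; exact hp.pos.ne')
  let f : A × Z → P := fun x => ⟨x.1.1 * x.2.1, P.mul_mem (hAP x.1.2) (h.hZP x.2.2)⟩
  have hinj : Function.Injective f := by
    rintro ⟨a, z⟩ ⟨a', z'⟩ hf
    have hf' : a.1 * z.1 = a'.1 * z'.1 := congrArg Subtype.val hf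
    have h1 : a'.1⁻¹ * a.1 = z'.1 * z.1⁻¹ := by
      calc a'.1⁻¹ * a.1 = a'.1⁻¹ * (a.1 * z.1) * z.1⁻¹ := by group
        _ = a'.1⁻¹ * (a'.1 * z'.1) * z.1⁻¹ := by rw [hf']
        _ = z'.1 * z.1⁻¹ := by group
    have h2 : a'.1⁻¹ * a.1 = 1 :=
      hdisj _ (A.mul_mem (A.inv_mem a'.2) a.2) (h1 ▸ Z.mul_mem z'.2 (Z.inv_mem z.2))
    have h3 : a.1 = a'.1 := (inv_mul_eq_one.mp h2).symm
    have h4 : z.1 = z'.1 := by
      rw [h3] at hf'
      exact mul_left_cancel hf'
    exact Prod.ext (Subtype.ext h3) (Subtype.ext h4)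
  have hbij : Function.Bijective f := hinj.bijective_of_nat_card_le (by
    rw [Nat.card_prod, hA, h.hZcard, h.hcard]; exact le_of_eq (by ring))
  have hAcomm : ∀ a b : A, a * b = b * a := IsPGroup.commutative_of_card_eq_prime_sq hA
  have hPcomm : ∀ u ∈ P, ∀ v ∈ P, u * v = v * u := by
    intro u hu v hv
    obtain ⟨⟨a, z⟩, hx⟩ := hbij.2 ⟨u, hu⟩
    obtain ⟨⟨a', z'⟩, hy⟩ := hbij.2 ⟨v, hv⟩
    have hu' : u = a.1 * z.1 := (congrArg Subtype.val hx).symm
    have hv' : v = a'.1 * z'.1 := (congrArg Subtype.val hy).symm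
    have hc1 : a.1 * a'.1 = a'.1 * a.1 := congrArg Subtype.val (hAcomm a a')
    have hc2 := h.hZc z.1 z.2 a'.1 (hAP a'.2)
    have hc3 := h.hZc z'.1 z'.2 a.1 (hAP a.2)
    have hc4 := h.hZc z.1 z.2 z'.1 (h.hZP z'.2)
    rw [hu', hv']
    calc a.1 * z.1 * (a'.1 * z'.1) = a.1 * (z.1 * a'.1) * z'.1 := by group
      _ = a.1 * (a'.1 * z.1) * z'.1 := by rw [hc2]
      _ = (a.1 * a'.1) * (z.1 * z'.1) := by group
      _ = (a'.1 * a.1) * (z'.1 * z.1) := by rw [hc1, hc4]
      _ = a'.1 * (a.1 * z'.1) * z.1 := by group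
      _ = a'.1 * (z'.1 * a.1) * z.1 := by rw [hc3]
      _ = a'.1 * z'.1 * (a.1 * z.1) := by group
  have hPZ : P ≤ Z := fun u hu => h.hZmem u hu (fun a ha => hPcomm a ha u hu)
  have hle := Subgroup.card_le_of_le hPZ
  rw [h.hcard, h.hZcard] at hle
  have hp2 := hp.two_le
  have h3 : p ^ 3 = p * (p * p) := by ring
  nlinarith

end Cfsg.Agent.Lib.Helper59.XS
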