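import Mathlib

/-! Project EP (helper7) = S5746, piece COATOM (copy by helper79): a point stabiliser is maximal
when no proper union of suborbits has a size dividing the degree. -/

set_option autoImplicit false

namespace Cfsg.Agent.Lib.Helper7.EP

/-- the index of a point stabiliser is the size of the orbit -/
theorem EPCOATOM_index {Y : Type*} [Group Y] {n : ℕ} (σ : Y →* Equiv.Perm (Fin n))
    (ω : Fin n) [DecidablePred fun i : Fin n => ∃ y : Y, σ y ω = i] :
    ((MulAction.stabilizer (Equiv.Perm (Fin n)) ω).comap σ).index =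
      (Finset.univ.filter (fun i : Fin n => ∃ y : Y, σ y ω = i)).card := by
  letI : MulAction Y (Fin n) := MulAction.compHom (Fin n) σ
  have h1 : (MulAction.stabilizer (Equiv.Perm (Fin n)) ω).comap σ = MulAction.stabilizer Y ω := by
    ext y
    rfl
  have h2 : MulAction.orbit Y ω =
      ↑(Finset.univ.filter (fun i : Fin n => ∃ y : Y, σ y ω = i)) := by
    ext i
    simp only [Finset.coe_filter, Finset.mem_univ, true_and, Set.mem_setOf_eq]
    rfl
  rw [h1, MulAction.index_stabilizer, h2, Set.ncard_coe_finset]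

/-- COATOM: a point stabiliser is maximal when no proper union of suborbits has a size dividing
the degree.  `c` labels the points; the labels `< r` are the orbit of `ω` under `X`, and the points
of equal label `< r` are the orbits of `L ≤ Stab(ω)`. -/
theorem EPCOATOM {X : Type*} [Group X] [Finite X] {n : ℕ} (ρ : X →* Equiv.Perm (Fin n)) (ω : Fin n)
    (r : ℕ) (c : Fin n → ℕ) (L : Subgroup X)
    (hLfix : ∀ l ∈ L, ρ l ω = ω)
    (hOrb : ∀ i : Fin n, c i < r ↔ ∃ x : X, ρ x ω = i)
    (hconn : ∀ i j : Fin n, c i < r → c i = c j → ∃ l ∈ L, ρ l i = j)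
    (harith : ∀ J ∈ (Finset.range r).powerset,
      (∑ k ∈ J, (Finset.univ.filter (fun i : Fin n => c i = k)).card) ∣
        (Finset.univ.filter (fun i : Fin n => c i < r)).card →
      1 < ∑ k ∈ J, (Finset.univ.filter (fun i : Fin n => c i = k)).card →
      ∑ k ∈ J, (Finset.univ.filter (fun i : Fin n => c i = k)).card =
        (Finset.univ.filter (fun i : Fin n => c i < r)).card)
    (hnt : ∃ x : X, ρ x ω ≠ ω) :
    IsCoatom ((MulAction.stabilizer (Equiv.Perm (Fin n)) ω).comap ρ) := by
  classical
  obtain ⟨S, hS⟩ : ∃ S : Subgroup X, S = (MulAction.stabilizer (Equiv.Perm (Fin n)) ω).comap ρ :=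
    ⟨_, rfl⟩
  rw [← hS]
  have hmemS : ∀ x : X, x ∈ S ↔ ρ x ω = ω := by
    intro x
    rw [hS]
    rfl
  refine ⟨?_, ?_⟩
  · intro htop
    obtain ⟨x, hx⟩ := hnt
    apply hx
    rw [← hmemS, htop]
    exact Subgroup.mem_top x
  · intro M hSM
    obtain ⟨B, hB⟩ : ∃ B : Finset (Fin n),
        B = Finset.univ.filter (fun i : Fin n => ∃ m ∈ M, ρ m ω = i) := ⟨_, rfl⟩
    have hmemB : ∀ i, i ∈ B ↔ ∃ m ∈ M, ρ m ω = i := by
      intro i
      rw [hB, Finset.mem_filter]
      exact ⟨fun h => h.2, fun h => ⟨Finset.mem_univ _, h⟩⟩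
    have hLM : ∀ l ∈ L, l ∈ M := fun l hl => hSM.le ((hmemS l).2 (hLfix l hl))
    have hBr : ∀ i ∈ B, c i < r := by
      intro i hi
      obtain ⟨m, -, hm⟩ := (hmemB i).1 hi
      exact (hOrb i).2 ⟨m, hm⟩
    have hBc : ∀ i ∈ B, ∀ j, c i = c j → j ∈ B := by
      intro i hi j hij
      have hir := hBr i hi
      obtain ⟨m, hm, hmi⟩ := (hmemB i).1 hi
      obtain ⟨l, hl, hlj⟩ := hconn i j hir hij
      refine (hmemB j).2 ⟨l * m, M.mul_mem (hLM l hl) hm, ?_⟩
      rw [map_mul, Equiv.Perm.mul_apply, hmi, hlj]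
    have hcard : B.card =
        ∑ k ∈ B.image c, (Finset.univ.filter (fun i : Fin n => c i = k)).card := by
      rw [Finset.card_eq_sum_card_fiberwise (f := c) (t := B.image c)
        (fun x hx => Finset.mem_image_of_mem c hx)]
      apply Finset.sum_congr rfl
      intro k hk
      congr 1
      ext i
      simp only [Finset.mem_filter, Finset.mem_univ, true_and]
      constructor
      · exact fun h => h.2
      · intro hik
        obtain ⟨i', hi', hi'k⟩ := Finset.mem_image.mp hk
        exact ⟨hBc i' hi' i (hi'k.trans hik.symm), hik⟩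
    have hJ : B.image c ∈ (Finset.range r).powerset := by
      rw [Finset.mem_powerset]
      intro k hk
      obtain ⟨i, hi, rfl⟩ := Finset.mem_image.mp hk
      exact Finset.mem_range.mpr (hBr i hi)
    have hidx : S.index = (Finset.univ.filter (fun i : Fin n => c i < r)).card := by
      rw [hS, EPCOATOM_index ρ ω]
      congr 1
      ext i
      simp only [Finset.mem_filter, Finset.mem_univ, true_and]
      exact (hOrb i).symm
    have hrel : S.relIndex M = B.card := by
      have h1 := EPCOATOM_index (ρ.comp M.subtype) ω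
      have h2 : (MulAction.stabilizer (Equiv.Perm (Fin n)) ω).comap (ρ.comp M.subtype) =
          S.subgroupOf M := by
        rw [hS]
        rfl
      rw [h2] at h1
      have h3 : S.relIndex M = (S.subgroupOf M).index := rfl
      rw [h3, h1]
      congr 1
      ext i
      rw [hmemB]
      simp only [Finset.mem_filter, Finset.mem_univ, true_and]
      constructor
      · rintro ⟨⟨m, hm⟩, hmi⟩
        exact ⟨m, hm, hmi⟩
      · rintro ⟨m, hm, hmi⟩
        exact ⟨⟨m, hm⟩, hmi⟩
    have hmul := Subgroup.relIndex_mul_index hSM.le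
    have hdvd : B.card ∣ (Finset.univ.filter (fun i : Fin n => c i < r)).card := by
      rw [← hidx, ← hrel]
      exact Dvd.intro _ hmul
    have hone : 1 < B.card := by
      obtain ⟨m, hmM, hmS⟩ := SetLike.exists_of_lt hSM
      rw [hmemS] at hmS
      rw [Finset.one_lt_card]
      refine ⟨ω, ?_, ρ m ω, ?_, fun h => hmS h.symm⟩
      · exact (hmemB ω).2 ⟨1, M.one_mem, by simp⟩
      · exact (hmemB _).2 ⟨m, hmM, rfl⟩
    have hfin := harith (B.image c) hJ (by rw [← hcard]; exact hdvd) (by rw [← hcard]; exact hone)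
    rw [← hcard, ← hidx, ← hrel] at hfin
    have hS0 : S.index ≠ 0 := Subgroup.index_ne_zero_of_finite
    have hpos : 0 < S.relIndex M := by
      rw [hfin]
      exact Nat.pos_of_ne_zero hS0
    have hM1 : M.index = 1 :=
      Nat.eq_of_mul_eq_mul_left hpos (by rw [hmul, mul_one, hfin])
    exact Subgroup.index_eq_one.mp hM1

end Cfsg.Agent.Lib.Helper7.EP
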