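import Mathlib
import Cfsg.Prelude.Def_Characters
import Cfsg.Prelude.Def_Blocks
import Cfsg.Agent.Lib.Helper83.Codeg
import Cfsg.Agent.Lib.Helper79.FSCount

set_option autoImplicit false

namespace Cfsg.Agent.Lib.Helper79

open scoped ComplexConjugate
open Cfsg.Agent.Lib.Helper4

section Twist

variable {G : Type*} [Group G] [Fintype G]

theorem hom_pow_card (lam : G →* ℂˣ) (g : G) : ((lam g : ℂˣ) : ℂ) ^ Nat.card G = 1 := by
  have h : lam g ^ Nat.card G = 1 := by
    rw [← map_pow, pow_card_eq_one', map_one]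
  have h2 := congrArg (fun u : ℂˣ => (u : ℂ)) h
  simpa using h2

theorem norm_hom (lam : G →* ℂˣ) (g : G) : ‖((lam g : ℂˣ) : ℂ)‖ = 1 :=
  Complex.norm_eq_one_of_pow_eq_one (hom_pow_card lam g) Nat.card_pos.ne'

theorem hom_mul_conj (lam : G →* ℂˣ) (g : G) :
    ((lam g : ℂˣ) : ℂ) * conj ((lam g : ℂˣ) : ℂ) = 1 := by
  rw [Complex.mul_conj, Complex.normSq_eq_norm_sq, norm_hom]
  simp

/-- Twisting an irreducible character by a linear character gives an irreducible character. -/
theorem isIrr_twist (lam : G →* ℂˣ) (χ : Cfsg.IrrCharacter G) :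
    Cfsg.IsIrrCharacter G (fun g => ((lam g : ℂˣ) : ℂ) * (χ : G → ℂ) g) := by
  classical
  have := Cfsg.Agent.Lib.Helper4.irr_finite (G := G)
  letI : Fintype (Cfsg.IrrCharacter G) := Fintype.ofFinite _
  apply isIrrCharacter_of_norm_one
  · obtain ⟨n, ρ, -, hχ⟩ := χ.2
    refine ⟨n, { toFun := fun g => ((lam g : ℂˣ) : ℂ) • ρ g, map_one' := by simp,
                  map_mul' := ?_ }, ?_⟩
    · intro g h
      simp only [map_mul, Units.val_mul]
      rw [smul_mul_smul_comm]
    · funext g
      simp [Representation.character, ← hχ]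
  · have h1 := classInner_irr χ χ
    rw [if_pos rfl] at h1
    rw [← h1]
    simp only [Cfsg.classInner]
    congr 1
    apply Finset.sum_congr rfl
    intro g _
    rw [map_mul]
    have := hom_mul_conj lam g
    linear_combination ((χ : G → ℂ) g * conj ((χ : G → ℂ) g)) * this

/-- The twist of an irreducible character by a linear character. -/
noncomputable def twist (lam : G →* ℂˣ) (χ : Cfsg.IrrCharacter G) : Cfsg.IrrCharacter G :=
  ⟨fun g => ((lam g : ℂˣ) : ℂ) * (χ : G → ℂ) g, isIrr_twist lam χ⟩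

theorem twist_apply (lam : G →* ℂˣ) (χ : Cfsg.IrrCharacter G) (g : G) :
    (twist lam χ : G → ℂ) g = ((lam g : ℂˣ) : ℂ) * (χ : G → ℂ) g := rfl

theorem twist_one (χ : Cfsg.IrrCharacter G) : twist 1 χ = χ := by
  apply Subtype.ext
  funext g
  simp [twist_apply]

theorem twist_mul (lam mu : G →* ℂˣ) (χ : Cfsg.IrrCharacter G) :
    twist (lam * mu) χ = twist lam (twist mu χ) := by
  apply Subtype.ext
  funext g
  simp [twist_apply, mul_assoc]

theorem twist_comm (lam mu : G →* ℂˣ) (χ : Cfsg.IrrCharacter G) :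
    twist lam (twist mu χ) = twist mu (twist lam χ) := by
  rw [← twist_mul, ← twist_mul]
  exact congrArg (fun l => twist l χ) (mul_comm lam mu)

theorem inv_mul_hom (lam : G →* ℂˣ) : lam⁻¹ * lam = 1 := inv_mul_cancel lam

theorem twist_injective (lam : G →* ℂˣ) : Function.Injective (twist (G := G) lam) := by
  intro χ ψ h
  have h2 := congrArg (twist lam⁻¹) h
  rwa [← twist_mul, ← twist_mul, inv_mul_hom, twist_one, twist_one] at h2

theorem charDegree_twist (lam : G →* ℂˣ) (χ : Cfsg.IrrCharacter G) :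
    Cfsg.charDegree (twist lam χ : G → ℂ) = Cfsg.charDegree (χ : G → ℂ) := by
  unfold Cfsg.charDegree
  rw [twist_apply]
  simp

/-- The stabilizer of an irreducible character under twisting. -/
noncomputable def twistStab (χ : Cfsg.IrrCharacter G) : Subgroup (G →* ℂˣ) where
  carrier := {lam | twist lam χ = χ}
  one_mem' := twist_one χ
  mul_mem' := by
    intro a b ha hb
    simp only [Set.mem_setOf_eq] at ha hb ⊢
    rw [twist_mul, hb, ha]
  inv_mem' := by
    intro a ha
    simp only [Set.mem_setOf_eq] at ha ⊢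
    have h : twist a⁻¹ (twist a χ) = χ := by
      rw [← twist_mul, inv_mul_hom, twist_one]
    rwa [ha] at h

theorem mem_twistStab (χ : Cfsg.IrrCharacter G) (lam : G →* ℂˣ) :
    lam ∈ twistStab χ ↔ twist lam χ = χ := Iff.rfl

theorem twistStab_twist (mu : G →* ℂˣ) (χ : Cfsg.IrrCharacter G) :
    twistStab (twist mu χ) = twistStab χ := by
  ext lam
  rw [mem_twistStab, mem_twistStab, twist_comm]
  exact ⟨fun h => twist_injective mu h, fun h => by rw [h]⟩

/-- If `χ` is real and `lam ^ 2` fixes `χ`, then the twist of `χ` by `lam` is real. -/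
theorem twist_real (lam : G →* ℂˣ) (χ : Cfsg.IrrCharacter G)
    (hχ : ∀ g : G, ((χ : G → ℂ) g).im = 0) (h : twist (lam ^ 2) χ = χ) :
    ∀ g : G, ((twist lam χ : G → ℂ) g).im = 0 := by
  intro g
  rw [← Complex.conj_eq_iff_im, twist_apply, map_mul, Complex.conj_eq_iff_im.2 (hχ g)]
  have h1 := congrArg (fun ψ : Cfsg.IrrCharacter G => (ψ : G → ℂ) g) h
  simp only [twist_apply, MonoidHom.pow_apply, Units.val_pow_eq_pow_val] at h1
  have h2 := hom_mul_conj lam g
  linear_combination (-(conj ((lam g : ℂˣ) : ℂ))) * h1 + ((lam g : ℂˣ) : ℂ) * (χ : G → ℂ) g * h2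

/-- A character fixed by all twists vanishes off the commutator subgroup. -/
theorem eq_zero_of_twist_fixed (χ : Cfsg.IrrCharacter G)
    (h : ∀ lam : G →* ℂˣ, twist lam χ = χ) (g : G) (hg : g ∉ commutator G) :
    (χ : G → ℂ) g = 0 := by
  have hne : Abelianization.of g ≠ 1 := by
    intro h1
    apply hg
    rw [← Abelianization.ker_of G]
    exact h1
  haveI : NeZero (Monoid.exponent (Abelianization G)) := ⟨Monoid.exponent_ne_zero_of_finite⟩
  obtain ⟨φ, hφ⟩ :=
    CommGroup.exists_apply_ne_one_of_hasEnoughRootsOfUnity (Abelianization G) ℂ hne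
  have h1 := congrArg (fun ψ : Cfsg.IrrCharacter G => (ψ : G → ℂ) g)
    (h (φ.comp Abelianization.of))
  simp only [twist_apply, MonoidHom.comp_apply] at h1
  have h2 : ((φ (Abelianization.of g) : ℂˣ) : ℂ) ≠ 1 := fun h3 => hφ (Units.ext h3)
  have h3 : (((φ (Abelianization.of g) : ℂˣ) : ℂ) - 1) * (χ : G → ℂ) g = 0 := by
    linear_combination h1
  rcases mul_eq_zero.1 h3 with h4 | h4
  · exact absurd (sub_eq_zero.1 h4) h2
  · exact h4

end Twist

end Cfsg.Agent.Lib.Helper79
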