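import Mathlib
import Cfsg.Prelude.Def_Characters
import Cfsg.Prelude.Def_Blocks
import Cfsg.Agent.Lib.Helper79.AFT1

set_option autoImplicit false

namespace Cfsg.Agent.Lib.Helper79

open scoped ComplexConjugate
open Cfsg.Agent.Lib.Helper4

section RealLinear

variable {G : Type*} [Group G] [Fintype G]

open scoped Classical in
/-- The sign character of a subgroup of index two. -/
noncomputable def signHom (M : Subgroup G) (hM : M.index = 2) : G →* ℂˣ where
  toFun g := if g ∈ M then 1 else -1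
  map_one' := by simp [M.one_mem]
  map_mul' a b := by
    have := Subgroup.mul_mem_iff_of_index_two hM (a := a) (b := b)
    by_cases ha : a ∈ M <;> by_cases hb : b ∈ M <;> simp [ha, hb, this]

theorem signHom_mem (M : Subgroup G) (hM : M.index = 2) {g : G} (hg : g ∈ M) :
    signHom M hM g = 1 := by
  classical
  simp [signHom, hg]

theorem signHom_not_mem (M : Subgroup G) (hM : M.index = 2) {g : G} (hg : g ∉ M) :
    signHom M hM g = -1 := by
  classical
  simp [signHom, hg]

theorem signHom_sq (M : Subgroup G) (hM : M.index = 2) : signHom M hM ^ 2 = 1 := by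
  ext g
  by_cases hg : g ∈ M
  · simp [MonoidHom.pow_apply, signHom_mem M hM hg]
  · simp [MonoidHom.pow_apply, signHom_not_mem M hM hg]

/-- A linear character as an element of `IrrCharacter G`. -/
noncomputable def linIrr (lam : G →* ℂˣ) : Cfsg.IrrCharacter G :=
  ⟨fun g => ((lam g : ℂˣ) : ℂ), Cfsg.Agent.Lib.Helper83.isIrr_of_hom lam⟩

theorem linIrr_apply (lam : G →* ℂˣ) (g : G) :
    (linIrr lam : G → ℂ) g = ((lam g : ℂˣ) : ℂ) := rfl

theorem linIrr_injective : Function.Injective (linIrr (G := G)) := by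
  intro a b h
  ext g
  have h1 := congrArg (fun ψ : Cfsg.IrrCharacter G => (ψ : G → ℂ) g) h
  simpa [linIrr_apply] using h1

theorem charDegree_linIrr (lam : G →* ℂˣ) : Cfsg.charDegree (linIrr lam : G → ℂ) = 1 := by
  unfold Cfsg.charDegree
  rw [linIrr_apply]
  simp

theorem linIrr_real_iff (lam : G →* ℂˣ) :
    (∀ g : G, ((linIrr lam : G → ℂ) g).im = 0) ↔ lam ^ 2 = 1 := by
  constructor
  · intro h
    ext g
    have h1 := Complex.conj_eq_iff_im.2 (h g)
    rw [linIrr_apply] at h1
    have h2 := hom_mul_conj lam g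
    rw [h1] at h2
    simp only [MonoidHom.pow_apply, Units.val_pow_eq_pow_val, MonoidHom.one_apply, Units.val_one]
    rw [pow_two]
    exact h2
  · intro h g
    rw [← Complex.conj_eq_iff_im, linIrr_apply]
    have h1 := congrArg (fun l : G →* ℂˣ => ((l g : ℂˣ) : ℂ)) h
    simp only [MonoidHom.pow_apply, Units.val_pow_eq_pow_val, MonoidHom.one_apply,
      Units.val_one] at h1
    have h2 := hom_mul_conj lam g
    have hne : ((lam g : ℂˣ) : ℂ) ≠ 0 := Units.ne_zero _
    apply mul_left_cancel₀ hne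
    rw [h2, ← pow_two, h1]

theorem exists_linIrr (χ : Cfsg.IrrCharacter G) (h : Cfsg.charDegree (χ : G → ℂ) = 1) :
    ∃ lam : G →* ℂˣ, linIrr lam = χ := by
  have h1 : (χ : G → ℂ) 1 = 1 := (Cfsg.Agent.Lib.Helper83.irr_charDegree_eq_one_iff χ.2).1 h
  refine ⟨(Cfsg.Agent.Lib.Helper83.linHom χ.2 h1).toHomUnits, ?_⟩
  apply Subtype.ext
  funext g
  rw [linIrr_apply, MonoidHom.coe_toHomUnits]
  rfl

/-- The group of real linear characters. -/
noncomputable def realLin (G : Type*) [Group G] : Subgroup (G →* ℂˣ) where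
  carrier := {lam | lam ^ 2 = 1}
  one_mem' := one_pow 2
  mul_mem' := by
    intro a b ha hb
    simp only [Set.mem_setOf_eq] at ha hb ⊢
    have h := mul_pow a b 2
    rw [ha, hb] at h
    exact h.trans (one_mul (1 : G →* ℂˣ))
  inv_mem' := by
    intro a ha
    simp only [Set.mem_setOf_eq] at ha ⊢
    have h := inv_pow a 2
    rw [ha] at h
    exact h.trans (inv_one (G := G →* ℂˣ))

theorem mem_realLin (lam : G →* ℂˣ) : lam ∈ realLin G ↔ lam ^ 2 = 1 := Iff.rfl

/-- The real linear characters correspond to the homomorphisms of square one. -/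
noncomputable def realLinEquiv :
    realLin G ≃ {χ : Cfsg.IrrCharacter G //
      Cfsg.charDegree (χ : G → ℂ) = 1 ∧ ∀ g : G, ((χ : G → ℂ) g).im = 0} :=
  Equiv.ofBijective
    (fun lam => ⟨linIrr lam.1, charDegree_linIrr lam.1, (linIrr_real_iff lam.1).2 lam.2⟩)
    (by
      constructor
      · intro a b h
        apply Subtype.ext
        apply linIrr_injective
        exact congrArg Subtype.val h
      · rintro ⟨χ, h1, h2⟩
        obtain ⟨lam, hlam⟩ := exists_linIrr χ h1
        refine ⟨⟨lam, ?_⟩, ?_⟩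
        · rw [mem_realLin, ← linIrr_real_iff, hlam]
          exact h2
        · apply Subtype.ext
          exact hlam)

theorem exists_two_index_two {G : Type*} [Group G] [Finite G] (hG : IsPGroup 2 G)
    (hc : ¬ IsCyclic G) :
    ∃ (M₁ M₂ : Subgroup G) (x : G), M₁.index = 2 ∧ M₂.index = 2 ∧ x ∉ M₁ ∧ x ∈ M₂ := by
  haveI : Fact (Nat.Prime 2) := ⟨Nat.prime_two⟩
  obtain ⟨n, hn⟩ := IsPGroup.iff_card.1 hG
  have hn0 : n ≠ 0 := by
    rintro rfl
    apply hc
    have h1 : Nat.card G = 1 := by simpa using hn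
    have : Subsingleton G := (Nat.card_eq_one_iff_unique.1 h1).1
    infer_instance
  obtain ⟨m, rfl⟩ := Nat.exists_eq_succ_of_ne_zero hn0
  have hdvd : 2 ^ m ∣ Nat.card G := by
    rw [hn]; exact pow_dvd_pow 2 (Nat.le_succ m)
  obtain ⟨M₁, hM₁⟩ := Sylow.exists_subgroup_card_pow_prime 2 hdvd
  have hidx : ∀ M : Subgroup G, Nat.card M = 2 ^ m → M.index = 2 := by
    intro M hM
    have h := M.card_mul_index
    rw [hM, hn, pow_succ] at h
    exact Nat.eq_of_mul_eq_mul_left (by positivity) h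
  have hM₁i := hidx M₁ hM₁
  have hne : M₁ ≠ ⊤ := by
    intro h
    rw [h, Subgroup.index_top] at hM₁i
    omega
  obtain ⟨x, hx⟩ : ∃ x, x ∉ M₁ := by
    by_contra hcon
    push Not at hcon
    exact hne ((Subgroup.eq_top_iff' M₁).2 hcon)
  obtain ⟨j, hj⟩ := IsPGroup.iff_card.1 (hG.to_subgroup (Subgroup.zpowers x))
  have hjm : j ≤ m := by
    by_contra hcon
    push Not at hcon
    have h1 : Nat.card (Subgroup.zpowers x) ∣ Nat.card G := Subgroup.card_subgroup_dvd_card _
    rw [hj, hn] at h1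
    have h2 : j ≤ m + 1 := (Nat.pow_dvd_pow_iff_le_right (by norm_num)).1 h1
    have h3 : j = m + 1 := by omega
    apply hc
    have h4 : Subgroup.zpowers x = ⊤ := Subgroup.eq_top_of_card_eq _ (by rw [hj, hn, h3])
    exact isCyclic_iff_exists_zpowers_eq_top.2 ⟨x, h4⟩
  obtain ⟨M₂, hM₂, hle⟩ :=
    Sylow.exists_subgroup_card_pow_prime_le 2 hdvd (Subgroup.zpowers x) hj hjm
  exact ⟨M₁, M₂, x, hM₁i, hidx M₂ hM₂, hx, hle (Subgroup.mem_zpowers x)⟩

/-- In a noncyclic `2`-group the number of real linear characters is `2 ^ k` with `2 ≤ k`. -/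
theorem card_real_linear (hG : IsPGroup 2 G) (hc : ¬ IsCyclic G) :
    ∃ k : ℕ, 2 ≤ k ∧ Nat.card {χ : Cfsg.IrrCharacter G //
      Cfsg.charDegree (χ : G → ℂ) = 1 ∧ ∀ g : G, ((χ : G → ℂ) g).im = 0} = 2 ^ k := by
  classical
  haveI : Fact (Nat.Prime 2) := ⟨Nat.prime_two⟩
  have hfin : Finite (Cfsg.IrrCharacter G) := Cfsg.Agent.Lib.Helper4.irr_finite (G := G)
  haveI : Finite (realLin G) := Finite.of_injective _ (realLinEquiv (G := G)).injective
  have hp : IsPGroup 2 (realLin G) := by
    intro x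
    refine ⟨1, ?_⟩
    apply Subtype.ext
    rw [pow_one]
    exact x.2
  obtain ⟨k, hk⟩ := IsPGroup.iff_card.1 hp
  refine ⟨k, ?_, by rw [← Nat.card_congr (realLinEquiv (G := G)), hk]⟩
  obtain ⟨M₁, M₂, x, h1, h2, hx1, hx2⟩ := exists_two_index_two hG hc
  have hlt : 2 < Nat.card (realLin G) := by
    letI : Fintype (realLin G) := Fintype.ofFinite _
    rw [Nat.card_eq_fintype_card, Fintype.two_lt_card_iff]
    refine ⟨1, ⟨signHom M₁ h1, signHom_sq M₁ h1⟩, ⟨signHom M₂ h2, signHom_sq M₂ h2⟩, ?_, ?_, ?_⟩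
    · intro h
      have h3 := congrArg (fun l : realLin G => (l : G →* ℂˣ) x) h
      simp only [OneMemClass.coe_one, MonoidHom.one_apply, signHom_not_mem M₁ h1 hx1] at h3
      have h4 := congrArg (fun u : ℂˣ => (u : ℂ)) h3
      norm_num at h4
    · intro h
      have hne : M₂ ≠ ⊤ := by
        intro h'
        rw [h', Subgroup.index_top] at h2
        omega
      obtain ⟨y, hy⟩ : ∃ y, y ∉ M₂ := by
        by_contra hcon
        push Not at hcon
        exact hne ((Subgroup.eq_top_iff' M₂).2 hcon)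
      have h3 := congrArg (fun l : realLin G => (l : G →* ℂˣ) y) h
      simp only [OneMemClass.coe_one, MonoidHom.one_apply, signHom_not_mem M₂ h2 hy] at h3
      have h4 := congrArg (fun u : ℂˣ => (u : ℂ)) h3
      norm_num at h4
    · intro h
      have h3 := congrArg (fun l : realLin G => (l : G →* ℂˣ) x) h
      simp only [signHom_not_mem M₁ h1 hx1, signHom_mem M₂ h2 hx2] at h3
      have h4 := congrArg (fun u : ℂˣ => (u : ℂ)) h3
      norm_num at h4
  rw [hk] at hlt
  by_contra hcon
  push Not at hcon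
  interval_cases k <;> omega

end RealLinear

end Cfsg.Agent.Lib.Helper79
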