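import Mathlib
import Cfsg.Prelude.Def_Characters
import Cfsg.Prelude.Def_Blocks
import Cfsg.Agent.Lib.Helper79.AFT2

set_option autoImplicit false

namespace Cfsg.Agent.Lib.Helper79

open scoped ComplexConjugate
open Cfsg.Agent.Lib.Helper4

section AFTCount

variable {G : Type*} [Group G] [Fintype G]

/-- A real linear character has Frobenius–Schur indicator `1`. -/
theorem fsSign_linear_real (χ : Cfsg.IrrCharacter G) (h1 : Cfsg.charDegree (χ : G → ℂ) = 1)
    (hr : ∀ g : G, ((χ : G → ℂ) g).im = 0) : fsSign χ = 1 := by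
  have h1' : (χ : G → ℂ) 1 = 1 := (Cfsg.Agent.Lib.Helper83.irr_charDegree_eq_one_iff χ.2).1 h1
  have hsq : ∀ s : G, (χ : G → ℂ) (s * s) = 1 := by
    intro s
    rw [Cfsg.Agent.Lib.Helper83.irr_linear_mul χ.2 h1']
    have hn := Cfsg.Agent.Lib.Helper83.irr_linear_norm χ.2 h1' s
    have hc := Complex.conj_eq_iff_im.2 (hr s)
    have h2 : (χ : G → ℂ) s * conj ((χ : G → ℂ) s) = 1 := by
      rw [Complex.mul_conj, Complex.normSq_eq_norm_sq, hn]
      simp
    rwa [hc] at h2
  have h : fsInd (χ : G → ℂ) = 1 := by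
    simp only [fsInd, hsq, Finset.sum_const, Finset.card_univ]
    rw [← Nat.card_eq_fintype_card, nsmul_eq_mul, mul_one, inv_mul_cancel₀ card_ne_zero_complex]
  have h2 := fsSign_spec χ
  rw [h] at h2
  exact_mod_cast h2.symm

open scoped Classical in
/-- The Frobenius–Schur count modulo `4` in a `2`-group. -/
theorem real_count_mod_four [Fintype (Cfsg.IrrCharacter G)] {n : ℕ} (hn : Nat.card G = 2 ^ n) :
    ((1 + Nat.card {x : G // orderOf x = 2} : ℕ) : ZMod 4)
      = ((Finset.univ.filter (fun χ : Cfsg.IrrCharacter G =>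
          Cfsg.charDegree (χ : G → ℂ) = 1 ∧ ∀ g : G, ((χ : G → ℂ) g).im = 0)).card : ZMod 4)
        + 2 * ((Finset.univ.filter (fun χ : Cfsg.IrrCharacter G =>
          Cfsg.charDegree (χ : G → ℂ) = 2 ∧ ∀ g : G, ((χ : G → ℂ) g).im = 0)).card : ZMod 4) := by
  have h := one_add_card_involutions (G := G)
  have h' := congrArg (Int.cast : ℤ → ZMod 4) h
  push_cast at h'
  have key : ∀ χ : Cfsg.IrrCharacter G,
      ((fsSign χ : ℤ) : ZMod 4) * ((Cfsg.charDegree (χ : G → ℂ) : ℕ) : ZMod 4)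
        = (if (Cfsg.charDegree (χ : G → ℂ) = 1 ∧ ∀ g : G, ((χ : G → ℂ) g).im = 0) then 1 else 0)
          + 2 * (if (Cfsg.charDegree (χ : G → ℂ) = 2 ∧ ∀ g : G, ((χ : G → ℂ) g).im = 0)
              then 1 else 0) := by
    intro χ
    have hdvd : Cfsg.charDegree (χ : G → ℂ) ∣ 2 ^ n := by
      rw [← hn]
      exact Cfsg.Agent.Lib.Helper83.irr_degree_dvd_card χ
    obtain ⟨j, -, hj⟩ := (Nat.dvd_prime_pow Nat.prime_two).1 hdvd
    by_cases hr : ∀ g : G, ((χ : G → ℂ) g).im = 0
    · rcases j with _ | _ | j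
      · have hd : Cfsg.charDegree (χ : G → ℂ) = 1 := by simpa using hj
        rw [fsSign_linear_real χ hd hr, hd]
        simp [hr]
      · have hd : Cfsg.charDegree (χ : G → ℂ) = 2 := by simpa using hj
        have hne := (fsSign_ne_zero_iff χ).2 hr
        rw [hd]
        rcases fsSign_cases χ with h0 | h0 | h0
        · exact absurd h0 hne
        · rw [h0]; simp [hr]
        · rw [h0]; simp [hr]; decide
      · have hd : Cfsg.charDegree (χ : G → ℂ) = 4 * 2 ^ j := by
          rw [hj]; ring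
        have h4 : ((4 : ℕ) : ZMod 4) = 0 := by decide
        have hne1 : ¬ (4 * 2 ^ j = 1) := by omega
        have hne2 : ¬ (4 * 2 ^ j = 2) := by omega
        rw [hd]
        push_cast
        simp only [hne1, hne2, false_and, if_false]
        have h4' : (4 : ZMod 4) = 0 := by decide
        rw [h4']
        ring
    · have h0 : fsSign χ = 0 := by
        by_contra hne
        exact hr ((fsSign_ne_zero_iff χ).1 hne)
      rw [h0]
      simp [hr]
  push_cast
  rw [h']
  simp only [key]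
  rw [Finset.sum_add_distrib, ← Finset.mul_sum, Finset.sum_boole, Finset.sum_boole]

theorem exists_sq_mem {n : ℕ} (hn : Nat.card G = 2 ^ n) (U : Subgroup (G →* ℂˣ))
    (hU : U ≠ ⊤) : ∃ mu : G →* ℂˣ, mu ∉ U ∧ mu ^ 2 ∈ U := by
  classical
  obtain ⟨lam, hlam⟩ : ∃ lam, lam ∉ U := by
    by_contra hcon
    push Not at hcon
    exact hU ((Subgroup.eq_top_iff' U).2 hcon)
  have hpow : lam ^ (2 ^ n) = 1 := by
    ext g
    have h := hom_pow_card lam g
    rw [hn] at h
    simp only [MonoidHom.pow_apply, Units.val_pow_eq_pow_val, MonoidHom.one_apply, Units.val_one]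
    exact h
  have hex : ∃ k, lam ^ (2 ^ k) ∈ U := ⟨n, by rw [hpow]; exact U.one_mem⟩
  have hk0 : Nat.find hex ≠ 0 := by
    intro h0
    have h := Nat.find_spec hex
    rw [h0] at h
    have h2 : lam ^ (2 ^ 0) = lam := by
      rw [pow_zero]; exact pow_one lam
    rw [h2] at h
    exact hlam h
  obtain ⟨k', hk'⟩ := Nat.exists_eq_succ_of_ne_zero hk0
  refine ⟨lam ^ (2 ^ k'), ?_, ?_⟩
  · exact Nat.find_min hex (by omega)
  · have h := Nat.find_spec hex
    rw [hk'] at h
    have h2 : (lam ^ (2 ^ k')) ^ 2 = lam ^ (2 ^ (k' + 1)) := by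
      rw [pow_succ 2 k']
      exact (pow_mul lam (2 ^ k') 2).symm
    rw [h2]
    exact h

open scoped Classical in
/-- A choice, for every proper subgroup `U` of the group of linear characters, of an element
outside `U` with square in `U`. -/
noncomputable def twistMu (U : Subgroup (G →* ℂˣ)) : G →* ℂˣ :=
  if h : (∃ n : ℕ, Nat.card G = 2 ^ n) ∧ U ≠ ⊤ then
    Classical.choose (exists_sq_mem (Classical.choose_spec h.1) U h.2)
  else 1

theorem twistMu_spec {n : ℕ} (hn : Nat.card G = 2 ^ n) (U : Subgroup (G →* ℂˣ)) (hU : U ≠ ⊤) :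
    twistMu U ∉ U ∧ twistMu U ^ 2 ∈ U := by
  classical
  have h : (∃ n : ℕ, Nat.card G = 2 ^ n) ∧ U ≠ ⊤ := ⟨⟨n, hn⟩, hU⟩
  unfold twistMu
  rw [dif_pos h]
  exact Classical.choose_spec (exists_sq_mem (Classical.choose_spec h.1) U h.2)

open scoped Classical in
/-- The real characters of a fixed degree that are moved by some twist come in pairs. -/
theorem even_card_moved [Fintype (Cfsg.IrrCharacter G)] {n : ℕ} (hn : Nat.card G = 2 ^ n)
    (d : ℕ) :
    Even (Finset.univ.filter (fun χ : Cfsg.IrrCharacter G =>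
      (Cfsg.charDegree (χ : G → ℂ) = d ∧ ∀ g : G, ((χ : G → ℂ) g).im = 0) ∧
        ∃ lam : G →* ℂˣ, twist lam χ ≠ χ)).card := by
  rw [← ZMod.natCast_eq_zero_iff_even]
  have hstab : ∀ χ : Cfsg.IrrCharacter G, (∃ lam : G →* ℂˣ, twist lam χ ≠ χ) →
      twistStab χ ≠ ⊤ := by
    rintro χ ⟨lam, hlam⟩ htop
    apply hlam
    rw [← mem_twistStab, htop]
    exact Subgroup.mem_top lam
  have hsum := Finset.sum_involution
    (s := Finset.univ.filter (fun χ : Cfsg.IrrCharacter G =>
      (Cfsg.charDegree (χ : G → ℂ) = d ∧ ∀ g : G, ((χ : G → ℂ) g).im = 0) ∧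
        ∃ lam : G →* ℂˣ, twist lam χ ≠ χ))
    (f := fun _ => (1 : ZMod 2))
    (fun χ _ => twist (twistMu (twistStab χ)) χ)
    (fun _ _ => by decide)
    (fun χ hχ _ => by
      rw [Finset.mem_filter] at hχ
      exact (twistMu_spec hn _ (hstab χ hχ.2.2)).1)
    (fun χ hχ => by
      rw [Finset.mem_filter] at hχ ⊢
      obtain ⟨hmu1, hmu2⟩ := twistMu_spec hn _ (hstab χ hχ.2.2)
      refine ⟨Finset.mem_univ _, ⟨?_, ?_⟩, ?_⟩
      · rw [charDegree_twist]; exact hχ.2.1.1
      · exact twist_real _ χ hχ.2.1.2 hmu2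
      · refine ⟨twistMu (twistStab χ), ?_⟩
        have h : twistMu (twistStab χ) ∉ twistStab (twist (twistMu (twistStab χ)) χ) := by
          rw [twistStab_twist]
          exact hmu1
        exact h)
    (fun χ hχ => by
      rw [Finset.mem_filter] at hχ
      obtain ⟨hmu1, hmu2⟩ := twistMu_spec hn _ (hstab χ hχ.2.2)
      simp only [twistStab_twist]
      rw [← twist_mul]
      have h2 : twistMu (twistStab χ) * twistMu (twistStab χ) = twistMu (twistStab χ) ^ 2 :=
        (pow_two (twistMu (twistStab χ))).symm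
      rw [h2]
      exact hmu2)
  rw [← hsum]
  simp

end AFTCount

end Cfsg.Agent.Lib.Helper79
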