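import Mathlib
import Cfsg.Agent.Lib.Helper32.BG10Basic
import Cfsg.Agent.Lib.Helper66.Cores
import Cfsg.Agent.Lib.Helper30.Cores
import Cfsg.Agent.S1451

/-!
# B&G 10.2 (S1405), piece P2B (helper79 for helper32)

`M_α` is a normal Hall `α(M)`-subgroup of `M` (and of `G`), `M_α ≤ M_σ`, `M / M_α` has rank at
most `2` and a nilpotent derived group.
-/

set_option autoImplicit false

open Cfsg Cfsg.Agent.Lib.Helper32 Cfsg.Agent.Lib.Helper32.BG10

namespace Cfsg.Agent.Lib.Helper79.BG10

universe u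

section General

variable {Λ : Type*} [Group Λ]

theorem eq_one_of_pow_of_not_dvd {N : Subgroup Λ} [Finite N] {q : ℕ} (hq : q.Prime)
    (hN : ¬ q ∣ Nat.card N) {x : Λ} (hxN : x ∈ N) {k : ℕ} (hx : x ^ q ^ k = 1) : x = 1 := by
  have h1 : orderOf x ∣ q ^ k := orderOf_dvd_of_pow_eq_one hx
  obtain ⟨j, -, hj⟩ := (Nat.dvd_prime_pow hq).mp h1
  have h2 : orderOf x ∣ Nat.card N := Subgroup.orderOf_dvd_natCard N hxN
  rcases Nat.eq_zero_or_pos j with rfl | hjpos
  · rw [pow_zero] at hj
    exact orderOf_eq_one_iff.mp hj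
  · exfalso
    apply hN
    rw [hj] at h2
    exact (dvd_pow_self q hjpos.ne').trans h2

/-- the `q`-rank does not grow in a quotient by a normal `q'`-subgroup -/
theorem prankLE_quotient_of_not_dvd [Finite Λ] (N : Subgroup Λ) [N.Normal] {q : ℕ} (hq : q.Prime)
    (hN : ¬ q ∣ Nat.card N) {k : ℕ} (h : PRankLE q k Λ) : PRankLE q k (Λ ⧸ N) := by
  intro A hAc hAe
  haveI : Fact q.Prime := ⟨hq⟩
  have hAp : IsPGroup q A := fun a => ⟨1, by rw [pow_one]; exact Subtype.ext (hAe a.1 a.2)⟩
  obtain ⟨j, hj⟩ := IsPGroup.iff_card.mp hAp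
  have hcardB : Nat.card (A.comap (QuotientGroup.mk' N)) = Nat.card N * Nat.card A :=
    Cfsg.Agent.Lib.Helper30.card_comap_mk' N A
  obtain ⟨S⟩ : Nonempty (Sylow q (A.comap (QuotientGroup.mk' N))) := inferInstance
  have hcardS : Nat.card S = q ^ j := by
    rw [S.card_eq_multiplicity, hcardB, hj,
      Nat.factorization_mul Nat.card_pos.ne' (pow_pos hq.pos j).ne', Finsupp.add_apply,
      Nat.factorization_eq_zero_of_not_dvd hN, zero_add, Nat.Prime.factorization_pow hq,
      Finsupp.single_eq_same]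
  have hS'B : (S : Subgroup (A.comap (QuotientGroup.mk' N))).map
      (A.comap (QuotientGroup.mk' N)).subtype ≤ A.comap (QuotientGroup.mk' N) := by
    rintro x ⟨y, -, rfl⟩
    exact y.2
  have hcardS' : Nat.card ((S : Subgroup (A.comap (QuotientGroup.mk' N))).map
      (A.comap (QuotientGroup.mk' N)).subtype) = q ^ j := by
    rw [Cfsg.Agent.Lib.Helper30.card_map_subtype]
    exact hcardS
  have hS'p : IsPGroup q ((S : Subgroup (A.comap (QuotientGroup.mk' N))).map
      (A.comap (QuotientGroup.mk' N)).subtype) := S.2.map _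
  have htriv : ∀ x ∈ (S : Subgroup (A.comap (QuotientGroup.mk' N))).map
      (A.comap (QuotientGroup.mk' N)).subtype, x ∈ N → x = 1 := by
    intro x hx hxN
    obtain ⟨k', hk'⟩ := hS'p ⟨x, hx⟩
    exact eq_one_of_pow_of_not_dvd hq hN hxN (by simpa using congrArg Subtype.val hk')
  have hmkA : ∀ x ∈ (S : Subgroup (A.comap (QuotientGroup.mk' N))).map
      (A.comap (QuotientGroup.mk' N)).subtype, (QuotientGroup.mk' N x) ∈ A :=
    fun x hx => hS'B hx
  have hS'c : IsMulCommutative ((S : Subgroup (A.comap (QuotientGroup.mk' N))).map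
      (A.comap (QuotientGroup.mk' N)).subtype) := by
    refine ⟨⟨fun a b => ?_⟩⟩
    apply Subtype.ext
    have hc : a.1 * b.1 * a.1⁻¹ * b.1⁻¹ = 1 := by
      apply htriv _ (Subgroup.mul_mem _ (Subgroup.mul_mem _ (Subgroup.mul_mem _ a.2 b.2)
        (Subgroup.inv_mem _ a.2)) (Subgroup.inv_mem _ b.2))
      rw [← QuotientGroup.eq_one_iff (N := N)]
      have hcomm := congrArg Subtype.val (hAc.is_comm.comm
        (⟨QuotientGroup.mk' N a.1, hmkA _ a.2⟩ : A) ⟨QuotientGroup.mk' N b.1, hmkA _ b.2⟩)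
      have hcomm' : (QuotientGroup.mk' N a.1) * (QuotientGroup.mk' N b.1) =
          (QuotientGroup.mk' N b.1) * (QuotientGroup.mk' N a.1) := hcomm
      have h3 : QuotientGroup.mk' N (a.1 * b.1 * a.1⁻¹ * b.1⁻¹) = 1 := by
        rw [map_mul, map_mul, map_mul, map_inv, map_inv, hcomm']
        group
      exact h3
    have h4 : a.1 * b.1 = b.1 * a.1 := by
      calc a.1 * b.1 = (a.1 * b.1 * a.1⁻¹ * b.1⁻¹) * (b.1 * a.1) := by group
        _ = b.1 * a.1 := by rw [hc, one_mul]
    exact h4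
  have hS'e : ∀ a ∈ (S : Subgroup (A.comap (QuotientGroup.mk' N))).map
      (A.comap (QuotientGroup.mk' N)).subtype, a ^ q = 1 := by
    intro a ha
    apply htriv _ (Subgroup.pow_mem _ ha q)
    rw [← QuotientGroup.eq_one_iff (N := N)]
    have h5 := hAe _ (hmkA a ha)
    have h6 : QuotientGroup.mk' N (a ^ q) = 1 := by
      rw [map_pow]
      exact h5
    exact h6
  have hfin := h _ hS'c hS'e
  rw [hcardS'] at hfin
  rw [hj]
  exact hfin

/-- a normal `q`-subgroup of `Λ / O_π(Λ)` is trivial when `q ∈ π` -/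
theorem eq_bot_of_normal_pgroup_quot [Finite Λ] (π : Set ℕ) {q : ℕ} [Fact q.Prime] (hqπ : q ∈ π)
    (Lb : Subgroup (Λ ⧸ piCore π Λ)) (hn : Lb.Normal) (hLb : IsPGroup q Lb) : Lb = ⊥ := by
  have hq : q.Prime := Fact.out
  have hcard := Cfsg.Agent.Lib.Helper30.card_comap_mk' (piCore π Λ) Lb
  have hLn : (Lb.comap (QuotientGroup.mk' (piCore π Λ))).Normal := hn.comap _
  have hle : Lb.comap (QuotientGroup.mk' (piCore π Λ)) ≤ piCore π Λ := by
    apply le_sSup
    refine ⟨hLn, fun r hr hdvd => ?_⟩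
    rw [hcard] at hdvd
    rcases (Nat.Prime.dvd_mul hr).mp hdvd with h | h
    · exact Cfsg.Agent.Lib.Helper66.isPi_piCore π r hr h
    · obtain ⟨j, hj⟩ := IsPGroup.iff_card.mp hLb
      rw [hj] at h
      have := (Nat.prime_dvd_prime_iff_eq hr hq).mp (hr.dvd_of_dvd_pow h)
      rw [this]
      exact hqπ
  rw [eq_bot_iff]
  intro y hy
  obtain ⟨x, rfl⟩ := QuotientGroup.mk'_surjective (piCore π Λ) y
  rw [Subgroup.mem_bot]
  exact (QuotientGroup.eq_one_iff x).mpr (hle hy)

end General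

variable {G : Type u} [Group G] [Finite G]

theorem bg10_2 (hG : IsMinSimpleOddOrder G) (hUT : UT G) (hder : SigDer G) : H2 G := by
  intro M hM
  haveI hsol : Group.IsSolvable ↥M := minSimple_solvable hG hM.1
  have hoddM : Odd (Nat.card ↥M) := minSimple_odd_sub hG M
  have hασ : alpha M ⊆ sigma M := alpha_sub_sigma hG hUT hM
  have hNpi : ∀ p : ℕ, p.Prime → p ∣ Nat.card (piCore (alpha M) ↥M) → p ∈ alpha M :=
    Cfsg.Agent.Lib.Helper66.isPi_piCore (alpha M)
  -- (c)
  have hc : ∀ q : ℕ, q.Prime → q ∉ alpha M → PRankLE q 2 (↥M ⧸ piCore (alpha M) ↥M) := by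
    intro q hq hqα
    have hqN : ¬ q ∣ Nat.card (piCore (alpha M) ↥M) := fun h => hqα (hNpi q hq h)
    have hr : PRankLE q 2 ↥M := by
      by_contra hcon
      exact hqα ⟨hq, hcon⟩
    exact prankLE_quotient_of_not_dvd (piCore (alpha M) ↥M) hq hqN hr
  -- (b)
  have hpc : ∀ (q : ℕ) [Fact q.Prime], q ∈ alpha M →
      pCore q (↥M ⧸ piCore (alpha M) ↥M) = ⊥ := by
    intro q _ hqα
    exact eq_bot_of_normal_pgroup_quot (alpha M) hqα _ (Cfsg.pCore_normal q _)
      (Cfsg.Agent.Lib.Helper66.isPGroup_pCore q)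
  -- (d)
  have hd : RankLE 2 ↥(fittingSubgroup (↥M ⧸ piCore (alpha M) ↥M)) := by
    intro q hq A hAc hAe
    haveI : Fact q.Prime := ⟨hq⟩
    by_cases hqα : q ∈ alpha M
    · have hA1 : ∀ a : A, a = 1 := by
        intro a
        have hmem : (a.1.1 : ↥M ⧸ piCore (alpha M) ↥M) ∈
            fittingSubgroup (↥M ⧸ piCore (alpha M) ↥M) := a.1.2
        have hpow : (a.1.1 : ↥M ⧸ piCore (alpha M) ↥M) ^ q = 1 := by
          have h1 := hAe a.1 a.2
          have h2 := congrArg Subtype.val h1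
          simpa using h2
        have hord : orderOf (a.1.1 : ↥M ⧸ piCore (alpha M) ↥M) ∣ q :=
          orderOf_dvd_of_pow_eq_one hpow
        obtain ⟨k, hk⟩ : ∃ k, orderOf (a.1.1 : ↥M ⧸ piCore (alpha M) ↥M) = q ^ k := by
          rcases (Nat.dvd_prime hq).mp hord with h | h
          · exact ⟨0, by rw [h, pow_zero]⟩
          · exact ⟨1, by rw [h, pow_one]⟩
        have h3 := Cfsg.Agent.Lib.Helper66.mem_pCore_of_mem_fitting hmem hk
        rw [hpc q hqα, Subgroup.mem_bot] at h3
        exact Subtype.ext (Subtype.ext h3)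
      have hcard1 : Nat.card A = 1 := by
        haveI : Subsingleton A := ⟨fun a b => by rw [hA1 a, hA1 b]⟩
        exact Nat.card_of_subsingleton 1
      rw [hcard1]
      exact Nat.one_le_pow _ _ hq.pos
    · have h1 := hc q hq hqα
        (A.map (fittingSubgroup (↥M ⧸ piCore (alpha M) ↥M)).subtype) inferInstance (by
          rintro _ ⟨a, ha, rfl⟩
          have h2 := congrArg Subtype.val (hAe a ha)
          simpa using h2)
      rwa [Cfsg.Agent.Lib.Helper30.card_map_subtype] at h1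
  -- (e)
  have hoddMb : Odd (Nat.card (↥M ⧸ piCore (alpha M) ↥M)) := by
    rw [← Subgroup.index_eq_card]
    exact Odd.of_dvd_nat hoddM (Subgroup.index_dvd_card _)
  have he : Group.IsNilpotent ↥(commutator (↥M ⧸ piCore (alpha M) ↥M)) :=
    (Cfsg.Agent.S1451.result hoddMb (Or.inr hd)).1
  -- (f)
  have hf : ∀ (p : ℕ) [Fact p.Prime], p ∈ alpha M → ∀ P : Sylow p ↥M,
      (P : Subgroup ↥M) ≤ piCore (alpha M) ↥M := by
    intro p _ hpα P x hx
    have hp : p.Prime := Fact.out
    have hxc : x ∈ commutator ↥M := hder M hM p (hασ hpα) P hx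
    have h1 : (QuotientGroup.mk' (piCore (alpha M) ↥M) x) ∈
        commutator (↥M ⧸ piCore (alpha M) ↥M) := by
      have hle : (commutator ↥M).map (QuotientGroup.mk' (piCore (alpha M) ↥M)) ≤
          commutator (↥M ⧸ piCore (alpha M) ↥M) := by
        rw [_root_.map_commutator_eq, commutator_def]
        exact Subgroup.commutator_mono le_top le_top
      exact hle (Subgroup.mem_map_of_mem _ hxc)
    have h2 : commutator (↥M ⧸ piCore (alpha M) ↥M) ≤
        fittingSubgroup (↥M ⧸ piCore (alpha M) ↥M) := le_sSup ⟨inferInstance, he⟩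
    obtain ⟨j, hj⟩ := P.2 ⟨x, hx⟩
    have hxj : x ^ p ^ j = 1 := by simpa using congrArg Subtype.val hj
    have hord : orderOf (QuotientGroup.mk' (piCore (alpha M) ↥M) x) ∣ p ^ j :=
      orderOf_dvd_of_pow_eq_one (by rw [← map_pow, hxj, map_one])
    obtain ⟨k, -, hk⟩ := (Nat.dvd_prime_pow hp).mp hord
    have h3 := Cfsg.Agent.Lib.Helper66.mem_pCore_of_mem_fitting (h2 h1) hk
    rw [hpc p hpα, Subgroup.mem_bot] at h3
    exact (QuotientGroup.eq_one_iff x).mp h3
  -- (g)
  have hidx : ∀ p : ℕ, p.Prime → p ∈ alpha M → ¬ p ∣ (piCore (alpha M) ↥M).index := by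
    intro p hp hpα
    haveI : Fact p.Prime := ⟨hp⟩
    obtain ⟨P⟩ : Nonempty (Sylow p ↥M) := inferInstance
    intro hdvd
    exact P.not_dvd_index (hdvd.trans (Subgroup.index_dvd_of_le (hf p hpα P)))
  have hrel : (alphaCore M).relIndex M = (piCore (alpha M) ↥M).index := by
    have h1 : (alphaCore M).subgroupOf M = piCore (alpha M) ↥M :=
      Subgroup.comap_map_eq_self_of_injective M.subtype_injective _
    rw [Subgroup.relIndex, h1]
  have hcardα : Nat.card ↥(alphaCore M) = Nat.card (piCore (alpha M) ↥M) :=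
    Cfsg.Agent.Lib.Helper30.card_map_subtype _
  have hMidx : ∀ p : ℕ, p.Prime → p ∈ alpha M → ¬ p ∣ M.index := by
    intro p hp hpα hdvd
    haveI : Fact p.Prime := ⟨hp⟩
    obtain ⟨P⟩ : Nonempty (Sylow p ↥M) := inferInstance
    have h1 := (sigma_sylow (hασ hpα) P).2.2
    rw [Cfsg.Agent.Lib.Helper30.card_map_subtype, P.card_eq_multiplicity, Subgroup.card_top] at h1
    have h2 : (Nat.card ↥M).factorization p = (Nat.card G).factorization p :=
      Nat.pow_right_injective hp.two_le h1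
    have h3 : Nat.card ↥M * M.index = Nat.card G := Subgroup.card_mul_index M
    have h4 : (Nat.card G).factorization p =
        (Nat.card ↥M).factorization p + (M.index).factorization p := by
      rw [← h3, Nat.factorization_mul Nat.card_pos.ne' Subgroup.index_ne_zero_of_finite,
        Finsupp.add_apply]
    have h5 : 0 < (M.index).factorization p :=
      hp.factorization_pos_of_dvd Subgroup.index_ne_zero_of_finite hdvd
    omega
  refine ⟨⟨Subgroup.map_subtype_le _, ?_, ?_⟩, ⟨?_, ?_⟩, ?_, ?_, ?_⟩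
  · intro p hp hdvd
    rw [hcardα] at hdvd
    exact hNpi p hp hdvd
  · intro p hp hpα
    rw [hrel]
    exact hidx p hp hpα
  · intro p hp hdvd
    rw [hcardα] at hdvd
    exact hNpi p hp hdvd
  · intro p hp hpα hdvd
    have h1 : (alphaCore M).index = (piCore (alpha M) ↥M).index * M.index :=
      Subgroup.index_map_subtype _
    rw [h1] at hdvd
    rcases (Nat.Prime.dvd_mul hp).mp hdvd with h | h
    · exact hidx p hp hpα h
    · exact hMidx p hp hpα h
  · apply Subgroup.map_mono
    apply sSup_le_sSup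
    rintro L ⟨hLn, hL⟩
    exact ⟨hLn, fun p hp hdvd => hασ (hL p hp hdvd)⟩
  · intro q hq
    by_cases hqα : q ∈ alpha M
    · intro A hAc hAe
      haveI : Fact q.Prime := ⟨hq⟩
      have hAp : IsPGroup q A :=
        fun a => ⟨1, by rw [pow_one]; exact Subtype.ext (hAe a.1 a.2)⟩
      obtain ⟨j, hj⟩ := IsPGroup.iff_card.mp hAp
      have h1 : Nat.card A ∣ Nat.card (↥M ⧸ piCore (alpha M) ↥M) :=
        Subgroup.card_subgroup_dvd_card A
      rw [← Subgroup.index_eq_card] at h1
      rcases Nat.eq_zero_or_pos j with rfl | hjpos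
      · rw [hj, pow_zero]
        exact Nat.one_le_pow _ _ hq.pos
      · exfalso
        apply hidx q hq hqα
        rw [hj] at h1
        exact (dvd_pow_self q hjpos.ne').trans h1
    · exact hc q hq hqα
  · have h1 : (commutator ↥M).map (QuotientGroup.mk' (piCore (alpha M) ↥M)) =
        commutator (↥M ⧸ piCore (alpha M) ↥M) := by
      rw [_root_.map_commutator_eq, commutator_def,
        MonoidHom.range_eq_top.mpr (QuotientGroup.mk'_surjective _)]
    rw [h1]
    exact he

end Cfsg.Agent.Lib.Helper79.BG10
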