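import Mathlib
import Cfsg.Agent.Lib.Helper10.BT0

/-! S4700 piece BT-A1 `nonIII_dvd` (helper10's project; proved by helper79). -/

set_option autoImplicit false

namespace Cfsg.Agent.Lib.Helper10.BT

/-- BT-A1 -/
theorem nonIII_dvd (p n : ℕ) (hp : p.Prime) (h3 : ¬ III n p) (d : ℕ)
    (hd : d ∣ (p - 1) * (1 + n * p)) (hmod : d % p = 1) : d = 1 ∨ d = 1 + n * p := by
  obtain ⟨q, rfl⟩ : ∃ q, p = q + 1 := ⟨p - 1, by have := hp.pos; omega⟩
  have hq : 1 ≤ q := by have := hp.two_le; omega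
  simp only [Nat.add_sub_cancel] at hd
  obtain ⟨c, hc⟩ := hd
  obtain ⟨u, hu⟩ : ∃ u, d = u * (q + 1) + 1 := by
    refine ⟨d / (q + 1), ?_⟩
    have h0 := Nat.div_add_mod d (q + 1)
    rw [hmod] at h0
    rw [mul_comm] at h0
    exact h0.symm
  subst hu
  have hcZ : (q : ℤ) * (1 + n * (q + 1)) = (u * (q + 1) + 1) * c := by exact_mod_cast hc
  have hc1 : ((q : ℤ) + 1) ∣ (c : ℤ) + 1 := by
    refine ⟨(1 + n * (q + 1) - n - u * c : ℤ), ?_⟩
    linear_combination (-1 : ℤ) * hcZ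
  obtain ⟨k, hk⟩ := hc1
  have hqc : q ≤ c := by
    have h0 : ((q : ℤ) + 1) ≤ (c : ℤ) + 1 :=
      Int.le_of_dvd (by positivity) ⟨k, hk⟩
    have h1 : (q : ℤ) ≤ c := by linarith
    exact_mod_cast h1
  have hun : u ≤ n := by
    have h0 : (u * (q + 1) + 1) * q ≤ q * (1 + n * (q + 1)) := by
      rw [hc]
      exact Nat.mul_le_mul_left _ hqc
    have h1 : u * (q + 1) + 1 ≤ 1 + n * (q + 1) := by
      rw [mul_comm q] at h0
      exact Nat.le_of_mul_le_mul_right h0 hq
    have h2 : u * (q + 1) ≤ n * (q + 1) := by omega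
    exact Nat.le_of_mul_le_mul_right h2 (by omega)
  rcases Nat.eq_zero_or_pos u with hu0 | hu0
  · left
    rw [hu0]
    simp
  rcases Nat.lt_or_ge u n with hlt | hge
  swap
  · right
    have hun' : u = n := le_antisymm hun hge
    rw [hun']
    ring
  exfalso
  apply h3
  have hq1 : ((q : ℤ) + 1) ≠ 0 := by positivity
  have hE3 : (1 : ℤ) + n * q + u = u * (q + 1) * k + k := by
    apply mul_left_cancel₀ hq1
    linear_combination hcZ + (1 + (u : ℤ) * (q + 1)) * hk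
  have hG : (n : ℤ) * (u + 1) = (n - u * k) * u * (q + 1) + u ^ 2 + u + (n - u * k) := by
    linear_combination (-(u : ℤ)) * hE3
  have hhpos : (0 : ℤ) < n - u * k := by
    by_contra hneg
    push_neg at hneg
    have hle : (n : ℤ) ≤ u * k := by linarith
    have h0 : (n : ℤ) * (u * (q + 1) + 1) ≤ u * k * (u * (q + 1) + 1) :=
      mul_le_mul_of_nonneg_right hle (by positivity)
    have h1 : (u : ℤ) * k * (u * (q + 1) + 1) = u * (1 + n * q + u) := by
      rw [hE3]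
      ring
    rw [h1] at h0
    have h2 : (u : ℤ) + 1 ≤ n := by exact_mod_cast hlt
    have h3' : ((u : ℤ) + 1) * (u + 1) ≤ n * (u + 1) :=
      mul_le_mul_of_nonneg_right h2 (by positivity)
    nlinarith
  obtain ⟨h', hh'⟩ := Int.eq_ofNat_of_zero_le (le_of_lt hhpos)
  rw [hh'] at hG hhpos
  refine ⟨h', u, by exact_mod_cast hhpos, hu0, ?_⟩
  exact_mod_cast hG

end Cfsg.Agent.Lib.Helper10.BT
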