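import Mathlib
import Cfsg.Agent.Lib.Helper10.BT0

/-! S4700 piece BT-A2 `arith_deg` (helper10's project; proved by helper79). -/

set_option autoImplicit false

namespace Cfsg.Agent.Lib.Helper10.BT

/-- BT-A2 -/
theorem arith_deg (p e t n d : ℕ) (s : ℤ) (hp : p.Prime) (he2 : 2 ≤ e) (het : e * t = p - 1)
    (hdiv : ∀ d : ℕ, d ∣ (p - 1) * (1 + n * p) → d % p = 1 → d = 1 ∨ d = 1 + n * p)
    (hd2 : 2 ≤ d) (hdvd : d ∣ (1 + n * p) * e) (hs : s = 1 ∨ s = -1)
    (hmod : (d : ℤ) ≡ s [ZMOD p]) :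
    (s = 1 ∧ d = 1 + n * p) ∨ (s = -1 ∧ d = p - 1) ∨
      (s = -1 ∧ d = (p - 1) * (1 + n * p) ∧ t = 1) := by
  have hp2 := hp.two_le
  have hW : 0 < 1 + n * p := by omega
  have hd' : d ∣ (p - 1) * (1 + n * p) := by
    rw [← het]
    exact Dvd.dvd.trans hdvd ⟨t, by ring⟩
  rcases hs with rfl | rfl
  · left
    refine ⟨rfl, ?_⟩
    have h1 : d % p = 1 := by
      have h0 : (d : ℤ) ≡ ((1 : ℕ) : ℤ) [ZMOD (p : ℤ)] := by simpa using hmod
      have h2 : d ≡ 1 [MOD p] := Int.natCast_modEq_iff.mp h0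
      rw [Nat.ModEq, Nat.mod_eq_of_lt (by omega : 1 < p)] at h2
      exact h2
    rcases hdiv d hd' h1 with h | h
    · omega
    · exact h
  · right
    obtain ⟨c, hc⟩ := hd'
    have h1 : c % p = 1 := by
      have hm : (p : ℤ) ∣ (d : ℤ) + 1 := by
        have h0 := Int.modEq_iff_dvd.mp hmod
        have h2 : (d : ℤ) + 1 = -((-1 : ℤ) - d) := by ring
        rw [h2]
        exact (dvd_neg.mpr h0)
      obtain ⟨m, hm⟩ := hm
      have hcZ : ((p : ℤ) - 1) * (1 + n * p) = d * c := by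
        have h0 : ((p - 1 : ℕ) : ℤ) = (p : ℤ) - 1 := by
          rw [Nat.cast_sub (by omega : 1 ≤ p)]
          simp
        rw [← h0]
        exact_mod_cast hc
      have h0 : (c : ℤ) ≡ ((1 : ℕ) : ℤ) [ZMOD (p : ℤ)] := by
        rw [Int.modEq_iff_dvd]
        refine ⟨-(m * c - 1 - n * p + n), ?_⟩
        push_cast
        linear_combination (-1 : ℤ) * hcZ - (c : ℤ) * hm
      have h2 : c ≡ 1 [MOD p] := Int.natCast_modEq_iff.mp h0
      rw [Nat.ModEq, Nat.mod_eq_of_lt (by omega : 1 < p)] at h2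
      exact h2
    rcases hdiv c ⟨d, by rw [hc]; ring⟩ h1 with h | h
    · right
      rw [h, mul_one] at hc
      refine ⟨rfl, hc.symm, ?_⟩
      rw [← hc] at hdvd
      have h3 : p - 1 ∣ e := by
        have h4 : (p - 1) * (1 + n * p) ∣ e * (1 + n * p) := by
          rw [mul_comm e]
          exact hdvd
        exact Nat.dvd_of_mul_dvd_mul_right hW h4
      have h5 : p - 1 ≤ e := Nat.le_of_dvd (by omega) h3
      have h6 : e * t ≤ e * 1 := by omega
      have h7 : t ≤ 1 := Nat.le_of_mul_le_mul_left h6 (by omega)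
      have h8 : t ≠ 0 := by
        rintro rfl
        simp at het
        omega
      omega
    · left
      refine ⟨rfl, ?_⟩
      rw [h] at hc
      exact (Nat.eq_of_mul_eq_mul_right hW hc).symm

end Cfsg.Agent.Lib.Helper10.BT
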