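import Mathlib
import Cfsg.Agent.Lib.Helper10.BT0

/-! S4700 piece BT-A3 `config_arith` (helper10's project; proved by helper79). -/

set_option autoImplicit false

namespace Cfsg.Agent.Lib.Helper10.BT

/-- BT-A3 -/
theorem config_arith (p e t n a b c x₀ : ℕ) (ε : ℤ) (hp : p.Prime) (he2 : 2 ≤ e)
    (het : e * t = p - 1) (hn : 1 ≤ n)
    (hdiv : ∀ d : ℕ, d ∣ (p - 1) * (1 + n * p) → d % p = 1 → d = 1 ∨ d = 1 + n * p)
    (habc : a + b + c = e - 1) (hc : c ≠ 0 → t = 1) (hε : ε = 1 ∨ ε = -1) (hx2 : 2 ≤ x₀)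
    (hmod : (x₀ : ℤ) ≡ ε * (e : ℤ) [ZMOD p]) (hdvd : x₀ ∣ (1 + n * p) * e)
    (heq : ε * (x₀ : ℤ) = 1 + (a : ℤ) * (1 + n * p) - (b : ℤ) * (p - 1)
      - (c : ℤ) * ((p - 1) * (1 + n * p))) :
    c = 0 ∧ 1 ≤ b ∧ ((ε = 1 ∧ x₀ = e ∧ b = a * n ∧ a * (n + 1) + 1 = e) ∨
      (ε = -1 ∧ t * x₀ = 1 + n * p ∧ b * (p - 1) = 1 + a * (1 + n * p) + x₀)) := by
  have hp2 := hp.two_le
  have ht1 : 1 ≤ t := by
    rcases Nat.eq_zero_or_pos t with h | h
    · rw [h] at het
      simp at het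
      omega
    · exact h
  have hp3 : 3 ≤ p := by
    have h0 : e * 1 ≤ e * t := Nat.mul_le_mul_left e ht1
    omega
  have hW : 0 < 1 + n * p := by omega
  have hWp : 1 + p ≤ 1 + n * p := by
    have h0 : 1 * p ≤ n * p := Nat.mul_le_mul_right p hn
    omega
  have hpc : ((p - 1 : ℕ) : ℤ) = (p : ℤ) - 1 := by
    rw [Nat.cast_sub (by omega : 1 ≤ p)]
    simp
  have hetZ : (e : ℤ) * t = (p : ℤ) - 1 := by
    rw [← hpc]
    exact_mod_cast het
  have habcZ : (a : ℤ) + b + c = (e : ℤ) - 1 := by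
    have h0 : ((e - 1 : ℕ) : ℤ) = (e : ℤ) - 1 := by
      rw [Nat.cast_sub (by omega : 1 ≤ e)]
      simp
    rw [← h0]
    exact_mod_cast habc
  have hpZ : (3 : ℤ) ≤ p := by exact_mod_cast hp3
  have hWZ : (1 : ℤ) + p ≤ 1 + n * p := by exact_mod_cast hWp
  have heZ : (2 : ℤ) ≤ e := by exact_mod_cast he2
  have hnZ : (1 : ℤ) ≤ n := by exact_mod_cast hn
  have htZ : (1 : ℤ) ≤ t := by exact_mod_cast ht1
  have ha0 : (0 : ℤ) ≤ a := by positivity
  have hb0 : (0 : ℤ) ≤ b := by positivity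
  have hc0 : (0 : ℤ) ≤ c := by positivity
  have hW0 : (0 : ℤ) ≤ 1 + n * p := by positivity
  have hbp : (0 : ℤ) ≤ b * ((p : ℤ) - 1) := mul_nonneg hb0 (by linarith)
  have hy : t * x₀ ∣ (p - 1) * (1 + n * p) := by
    rw [← het]
    obtain ⟨r, hr⟩ := hdvd
    refine ⟨r, ?_⟩
    calc e * t * (1 + n * p) = t * ((1 + n * p) * e) := by ring
      _ = t * (x₀ * r) := by rw [hr]
      _ = t * x₀ * r := by ring
  obtain ⟨c', hc'⟩ := hy
  have hc'Z : ((p : ℤ) - 1) * (1 + n * p) = t * x₀ * c' := by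
    rw [← hpc]
    exact_mod_cast hc'
  rcases hε with rfl | rfl
  · -- ε = 1
    obtain ⟨m, hm⟩ := Int.modEq_iff_dvd.mp hmod
    have hy1 : (t : ℤ) * x₀ + 1 = p * (1 - t * m) := by
      linear_combination hetZ - (t : ℤ) * hm
    have h1 : c' % p = 1 := by
      have h0 : (c' : ℤ) ≡ ((1 : ℕ) : ℤ) [ZMOD (p : ℤ)] := by
        rw [Int.modEq_iff_dvd]
        refine ⟨-((1 - t * m) * c' - 1 - n * p + n), ?_⟩
        push_cast
        linear_combination (-1 : ℤ) * hc'Z - (c' : ℤ) * hy1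
      have h2 : c' ≡ 1 [MOD p] := Int.natCast_modEq_iff.mp h0
      rw [Nat.ModEq, Nat.mod_eq_of_lt (by omega : 1 < p)] at h2
      exact h2
    rcases hdiv c' ⟨t * x₀, by rw [hc']; ring⟩ h1 with h | h
    · -- c' = 1 : x₀ = e W, impossible
      exfalso
      rw [h] at hc'Z
      have hx : (x₀ : ℤ) = e * (1 + n * p) := by
        have ht0 : (t : ℤ) ≠ 0 := by linarith
        apply mul_left_cancel₀ ht0
        linear_combination (-1 : ℤ) * hc'Z - (1 + (n : ℤ) * p) * hetZ
      rw [hx] at heq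
      have h2 : (a : ℤ) * (1 + n * p) ≤ ((e : ℤ) - 1) * (1 + n * p) :=
        mul_le_mul_of_nonneg_right (by linarith) hW0
      have h3 : (0 : ℤ) ≤ c * (((p : ℤ) - 1) * (1 + n * p)) :=
        mul_nonneg hc0 (mul_nonneg (by linarith) hW0)
      nlinarith
    · -- c' = W : x₀ = e
      rw [h] at hc'
      have h2 : p - 1 = t * x₀ := Nat.eq_of_mul_eq_mul_right hW hc'
      have hx : x₀ = e := by
        have h3 : t * x₀ = t * e := by
          rw [← h2, ← het]
          ring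
        exact Nat.eq_of_mul_eq_mul_left ht1 h3
      subst hx
      have hc0' : c = 0 := by
        by_contra hcne
        have ht : t = 1 := hc hcne
        have hep : (x₀ : ℤ) = (p : ℤ) - 1 := by
          rw [ht] at hetZ
          simpa using hetZ
        have hc1 : (1 : ℤ) ≤ c := by
          have : 1 ≤ c := Nat.one_le_iff_ne_zero.mpr hcne
          exact_mod_cast this
        have h3 : ((p : ℤ) - 1) ≤ c * ((p : ℤ) - 1) :=
          le_mul_of_one_le_left (by linarith) hc1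
        have hm1 : (a : ℤ) - c * ((p : ℤ) - 1) ≤ -1 := by linarith
        have h4 : (1 + (n : ℤ) * p) * ((a : ℤ) - c * ((p : ℤ) - 1)) ≤
            (1 + (n : ℤ) * p) * (-1) :=
          mul_le_mul_of_nonneg_left hm1 hW0
        linarith
      subst hc0'
      simp only [Nat.cast_zero, zero_mul, sub_zero, add_zero] at heq habcZ
      have hban : (b : ℤ) = a * n := by
        have hp0 : (p : ℤ) ≠ 0 := by linarith
        apply mul_left_cancel₀ hp0
        linear_combination heq + habcZ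
      have hban' : b = a * n := by exact_mod_cast hban
      have he' : a * (n + 1) + 1 = x₀ := by
        have h5 : (a : ℤ) * (n + 1) + 1 = x₀ := by
          rw [hban] at habcZ
          linarith
        exact_mod_cast h5
      have ha1 : 1 ≤ a := by
        rcases Nat.eq_zero_or_pos a with h0 | h0
        · rw [h0] at he'
          omega
        · exact h0
      refine ⟨rfl, ?_, Or.inl ⟨rfl, rfl, hban', he'⟩⟩
      rw [hban']
      exact Nat.mul_pos ha1 hn
  · -- ε = -1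
    obtain ⟨m, hm⟩ := Int.modEq_iff_dvd.mp hmod
    have h1 : (t * x₀) % p = 1 := by
      have h0 : ((t * x₀ : ℕ) : ℤ) ≡ ((1 : ℕ) : ℤ) [ZMOD (p : ℤ)] := by
        rw [Int.modEq_iff_dvd]
        refine ⟨1 + t * m, ?_⟩
        push_cast
        linear_combination hetZ + (t : ℤ) * hm
      have h2 : t * x₀ ≡ 1 [MOD p] := Int.natCast_modEq_iff.mp h0
      rw [Nat.ModEq, Nat.mod_eq_of_lt (by omega : 1 < p)] at h2
      exact h2
    have hyW : t * x₀ = 1 + n * p := by
      rcases hdiv (t * x₀) ⟨c', hc'⟩ h1 with h | h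
      · exfalso
        have h0 : 1 * 2 ≤ t * x₀ := Nat.mul_le_mul ht1 hx2
        omega
      · exact h
    have hyWZ : (t : ℤ) * x₀ = 1 + n * p := by exact_mod_cast hyW
    have hc0' : c = 0 := by
      by_contra hcne
      have ht : t = 1 := hc hcne
      have hep : (e : ℤ) = (p : ℤ) - 1 := by
        rw [ht] at hetZ
        simpa using hetZ
      have hx : (x₀ : ℤ) = 1 + n * p := by
        rw [ht] at hyWZ
        simpa using hyWZ
      have hc1 : (1 : ℤ) ≤ c := by
        have : 1 ≤ c := Nat.one_le_iff_ne_zero.mpr hcne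
        exact_mod_cast this
      have h3 : ((p : ℤ) - 1) ≤ c * ((p : ℤ) - 1) :=
        le_mul_of_one_le_left (by linarith) hc1
      have hm1 : (a : ℤ) + 1 - c * ((p : ℤ) - 1) ≤ -1 := by linarith
      have h4 : (1 + (n : ℤ) * p) * ((a : ℤ) + 1 - c * ((p : ℤ) - 1)) ≤
          (1 + (n : ℤ) * p) * (-1) :=
        mul_le_mul_of_nonneg_left hm1 hW0
      rw [hx] at heq
      linarith
    subst hc0'
    simp only [Nat.cast_zero, zero_mul, sub_zero, add_zero] at heq habcZ
    have hbZ : (b : ℤ) * ((p : ℤ) - 1) = 1 + a * (1 + n * p) + x₀ := by linarith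
    have hbN : b * (p - 1) = 1 + a * (1 + n * p) + x₀ := by
      have h5 : ((b * (p - 1) : ℕ) : ℤ) = ((1 + a * (1 + n * p) + x₀ : ℕ) : ℤ) := by
        push_cast
        rw [hpc]
        exact hbZ
      exact_mod_cast h5
    have hb1 : 1 ≤ b := by
      rcases Nat.eq_zero_or_pos b with h0 | h0
      · rw [h0] at hbN
        omega
      · exact h0
    exact ⟨rfl, hb1, Or.inr ⟨rfl, hyW, hbN⟩⟩

end Cfsg.Agent.Lib.Helper10.BT
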