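import Mathlib
import Cfsg.Agent.Lib.Helper79.NormDef4
import Cfsg.Agent.Lib.Helper82.PReg

/-!
# Central products and the principal block (helper79)

`G = U₁ U₂` with `[U₁, U₂] = 1` and `U₁ ∩ U₂` a `p`-group: the `p`-regular elements of `G` are
the products of `p`-regular elements of `U₁` and `U₂`, uniquely; an irreducible character of `G`
lies in the principal block iff its constituents on `U₁` and `U₂` do.
-/

set_option autoImplicit false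

namespace Cfsg.Agent.Lib.Helper79

open Cfsg Cfsg.Agent.Lib.Helper4 Cfsg.Agent.Lib.Helper21 Cfsg.Agent.Lib.Helper22
  Cfsg.Agent.Lib.Helper81
open scoped ComplexConjugate

section

variable {G : Type*} [Group G] [Finite G] {p : ℕ} [Fact p.Prime]

omit [Finite G] [Fact p.Prime] in
theorem le_centralizer_of_comm (U₁ U₂ : Subgroup G)
    (hcomm : ∀ u ∈ U₁, ∀ v ∈ U₂, u * v = v * u) :
    U₂ ≤ Subgroup.centralizer (U₁ : Set G) := fun v hv =>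
  Subgroup.mem_centralizer_iff.mpr (fun u hu => hcomm u hu v hv)

omit [Finite G] [Fact p.Prime] in
theorem sup_centralizer_of_comm (U₁ U₂ : Subgroup G)
    (hcomm : ∀ u ∈ U₁, ∀ v ∈ U₂, u * v = v * u) (hgen : U₁ ⊔ U₂ = ⊤) :
    U₁ ⊔ Subgroup.centralizer (U₁ : Set G) = ⊤ := by
  rw [eq_top_iff, ← hgen]
  exact sup_le_sup_left (le_centralizer_of_comm U₁ U₂ hcomm) U₁

/-- A `p`-regular element of a central product is a product of `p`-regular elements of the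
factors. -/
theorem exists_regular_factor (U₁ U₂ : Subgroup G)
    (hcomm : ∀ u ∈ U₁, ∀ v ∈ U₂, u * v = v * u) (hgen : U₁ ⊔ U₂ = ⊤) (g : G)
    (hg : ¬ p ∣ orderOf g) :
    ∃ u₁ ∈ U₁, ∃ u₂ ∈ U₂, ¬ p ∣ orderOf u₁ ∧ ¬ p ∣ orderOf u₂ ∧ u₁ * u₂ = g := by
  have hp : p.Prime := Fact.out
  haveI : U₁.Normal := normal_of_sup_centralizer U₁ (sup_centralizer_of_comm U₁ U₂ hcomm hgen)
  have hmem : g ∈ ((U₁ ⊔ U₂ : Subgroup G) : Set G) := by rw [hgen]; trivial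
  rw [Subgroup.normal_mul] at hmem
  obtain ⟨a, ha, b, hb, rfl⟩ := Set.mem_mul.mp hmem
  have hab : Commute a b := hcomm a ha b hb
  set n := orderOf (a * b) with hn
  have hcard0 : Nat.card G ≠ 0 := Nat.card_pos.ne'
  set P := ordProj[p] (Nat.card G) with hP
  set c₀ := ordCompl[p] (Nat.card G) with hc₀
  have hPc : P * c₀ = Nat.card G := Nat.ordProj_mul_ordCompl_eq_self (Nat.card G) p
  have hc₀p : ¬ p ∣ c₀ := Nat.not_dvd_ordCompl hp hcard0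
  have key : ∀ t : ℕ, P ∣ t → ∀ y : G, ¬ p ∣ orderOf (y ^ t) := by
    intro t ht y hdvd
    obtain ⟨s, rfl⟩ := ht
    have h1 : (y ^ (P * s)) ^ c₀ = 1 := by
      rw [← pow_mul, mul_right_comm, hPc, pow_mul, pow_card_eq_one', one_pow]
    exact hc₀p (dvd_trans hdvd (orderOf_dvd_of_pow_eq_one h1))
  by_cases hn1 : n = 1
  · have h1 : a * b = 1 := orderOf_eq_one_iff.mp hn1
    refine ⟨1, U₁.one_mem, 1, U₂.one_mem, ?_, ?_, ?_⟩
    · rw [orderOf_one]; exact hp.not_dvd_one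
    · rw [orderOf_one]; exact hp.not_dvd_one
    · rw [h1, one_mul]
  · have hn0 : 0 < n := orderOf_pos (a * b)
    have hn2 : 1 < n := by omega
    have hcop : Nat.Coprime P n := by
      have h1 : Nat.Coprime p n := (Nat.Prime.coprime_iff_not_dvd hp).mpr hg
      rw [hP]
      exact Nat.Coprime.pow_left _ h1
    obtain ⟨s, -, hs⟩ := Nat.exists_mul_mod_eq_one_of_coprime hcop hn2
    refine ⟨a ^ (P * s), U₁.pow_mem ha _, b ^ (P * s), U₂.pow_mem hb _,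
      key _ (dvd_mul_right P s) a, key _ (dvd_mul_right P s) b, ?_⟩
    rw [← hab.mul_pow, ← pow_mod_orderOf, ← hn, hs, pow_one]

omit [Finite G] in
/-- Uniqueness of the factorisation of a `p`-regular element into `p`-regular factors. -/
theorem regular_factor_unique (U₁ U₂ : Subgroup G)
    (hcomm : ∀ u ∈ U₁, ∀ v ∈ U₂, u * v = v * u) (hZ : IsPGroup p ↥(U₁ ⊓ U₂))
    (u₁ v₁ u₂ v₂ : G) (hu₁ : u₁ ∈ U₁) (hv₁ : v₁ ∈ U₁) (hu₂ : u₂ ∈ U₂) (hv₂ : v₂ ∈ U₂)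
    (hru₁ : ¬ p ∣ orderOf u₁) (hrv₁ : ¬ p ∣ orderOf v₁) (h : u₁ * u₂ = v₁ * v₂) :
    u₁ = v₁ ∧ u₂ = v₂ := by
  have hz : v₁⁻¹ * u₁ = v₂ * u₂⁻¹ := by
    rw [inv_mul_eq_iff_eq_mul, ← mul_assoc, eq_mul_inv_iff_mul_eq]
    exact h
  have hz1 : v₁⁻¹ * u₁ ∈ U₁ := U₁.mul_mem (U₁.inv_mem hv₁) hu₁
  have hz2 : v₁⁻¹ * u₁ ∈ U₂ := by rw [hz]; exact U₂.mul_mem hv₂ (U₂.inv_mem hu₂)
  have hcz : Commute (v₁⁻¹ * u₁) v₁ := (hcomm v₁ hv₁ _ hz2).symm
  have hone : v₁⁻¹ * u₁ = 1 := by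
    by_contra hne
    obtain ⟨k, hk⟩ := hZ ⟨v₁⁻¹ * u₁, ⟨hz1, hz2⟩⟩
    have hk' : (v₁⁻¹ * u₁) ^ (p ^ k) = 1 := by simpa using congrArg Subtype.val hk
    have hs := singular_of_ppart_ne_one p (v₁⁻¹ * u₁) v₁ hcz hne k hk' hrv₁
    rw [hcz.eq, mul_inv_cancel_left] at hs
    exact hru₁ hs
  have h1 : u₁ = v₁ := (inv_mul_eq_one.mp hone).symm
  refine ⟨h1, ?_⟩
  rw [h1] at h
  exact mul_left_cancel h

end

section

variable {G : Type*} [Group G] [Fintype G] {p : ℕ} [Fact p.Prime] {M : Ideal AlgInt}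

open scoped Classical in
/-- Sums over the `p`-regular elements of a central product. -/
theorem sum_regular_central_product (U₁ U₂ : Subgroup G) [Fintype U₁] [Fintype U₂]
    (hcomm : ∀ u ∈ U₁, ∀ v ∈ U₂, u * v = v * u) (hgen : U₁ ⊔ U₂ = ⊤)
    (hZ : IsPGroup p ↥(U₁ ⊓ U₂)) (F : G → ℂ) :
    ∑ g : G, (if ¬ p ∣ orderOf g then F g else 0) =
      ∑ u₁ : U₁, ∑ u₂ : U₂, (if ¬ p ∣ orderOf u₁ then
        (if ¬ p ∣ orderOf u₂ then F ((u₁ : G) * (u₂ : G)) else 0) else 0) := by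
  have hp : p.Prime := Fact.out
  have hrhs : ∑ u₁ : U₁, ∑ u₂ : U₂, (if ¬ p ∣ orderOf u₁ then
        (if ¬ p ∣ orderOf u₂ then F ((u₁ : G) * (u₂ : G)) else 0) else 0) =
      ∑ x ∈ (Finset.univ.filter (fun u : U₁ => ¬ p ∣ orderOf u)) ×ˢ
        (Finset.univ.filter (fun u : U₂ => ¬ p ∣ orderOf u)), F ((x.1 : G) * (x.2 : G)) := by
    rw [Finset.sum_product, Finset.sum_filter]
    refine Finset.sum_congr rfl fun u₁ _ => ?_
    by_cases h1 : p ∣ orderOf u₁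
    · simp [h1]
    · simp only [h1, not_false_eq_true, if_true]
      rw [Finset.sum_filter]
  rw [hrhs, ← Finset.sum_filter]
  symm
  refine Finset.sum_bij (fun x _ => (x.1 : G) * (x.2 : G)) ?_ ?_ ?_ ?_
  · intro x hx
    rw [Finset.mem_product, Finset.mem_filter, Finset.mem_filter] at hx
    rw [Finset.mem_filter]
    refine ⟨Finset.mem_univ _, fun hdvd => ?_⟩
    have hc : Commute (x.1 : G) (x.2 : G) := hcomm _ x.1.2 _ x.2.2
    have h1 := dvd_trans hdvd hc.orderOf_mul_dvd_lcm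
    rcases (Nat.Prime.dvd_lcm hp).mp h1 with h | h
    · rw [Subgroup.orderOf_coe] at h; exact hx.1.2 h
    · rw [Subgroup.orderOf_coe] at h; exact hx.2.2 h
  · intro x hx y hy hxy
    rw [Finset.mem_product, Finset.mem_filter, Finset.mem_filter] at hx hy
    have hrx : ¬ p ∣ orderOf (x.1 : G) := by rw [Subgroup.orderOf_coe]; exact hx.1.2
    have hry : ¬ p ∣ orderOf (y.1 : G) := by rw [Subgroup.orderOf_coe]; exact hy.1.2
    obtain ⟨e1, e2⟩ := regular_factor_unique U₁ U₂ hcomm hZ _ _ _ _ x.1.2 y.1.2 x.2.2 y.2.2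
      hrx hry hxy
    exact Prod.ext (Subtype.ext e1) (Subtype.ext e2)
  · intro g hg
    rw [Finset.mem_filter] at hg
    obtain ⟨u₁, hu₁, u₂, hu₂, hr₁, hr₂, rfl⟩ := exists_regular_factor U₁ U₂ hcomm hgen g hg.2
    refine ⟨(⟨u₁, hu₁⟩, ⟨u₂, hu₂⟩), ?_, rfl⟩
    rw [Finset.mem_product, Finset.mem_filter, Finset.mem_filter]
    refine ⟨⟨Finset.mem_univ _, ?_⟩, ⟨Finset.mem_univ _, ?_⟩⟩
    · rw [← Subgroup.orderOf_coe]; exact hr₁
    · rw [← Subgroup.orderOf_coe]; exact hr₂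
  · intro x _
    rfl

/-- Restriction of an irreducible character of a central product to a factor. -/
theorem central_product_res (U₁ U₂ : Subgroup G) [Fintype U₁]
    (hcomm : ∀ u ∈ U₁, ∀ v ∈ U₂, u * v = v * u) (hgen : U₁ ⊔ U₂ = ⊤)
    (χ : IrrCharacter G) (ψ₁ : IrrCharacter U₁)
    (h₁ : classInner (fun u : U₁ => (χ : G → ℂ) u) (ψ₁ : U₁ → ℂ) ≠ 0) :
    ∃ e : ℂ, e ≠ 0 ∧ ∀ y : U₁, (χ : G → ℂ) y = e * (ψ₁ : U₁ → ℂ) y := by
  classical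
  have hsup := sup_centralizer_of_comm U₁ U₂ hcomm hgen
  haveI : U₁.Normal := normal_of_sup_centralizer U₁ hsup
  have hDC := factor_of_sup_centralizer U₁ hsup
  obtain ⟨ζ, e, he, hζ⟩ := irr_res_normal_invariant U₁ hDC χ
  have h2 : classInner (fun u : U₁ => (χ : G → ℂ) u) (ψ₁ : U₁ → ℂ) =
      e * classInner (ζ : U₁ → ℂ) (ψ₁ : U₁ → ℂ) := by
    have hs : ∑ u : U₁, (χ : G → ℂ) (u : G) * conj ((ψ₁ : U₁ → ℂ) u) =
        e * ∑ u : U₁, (ζ : U₁ → ℂ) u * conj ((ψ₁ : U₁ → ℂ) u) := by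
      rw [Finset.mul_sum]
      exact Finset.sum_congr rfl fun u _ => by rw [hζ u, mul_assoc]
    show (Nat.card U₁ : ℂ)⁻¹ * ∑ u : U₁, (χ : G → ℂ) (u : G) * conj ((ψ₁ : U₁ → ℂ) u) =
      e * ((Nat.card U₁ : ℂ)⁻¹ * ∑ u : U₁, (ζ : U₁ → ℂ) u * conj ((ψ₁ : U₁ → ℂ) u))
    rw [hs]
    ring
  have h3 : ζ = ψ₁ := by
    by_contra hne
    apply h₁
    rw [h2, classInner_irr, if_neg hne, mul_zero]
  rw [h3] at hζ
  exact ⟨e, he, hζ⟩

/-- An irreducible character of a central product `G = U₁ U₂` with `U₁ ∩ U₂` a `p`-group lies in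
the principal block iff its constituents on the two factors do. -/
theorem central_product_principal (hM : IsPModular p M) (U₁ U₂ : Subgroup G) [Fintype U₁]
    [Fintype U₂] (hcomm : ∀ u ∈ U₁, ∀ v ∈ U₂, u * v = v * u) (hgen : U₁ ⊔ U₂ = ⊤)
    (hZ : IsPGroup p ↥(U₁ ⊓ U₂)) (χ : IrrCharacter G) (ψ₁ : IrrCharacter U₁)
    (ψ₂ : IrrCharacter U₂)
    (h₁ : classInner (fun u : U₁ => (χ : G → ℂ) u) (ψ₁ : U₁ → ℂ) ≠ 0)
    (h₂ : classInner (fun u : U₂ => (χ : G → ℂ) u) (ψ₂ : U₂ → ℂ) ≠ 0) :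
    χ ∈ principalBlock M G ↔ (ψ₁ ∈ principalBlock M U₁ ∧ ψ₂ ∈ principalBlock M U₂) := by
  classical
  have hcomm' : ∀ u ∈ U₂, ∀ v ∈ U₁, u * v = v * u := fun u hu v hv => (hcomm v hv u hu).symm
  have hgen' : U₂ ⊔ U₁ = ⊤ := by rw [sup_comm]; exact hgen
  obtain ⟨e₁, he₁, hχ₁⟩ := central_product_res U₁ U₂ hcomm hgen χ ψ₁ h₁
  obtain ⟨e₂, he₂, hχ₂⟩ := central_product_res U₂ U₁ hcomm' hgen' χ ψ₂ h₂
  have hsup := sup_centralizer_of_comm U₁ U₂ hcomm hgen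
  haveI : U₁.Normal := normal_of_sup_centralizer U₁ hsup
  have hDC := factor_of_sup_centralizer U₁ hsup
  have hχ1 : (χ : G → ℂ) 1 ≠ 0 := irr_one_ne_zero χ
  have hmul : ∀ (u₁ : U₁) (u₂ : U₂), (χ : G → ℂ) ((u₁ : G) * (u₂ : G)) =
      (e₁ * (ψ₁ : U₁ → ℂ) u₁) * (e₂ * (ψ₂ : U₂ → ℂ) u₂) / (χ : G → ℂ) 1 := by
    intro u₁ u₂
    have h := irr_mul_of_central_product U₁ hDC χ (u₁ : G) (u₂ : G) u₁.2
      (le_centralizer_of_comm U₁ U₂ hcomm u₂.2)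
    rw [hχ₁ u₁, hχ₂ u₂] at h
    rw [h, mul_div_cancel_left₀ _ hχ1]
  have hsum : ∑ g : G, Cfsg.Agent.Lib.Helper82.pRegInd p G g * (χ : G → ℂ) g =
      e₁ * e₂ / (χ : G → ℂ) 1 *
        (∑ u : U₁, Cfsg.Agent.Lib.Helper82.pRegInd p U₁ u * (ψ₁ : U₁ → ℂ) u) *
        (∑ u : U₂, Cfsg.Agent.Lib.Helper82.pRegInd p U₂ u * (ψ₂ : U₂ → ℂ) u) := by
    have hl : ∑ g : G, Cfsg.Agent.Lib.Helper82.pRegInd p G g * (χ : G → ℂ) g =
        ∑ g : G, (if ¬ p ∣ orderOf g then (χ : G → ℂ) g else 0) := by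
      refine Finset.sum_congr rfl fun g _ => ?_
      by_cases hg : p ∣ orderOf g
      · rw [Cfsg.Agent.Lib.Helper82.pRegInd_of_sing hg, zero_mul, if_neg (not_not.mpr hg)]
      · rw [Cfsg.Agent.Lib.Helper82.pRegInd_of_reg hg, one_mul, if_pos hg]
    rw [hl, sum_regular_central_product U₁ U₂ hcomm hgen hZ, mul_assoc, Finset.sum_mul_sum,
      Finset.mul_sum]
    refine Finset.sum_congr rfl fun u₁ _ => ?_
    rw [Finset.mul_sum]
    refine Finset.sum_congr rfl fun u₂ _ => ?_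
    by_cases hr₁ : p ∣ orderOf u₁
    · rw [if_neg (not_not.mpr hr₁), Cfsg.Agent.Lib.Helper82.pRegInd_of_sing hr₁]
      ring
    · by_cases hr₂ : p ∣ orderOf u₂
      · rw [if_pos hr₁, if_neg (not_not.mpr hr₂), Cfsg.Agent.Lib.Helper82.pRegInd_of_sing hr₂]
        ring
      · rw [if_pos hr₁, if_pos hr₂, Cfsg.Agent.Lib.Helper82.pRegInd_of_reg hr₁,
          Cfsg.Agent.Lib.Helper82.pRegInd_of_reg hr₂, hmul u₁ u₂]
        ring
  rw [Cfsg.Agent.Lib.Helper82.mem_principal_iff_sum_pRegular hM χ,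
    Cfsg.Agent.Lib.Helper82.mem_principal_iff_sum_pRegular hM ψ₁,
    Cfsg.Agent.Lib.Helper82.mem_principal_iff_sum_pRegular hM ψ₂, hsum]
  have hc : e₁ * e₂ / (χ : G → ℂ) 1 ≠ 0 := div_ne_zero (mul_ne_zero he₁ he₂) hχ1
  constructor
  · intro h
    exact ⟨fun h0 => h (by rw [h0, mul_zero, zero_mul]), fun h0 => h (by rw [h0, mul_zero])⟩
  · rintro ⟨ha, hb⟩
    exact mul_ne_zero (mul_ne_zero hc ha) hb

end

end Cfsg.Agent.Lib.Helper79
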