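import Mathlib
import Cfsg.Prelude.Def_Blocks
import Cfsg.Agent.Lib.Helper83.Ct2
import Cfsg.Agent.Lib.Helper83.Central

/-!
# S4561 piece FIN-A4 (helper79): the centre of `K ⧸ ker θ` is cyclic
-/

set_option autoImplicit false

namespace Cfsg.Agent.Lib.Helper79.Ct

open scoped ComplexConjugate
open Cfsg Cfsg.Agent.Lib Cfsg.Agent.Lib.Helper83

theorem fin_a4 {K : Type*} [Group K] [Finite K] (θ : IrrCharacter K) (Z : Subgroup K)
    (lam : Z →* ℂˣ)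
    (hcen : ∀ (z : Z) (h : K), (θ : K → ℂ) ((z : K) * h) = ((lam z : ℂˣ) : ℂ) * (θ : K → ℂ) h)
    (hZ : ∀ g : K, (g : K ⧸ irrKer θ) ∈ Subgroup.center (K ⧸ irrKer θ) → g ∈ Z) :
    IsCyclic (Subgroup.center (K ⧸ irrKer θ)) := by
  classical
  obtain ⟨ψ, -, hψ⟩ := irr_deflate (irrKer θ) θ.2 (fun x hx => (mem_irrKer θ x).mp hx)
  have hθ1 : (θ : K → ℂ) 1 ≠ 0 := irr_one_ne_zero θ.2
  have hψ1 : ψ 1 = (θ : K → ℂ) 1 := hψ 1
  -- representatives in `Z`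
  have hrep : ∀ c : Subgroup.center (K ⧸ irrKer θ), ∃ z : Z,
      ((z : K) : K ⧸ irrKer θ) = (c : K ⧸ irrKer θ) ∧
        ψ (c : K ⧸ irrKer θ) / ψ 1 = ((lam z : ℂˣ) : ℂ) := by
    intro c
    obtain ⟨g, hg⟩ := QuotientGroup.mk_surjective (c : K ⧸ irrKer θ)
    have hgZ : g ∈ Z := hZ g (by rw [hg]; exact c.2)
    refine ⟨⟨g, hgZ⟩, hg, ?_⟩
    rw [← hg, hψ, hψ1]
    have h1 := hcen ⟨g, hgZ⟩ 1
    rw [mul_one] at h1
    rw [h1, mul_div_assoc, div_self hθ1, mul_one]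
  have hmul : ∀ c c' : Subgroup.center (K ⧸ irrKer θ),
      ψ ((c * c' : Subgroup.center (K ⧸ irrKer θ)) : K ⧸ irrKer θ) / ψ 1 =
        ψ (c : K ⧸ irrKer θ) / ψ 1 * (ψ (c' : K ⧸ irrKer θ) / ψ 1) := by
    intro c c'
    obtain ⟨z, hz, hzv⟩ := hrep c
    obtain ⟨z', hz', hzv'⟩ := hrep c'
    rw [hzv, hzv']
    have h1 : ((c * c' : Subgroup.center (K ⧸ irrKer θ)) : K ⧸ irrKer θ) =
        (((z : K) * (z' : K) : K) : K ⧸ irrKer θ) := by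
      rw [Subgroup.coe_mul, ← hz, ← hz']
      rfl
    rw [h1, hψ, hψ1, hcen z (z' : K)]
    have h2 := hcen z' 1
    rw [mul_one] at h2
    rw [h2, ← mul_assoc, mul_div_assoc, div_self hθ1, mul_one]
  let f : Subgroup.center (K ⧸ irrKer θ) →* ℂ :=
    { toFun := fun c => ψ (c : K ⧸ irrKer θ) / ψ 1
      map_one' := by
        show ψ ((1 : Subgroup.center (K ⧸ irrKer θ)) : K ⧸ irrKer θ) / ψ 1 = 1
        rw [Subgroup.coe_one, hψ1, div_self hθ1]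
      map_mul' := hmul }
  apply isCyclic_of_subgroup_isDomain f
  intro c c' hcc
  obtain ⟨z, hz, hzv⟩ := hrep c
  obtain ⟨z', hz', hzv'⟩ := hrep c'
  have h1 : ψ (c : K ⧸ irrKer θ) / ψ 1 = ψ (c' : K ⧸ irrKer θ) / ψ 1 := hcc
  rw [hzv, hzv'] at h1
  have h2 : lam z = lam z' := Units.ext h1
  have h3 : lam (z⁻¹ * z') ^ 1 = 1 := by
    rw [pow_one, map_mul, map_inv, h2, inv_mul_cancel]
  have h4 := (fin_a3 θ Z lam hcen (z⁻¹ * z') 1).mpr h3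
  rw [pow_one] at h4
  apply Subtype.ext
  rw [← hz, ← hz']
  exact QuotientGroup.eq.mpr h4

end Cfsg.Agent.Lib.Helper79.Ct
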