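import Mathlib

/-!
# `2^a (4^a - 1)` has exactly three prime divisors only for `a = 2, 3`
(piece EPO-NT of helper23's S4068 project; proved by helper79)
-/

set_option autoImplicit false

namespace Cfsg.Agent.Lib.Helper23

theorem epo_two_pow_three_primes (a : ℕ) (ha : 2 ≤ a)
    (h : (2 ^ a * ((2 ^ a) ^ 2 - 1)).primeFactors.card = 3) : a = 2 ∨ a = 3 := by
  have key3 : ∀ n : ℕ, 2 ^ n % 3 = 1 ∨ 2 ^ n % 3 = 2 := by
    intro n
    induction n with
    | zero => left; norm_num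
    | succ n ih => rw [pow_succ]; omega
  have key8 : ∀ n : ℕ, 3 ^ n % 8 = 1 ∨ 3 ^ n % 8 = 3 := by
    intro n
    induction n with
    | zero => left; norm_num
    | succ n ih => rw [pow_succ]; omega
  have key16 : ∀ j : ℕ, 3 ^ j % 16 = 1 → j % 4 = 0 := by
    intro j hj
    have h4 : ∀ d : ℕ, 3 ^ (4 * d) % 16 = 1 := by
      intro d
      rw [pow_mul, Nat.pow_mod]
      norm_num
    have hdecomp : j = 4 * (j / 4) + j % 4 := (Nat.div_add_mod j 4).symm
    have hlt : j % 4 < 4 := Nat.mod_lt _ (by norm_num)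
    rw [hdecomp, pow_add, Nat.mul_mod, h4] at hj
    have h5 : j % 4 = 0 ∨ j % 4 = 1 ∨ j % 4 = 2 ∨ j % 4 = 3 := by omega
    rcases h5 with h5 | h5 | h5 | h5
    · exact h5
    · rw [h5] at hj; norm_num at hj
    · rw [h5] at hj; norm_num at hj
    · rw [h5] at hj; norm_num at hj
  obtain ⟨Q, hQ⟩ : ∃ Q, Q = 2 ^ a := ⟨_, rfl⟩
  rw [← hQ] at h
  have hQ4 : 4 ≤ Q := by
    rw [hQ]
    calc 4 = 2 ^ 2 := by norm_num
      _ ≤ 2 ^ a := Nat.pow_le_pow_right (by norm_num) ha
  have hfac : Q ^ 2 - 1 = (Q + 1) * (Q - 1) := by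
    have h1 := Nat.sq_sub_sq Q 1
    rwa [one_pow] at h1
  have hQeven : 2 ∣ Q := by
    rw [hQ]
    exact dvd_pow_self 2 (by omega)
  have hodd1 : Odd (Q - 1) := by
    obtain ⟨k, hk⟩ := hQeven
    exact ⟨k - 1, by omega⟩
  have hodd2 : Odd (Q + 1) := by
    obtain ⟨k, hk⟩ := hQeven
    exact ⟨k, by omega⟩
  have c1 : Nat.Coprime Q (Q - 1) := by
    rw [hQ]
    apply Nat.Coprime.pow_left
    rw [← hQ]
    exact Nat.coprime_two_left.mpr hodd1
  have c2 : Nat.Coprime Q (Q + 1) := by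
    rw [hQ]
    apply Nat.Coprime.pow_left
    rw [← hQ]
    exact Nat.coprime_two_left.mpr hodd2
  have c3 : Nat.Coprime (Q + 1) (Q - 1) := by
    have h2 : Nat.gcd (Q + 1) (Q - 1) ∣ 2 := by
      have h1 := Nat.dvd_sub (Nat.gcd_dvd_left (Q + 1) (Q - 1)) (Nat.gcd_dvd_right (Q + 1) (Q - 1))
      have h3 : Q + 1 - (Q - 1) = 2 := by omega
      rwa [h3] at h1
    have h3 : ¬ 2 ∣ Q - 1 := by
      obtain ⟨k, hk⟩ := hodd1
      omega
    rcases (Nat.dvd_prime Nat.prime_two).mp h2 with h4 | h4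
    · exact h4
    · exact absurd (h4 ▸ Nat.gcd_dvd_right (Q + 1) (Q - 1)) h3
  have hpfQ : Q.primeFactors = {2} := by
    rw [hQ]
    exact Nat.primeFactors_prime_pow (by omega) Nat.prime_two
  rw [hfac, Nat.Coprime.primeFactors_mul (Nat.Coprime.mul_right c2 c1),
    Nat.Coprime.primeFactors_mul c3,
    Finset.card_union_of_disjoint (by
      rw [← Nat.Coprime.primeFactors_mul c3]
      exact (Nat.Coprime.mul_right c2 c1).disjoint_primeFactors),
    Finset.card_union_of_disjoint c3.disjoint_primeFactors, hpfQ, Finset.card_singleton] at h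
  have hp1 : 0 < (Q + 1).primeFactors.card :=
    Finset.card_pos.mpr (Nat.nonempty_primeFactors.mpr (by omega))
  have hp2 : 0 < (Q - 1).primeFactors.card :=
    Finset.card_pos.mpr (Nat.nonempty_primeFactors.mpr (by omega))
  have hpp1 : IsPrimePow (Q + 1) := isPrimePow_iff_card_primeFactors_eq_one.mpr (by omega)
  have hpp2 : IsPrimePow (Q - 1) := isPrimePow_iff_card_primeFactors_eq_one.mpr (by omega)
  obtain ⟨s, j, hs, hj, hsj⟩ := (isPrimePow_nat_iff _).mp hpp1
  obtain ⟨r, i, hr, hi, hri⟩ := (isPrimePow_nat_iff _).mp hpp2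
  rcases key3 a with h3 | h3
  · -- 3 ∣ Q - 1
    have hd : 3 ∣ Q - 1 := by
      rw [hQ]
      omega
    rw [← hri] at hd
    have hr3 : r = 3 := ((Nat.prime_dvd_prime_iff_eq Nat.prime_three hr).mp
      (Nat.prime_three.dvd_of_dvd_pow hd)).symm
    rw [hr3] at hri
    left
    by_contra hne
    have ha3 : 3 ≤ a := by omega
    have h8 : 8 ∣ Q := by
      rw [hQ]
      exact pow_dvd_pow 2 ha3
    have h9 := key8 i
    obtain ⟨k, hk⟩ := h8
    omega
  · -- 3 ∣ Q + 1
    have hd : 3 ∣ Q + 1 := by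
      rw [hQ]
      omega
    rw [← hsj] at hd
    have hs3 : s = 3 := ((Nat.prime_dvd_prime_iff_eq Nat.prime_three hs).mp
      (Nat.prime_three.dvd_of_dvd_pow hd)).symm
    rw [hs3] at hsj
    have ha3 : a ≤ 3 := by
      by_contra hne
      have ha4 : 4 ≤ a := by omega
      have h16 : 16 ∣ Q := by
        rw [hQ]
        exact pow_dvd_pow 2 ha4
      have hj16 : 3 ^ j % 16 = 1 := by
        obtain ⟨k, hk⟩ := h16
        omega
      have hj4 := key16 j hj16
      have hdecomp : j = 4 * (j / 4) := by omega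
      have h81 : 3 ^ j % 5 = 1 := by
        rw [hdecomp, pow_mul, Nat.pow_mod]
        norm_num
      have h5 : 5 ∣ Q := by omega
      rw [hQ] at h5
      have h52 : 5 ∣ 2 := (by norm_num : Nat.Prime 5).dvd_of_dvd_pow h5
      omega
    omega

end Cfsg.Agent.Lib.Helper23
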