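import Mathlib

/-!
# `PSL(2, 8)` has an element of order nine
(piece EPO-ORD9 of helper23's S4068 project; proved by helper79)
-/

set_option autoImplicit false

namespace Cfsg.Agent.Lib.Helper23

theorem epo_mat2_ext {F : Type*} {a b c d a' b' c' d' : F} (h1 : a = a') (h2 : b = b')
    (h3 : c = c') (h4 : d = d') :
    (!![a, b; c, d] : Matrix (Fin 2) (Fin 2) F) = !![a', b'; c', d'] := by
  subst h1 h2 h3 h4
  rfl

theorem epo_psl2_eight_order_nine {F : Type*} [Field F] [Fintype F] (hF : Fintype.card F = 8) :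
    ∃ g : Matrix.ProjectiveSpecialLinearGroup (Fin 2) F, orderOf g = 9 := by
  classical
  have h2 : (2 : F) = 0 := by
    have h8 : ((Fintype.card F : ℕ) : F) = 0 := Nat.cast_card_eq_zero F
    rw [hF] at h8
    have h3 : (2 : F) ^ 3 = 0 := by
      push_cast at h8
      linear_combination h8
    exact (pow_eq_zero_iff (by norm_num)).mp h3
  obtain ⟨x, hx0, hx1⟩ : ∃ x : F, x ≠ 0 ∧ x ≠ 1 := by
    by_contra hcon
    push_neg at hcon
    have hsub : (Finset.univ : Finset F) ⊆ {0, 1} := by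
      intro x _
      by_cases h0 : x = 0
      · simp [h0]
      · simp [hcon x h0]
    have h1 := Finset.card_le_card hsub
    rw [Finset.card_univ, hF] at h1
    have h2' : ({0, 1} : Finset F).card ≤ 2 := Finset.card_le_two
    omega
  have hx7 : x ^ 7 = 1 := by
    have h := FiniteField.pow_card_sub_one_eq_one x hx0
    rwa [hF] at h
  obtain ⟨a, ha⟩ : ∃ a : F, a ^ 3 = a + 1 := by
    have hprod : (x - 1) * (x ^ 3 + x + 1) * (x ^ 3 + x ^ 2 + 1) = 0 := by
      linear_combination hx7 + (x ^ 4 - x ^ 3) * h2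
    rcases mul_eq_zero.mp hprod with h | h
    · rcases mul_eq_zero.mp h with h | h
      · exact absurd (sub_eq_zero.mp h) hx1
      · exact ⟨x, by linear_combination h - (x + 1) * h2⟩
    · refine ⟨x⁻¹, ?_⟩
      have hxy : x * x⁻¹ = 1 := mul_inv_cancel₀ hx0
      generalize x⁻¹ = y at hxy
      linear_combination y ^ 3 * h - ((x ^ 2 * y ^ 2 + x * y + 1) + y * (x * y + 1)) * hxy -
        (y + 1) * h2
  have hA3 : (!![0, 1; 1, a] : Matrix (Fin 2) (Fin 2) F) ^ 3 =
      !![a, 1 + a ^ 2; 1 + a ^ 2, a + 1] := by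
    rw [pow_succ, pow_succ, pow_one, Matrix.mul_fin_two, Matrix.mul_fin_two]
    exact epo_mat2_ext (by ring) (by ring) (by ring) (by linear_combination ha + a * h2)
  have hN2 : (!![a, 1 + a ^ 2; 1 + a ^ 2, a + 1] : Matrix (Fin 2) (Fin 2) F) *
      !![a, 1 + a ^ 2; 1 + a ^ 2, a + 1] = !![1 + a, 1 + a ^ 2; 1 + a ^ 2, a] := by
    rw [Matrix.mul_fin_two]
    exact epo_mat2_ext (by linear_combination a * ha + 2 * a ^ 2 * h2)
      (by linear_combination a * (1 + a ^ 2) * h2)
      (by linear_combination a * (1 + a ^ 2) * h2)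
      (by linear_combination a * ha + (2 * a ^ 2 + a + 1) * h2)
  have hN3 : (!![1 + a, 1 + a ^ 2; 1 + a ^ 2, a] : Matrix (Fin 2) (Fin 2) F) *
      !![a, 1 + a ^ 2; 1 + a ^ 2, a + 1] = 1 := by
    rw [Matrix.mul_fin_two, Matrix.one_fin_two]
    exact epo_mat2_ext (by linear_combination a * ha + (2 * a ^ 2 + a) * h2)
      (by linear_combination (1 + a) * (1 + a ^ 2) * h2)
      (by linear_combination a * (1 + a ^ 2) * h2)
      (by linear_combination a * ha + (2 * a ^ 2 + a) * h2)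
  have hA9 : (!![0, 1; 1, a] : Matrix (Fin 2) (Fin 2) F) ^ 9 = 1 := by
    have h9 : (9 : ℕ) = 3 * 3 := by norm_num
    rw [h9, pow_mul, hA3, pow_succ, pow_succ, pow_one, hN2, hN3]
  have hdet : (!![0, 1; 1, a] : Matrix (Fin 2) (Fin 2) F).det = 1 := by
    rw [Matrix.det_fin_two_of]
    linear_combination (-1 : F) * h2
  let M : Matrix.SpecialLinearGroup (Fin 2) F := ⟨!![0, 1; 1, a], hdet⟩
  have hM9 : M ^ 9 = 1 := by
    apply Subtype.ext
    rw [Matrix.SpecialLinearGroup.coe_pow, Matrix.SpecialLinearGroup.coe_one]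
    exact hA9
  have hM3 : M ^ 3 ∉ Subgroup.center (Matrix.SpecialLinearGroup (Fin 2) F) := by
    intro hmem
    obtain ⟨r, -, hr⟩ := Matrix.SpecialLinearGroup.mem_center_iff.mp hmem
    have h01 := congrFun (congrFun hr 0) 1
    rw [Matrix.SpecialLinearGroup.coe_pow] at h01
    have hMA : (M : Matrix (Fin 2) (Fin 2) F) = !![0, 1; 1, a] := rfl
    rw [hMA, hA3] at h01
    simp at h01
    have he2 : (1 + a) ^ 2 = 0 := by linear_combination h01.symm + a * h2
    have he : 1 + a = 0 := (pow_eq_zero_iff (by norm_num)).mp he2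
    have h10 : (1 : F) = 0 := by
      linear_combination (-1 : F) * ha + ((1 + a) ^ 2 - 3 * (1 + a) + 2) * he
    exact one_ne_zero h10
  refine ⟨(QuotientGroup.mk M : Matrix.ProjectiveSpecialLinearGroup (Fin 2) F), ?_⟩
  haveI : Fact (Nat.Prime 3) := ⟨Nat.prime_three⟩
  have h := orderOf_eq_prime_pow (x := (QuotientGroup.mk M :
    Matrix.ProjectiveSpecialLinearGroup (Fin 2) F)) (p := 3) (n := 1) (by
      rw [pow_one, ← QuotientGroup.mk_pow, QuotientGroup.eq_one_iff]
      exact hM3) (by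
      have h9 : 3 ^ (1 + 1) = 9 := by norm_num
      rw [h9, ← QuotientGroup.mk_pow, hM9]
      rfl)
  rw [h]
  norm_num

end Cfsg.Agent.Lib.Helper23
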