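import Mathlib
import Cfsg.Prelude.Def_Characters
import Cfsg.Prelude.Def_Blocks
import Cfsg.Agent.Lib.Helper4.CharDual
import Cfsg.Agent.Lib.Helper79.FSCount

set_option autoImplicit false

namespace Cfsg.Agent.Lib.Helper79

open scoped ComplexConjugate
open Cfsg.Agent.Lib.Helper4
open Matrix Module

section IrrRep

variable {G : Type*} [Group G] [Fintype G]

/-- A representation whose character is an irreducible character is irreducible. -/
theorem irreducible_of_irr_char {V : Type*} [AddCommGroup V] [Module ℂ V]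
    [FiniteDimensional ℂ V] (ρ : Representation ℂ G V)
    (h : Cfsg.IsIrrCharacter G ρ.character) : ρ.IsIrreducible := by
  classical
  have hfin := irr_finite (G := G)
  letI : Fintype (Cfsg.IrrCharacter G) := Fintype.ofFinite _
  by_contra hirr
  have hV : Nontrivial V := by
    by_contra hV
    rw [not_nontrivial_iff_subsingleton] at hV
    have h0 := char_eq_zero_of_subsingleton ρ
    have h1 := irr_one_ne_zero ⟨ρ.character, h⟩
    apply h1
    show ρ.character 1 = 0
    rw [h0]; rfl
  obtain ⟨S, hSb, hSt⟩ := exists_proper_sub ρ hV hirr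
  obtain ⟨S', hc⟩ := exists_compl_sub ρ S
  obtain ⟨m, hm⟩ := exists_decomp S.toRepresentation
  obtain ⟨m', hm'⟩ := exists_decomp S'.toRepresentation
  have hsum : ρ.character = ∑ χ : Cfsg.IrrCharacter G, ((m χ + m' χ : ℕ) : ℂ) • (χ : G → ℂ) := by
    funext g
    rw [char_add_of_isCompl ρ S S' hc g, hm, hm']
    simp only [Finset.sum_apply, Pi.smul_apply, smul_eq_mul, Nat.cast_add, add_mul,
      Finset.sum_add_distrib]
  have hmult : ∀ ψ : Cfsg.IrrCharacter G, m ψ + m' ψ = if (⟨ρ.character, h⟩ : Cfsg.IrrCharacter G) = ψ then 1 else 0 := by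
    intro ψ
    have h1 := classInner_irr (⟨ρ.character, h⟩ : Cfsg.IrrCharacter G) ψ
    have h2 : Cfsg.classInner ρ.character (ψ : G → ℂ) = ((m ψ + m' ψ : ℕ) : ℂ) := by
      conv_lhs => rw [hsum]
      exact classInner_sum_irr _ ψ
    have h3 : ((m ψ + m' ψ : ℕ) : ℂ) = if (⟨ρ.character, h⟩ : Cfsg.IrrCharacter G) = ψ then 1 else 0 := by
      rw [← h2]; exact h1
    split_ifs at h3 ⊢ with hψ
    · exact_mod_cast h3
    · exact_mod_cast h3
  have hSne : S.toSubmodule ≠ ⊥ := fun hh => hSb (Subrepresentation.toSubmodule_injective hh)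
  have hS'ne : S'.toSubmodule ≠ ⊥ := by
    intro hh
    apply hSt
    apply Subrepresentation.toSubmodule_injective
    have := hc.sup_eq_top
    rw [hh, sup_bot_eq] at this
    exact this
  have hex : ∀ (T : Subrepresentation ρ) (k : Cfsg.IrrCharacter G → ℕ),
      T.toSubmodule ≠ ⊥ →
      T.toRepresentation.character = ∑ χ : Cfsg.IrrCharacter G, (k χ : ℂ) • (χ : G → ℂ) →
      ∃ ψ, k ψ ≠ 0 := by
    intro T k hT hk
    by_contra hcon
    push Not at hcon
    have h1 : T.toRepresentation.character 1 = 0 := by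
      rw [hk]
      simp [hcon]
    rw [Representation.char_one] at h1
    have h2 : finrank ℂ T.toSubmodule = 0 := by exact_mod_cast h1
    exact hT (Submodule.finrank_eq_zero.1 h2)
  obtain ⟨ψ, hψ⟩ := hex S m hSne hm
  obtain ⟨ψ', hψ'⟩ := hex S' m' hS'ne hm'
  have h1 := hmult ψ
  have h2 := hmult ψ'
  have e1 : (⟨ρ.character, h⟩ : Cfsg.IrrCharacter G) = ψ := by
    by_contra hne
    rw [if_neg hne] at h1
    omega
  have e2 : (⟨ρ.character, h⟩ : Cfsg.IrrCharacter G) = ψ' := by
    by_contra hne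
    rw [if_neg hne] at h2
    omega
  rw [if_pos e1] at h1
  rw [← e2, e1] at hψ'
  omega

end IrrRep

section RealToInd

variable {G : Type*} [Group G] {n : ℕ}

/-- The representation attached to a matrix representation. -/
noncomputable def matRep {k : Type*} [Field k] (X : G →* Matrix (Fin n) (Fin n) k) :
    Representation k G (Fin n → k) :=
  ((Matrix.toLinAlgEquiv' : Matrix (Fin n) (Fin n) k ≃ₐ[k] _) : Matrix (Fin n) (Fin n) k →* _).comp X

theorem matRep_apply {k : Type*} [Field k] (X : G →* Matrix (Fin n) (Fin n) k) (g : G) :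
    matRep X g = Matrix.toLin' (X g) := rfl

theorem repMat_matRep {k : Type*} [Field k] (X : G →* Matrix (Fin n) (Fin n) k) :
    repMat (matRep X) = X := by
  ext g : 1
  rw [repMat_apply, matRep_apply, LinearMap.toMatrix'_toLin']

theorem character_matRep {k : Type*} [Field k] (X : G →* Matrix (Fin n) (Fin n) k) (g : G) :
    (matRep X).character g = (X g).trace := by
  rw [← trace_repMat, repMat_matRep]

/-- Complexification of a real matrix representation. -/
noncomputable def complexify (Y : G →* Matrix (Fin n) (Fin n) ℝ) :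
    G →* Matrix (Fin n) (Fin n) ℂ :=
  ((Complex.ofRealHom.mapMatrix : Matrix (Fin n) (Fin n) ℝ →+* Matrix (Fin n) (Fin n) ℂ) :
    Matrix (Fin n) (Fin n) ℝ →* Matrix (Fin n) (Fin n) ℂ).comp Y

theorem complexify_apply (Y : G →* Matrix (Fin n) (Fin n) ℝ) (g : G) (i j : Fin n) :
    complexify Y g i j = ((Y g i j : ℝ) : ℂ) := rfl

theorem trace_complexify (Y : G →* Matrix (Fin n) (Fin n) ℝ) (g : G) :
    (complexify Y g).trace = (((Y g).trace : ℝ) : ℂ) := by
  simp [Matrix.trace, complexify_apply]

variable [Fintype G]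

/-- An irreducible character afforded by a real representation has indicator `1`. -/
theorem fsInd_eq_one_of_real_rep (χ : Cfsg.IrrCharacter G) (ρ : Representation ℝ G (Fin n → ℝ))
    (h : ∀ g : G, ((LinearMap.trace ℝ (Fin n → ℝ) (ρ g) : ℝ) : ℂ) = (χ : G → ℂ) g) :
    fsInd (χ : G → ℂ) = 1 := by
  classical
  set Y := repMat ρ with hY
  set Yc := complexify Y with hYc
  set σ := matRep Yc with hσ
  have hchar : σ.character = (χ : G → ℂ) := by
    funext g
    rw [character_matRep, trace_complexify, trace_repMat, ← h g]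
    rfl
  have hirrchar : Cfsg.IsIrrCharacter G σ.character := by rw [hchar]; exact χ.2
  haveI hirr : σ.IsIrreducible := irreducible_of_irr_char σ hirrchar
  have hreal : ∀ g : G, (σ.character g).im = 0 := by
    intro g
    rw [character_matRep, trace_complexify]
    exact Complex.ofReal_im _
  have hinv : ∀ g : G, (repMat σ g)ᵀ * fsAvg Yc 1 * repMat σ g = fsAvg Yc 1 := by
    intro g
    rw [repMat_matRep]
    exact fsAvg_invariant Yc 1 g
  have hmain := (transpose_eq_fsInd_smul σ hreal).2 (fsAvg Yc 1) hinv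
  rw [fsAvg_transpose, Matrix.transpose_one, hchar] at hmain
  -- a nonzero diagonal entry
  have hn : 0 < n := by
    have h1 := irr_one_ne_zero χ
    rw [← hchar, Representation.char_one] at h1
    rcases Nat.eq_zero_or_pos n with h0 | h0
    · subst h0
      simp at h1
    · exact h0
  let i₀ : Fin n := ⟨0, hn⟩
  have hentry : fsAvg Yc 1 i₀ i₀
      = (((Nat.card G : ℝ)⁻¹ * ∑ g : G, ∑ k : Fin n, (Y g k i₀) ^ 2 : ℝ) : ℂ) := by
    unfold fsAvg
    simp only [Matrix.smul_apply, Matrix.sum_apply, Matrix.mul_one, Matrix.mul_apply,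
      Matrix.transpose_apply, smul_eq_mul, complexify_apply, hYc]
    push_cast
    congr 1
    refine Finset.sum_congr rfl fun g _ => Finset.sum_congr rfl fun k _ => ?_
    rw [sq]
  have hpos : 0 < (Nat.card G : ℝ)⁻¹ * ∑ g : G, ∑ k : Fin n, (Y g k i₀) ^ 2 := by
    apply mul_pos
    · rw [inv_pos]; exact_mod_cast Nat.card_pos
    · have h1 : ∑ k : Fin n, (Y 1 k i₀) ^ 2 ≤ ∑ g : G, ∑ k : Fin n, (Y g k i₀) ^ 2 :=
        Finset.single_le_sum (f := fun g => ∑ k : Fin n, (Y g k i₀) ^ 2)
          (fun g _ => Finset.sum_nonneg fun k _ => sq_nonneg _) (Finset.mem_univ 1)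
      have h2 : ∑ k : Fin n, (Y 1 k i₀) ^ 2 = 1 := by
        rw [map_one]
        simp [Matrix.one_apply]
      linarith
  have hne : fsAvg Yc 1 i₀ i₀ ≠ 0 := by
    rw [hentry]
    exact_mod_cast hpos.ne'
  have h2 := congrFun (congrFun hmain i₀) i₀
  rw [Matrix.smul_apply, smul_eq_mul] at h2
  have h3 : (fsInd (χ : G → ℂ) - 1) * fsAvg Yc 1 i₀ i₀ = 0 := by
    rw [sub_mul, one_mul, ← h2, sub_self]
  rcases mul_eq_zero.1 h3 with h4 | h4
  · exact sub_eq_zero.1 h4
  · exact absurd h4 hne

end RealToInd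

end Cfsg.Agent.Lib.Helper79
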