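import Mathlib
import Cfsg.Agent.Lib.Helper61.QuatQuot

/-!
# Piece D of S3304: Sylow 2-subgroups of a group of order 48 with a normal `Q8` containing
all involutions are generalized quaternion of order 16.
-/

set_option autoImplicit false

namespace Cfsg.Agent.Lib.Helper79.GL23D

open QuaternionGroup

theorem q8_invol : ∀ q : QuaternionGroup 2, q * q = 1 → q = 1 ∨ q = a 2 := by decide

theorem q8_noncomm : (a 1 : QuaternionGroup 2) * xa 0 ≠ xa 0 * a 1 := by decide

theorem q8_a2_sq : (a 2 : QuaternionGroup 2) ^ 2 = 1 := by decide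

theorem q8_a2_ne : (a 2 : QuaternionGroup 2) ≠ 1 := by decide

theorem sylow_quat16 {H : Type*} [Group H] [Finite H] (hcard : Nat.card H = 48)
    (Q : Subgroup H) (hQn : Q.Normal) (hQ : Nonempty (Q ≃* QuaternionGroup 2))
    (hinv : ∀ t : H, orderOf t = 2 → t ∈ Q) (P : Sylow 2 H) :
    Nonempty (↥(P : Subgroup H) ≃* QuaternionGroup 4) := by
  classical
  haveI : Fact (Nat.Prime 2) := ⟨Nat.prime_two⟩
  obtain ⟨e⟩ := hQ
  -- `|P| = 16`
  have hP16 : Nat.card (P : Subgroup H) = 16 := by
    obtain ⟨k, hk⟩ := IsPGroup.iff_card.mp P.isPGroup'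
    have h1 : (P : Subgroup H).index * Nat.card (P : Subgroup H) = 48 := by
      rw [Subgroup.index_mul_card, hcard]
    have h2 : ¬ 2 ∣ (P : Subgroup H).index := P.not_dvd_index
    rw [hk] at h1 ⊢
    have hk5 : k ≤ 5 := by
      by_contra hlt
      have h64 : 2 ^ 6 ≤ 2 ^ k := Nat.pow_le_pow_right (by norm_num) (by omega)
      have hpos : 0 < (P : Subgroup H).index := by
        rcases Nat.eq_zero_or_pos (P : Subgroup H).index with h0 | h0
        · rw [h0] at h1; omega
        · exact h0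
      nlinarith
    interval_cases k <;> omega
  -- `Q` is a `2`-group
  have hQ8 : Nat.card Q = 8 := by
    rw [Nat.card_congr e.toEquiv, Nat.card_eq_fintype_card, QuaternionGroup.card]
  have hQ2 : IsPGroup 2 Q := IsPGroup.of_card (n := 3) (by rw [hQ8]; norm_num)
  -- `Q ≤ P`
  have hQP : Q ≤ (P : Subgroup H) := by
    obtain ⟨P', hP'⟩ := IsPGroup.exists_le_sylow hQ2
    obtain ⟨g, rfl⟩ := MulAction.exists_smul_eq H P' P
    intro q hq
    rw [Sylow.coe_subgroup_smul, Subgroup.mem_pointwise_smul_iff_inv_smul_mem]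
    apply hP'
    have := hQn.conj_mem q hq g⁻¹
    simpa [MulAut.smul_def] using this
  -- `P` is not commutative
  have hna : ¬ IsMulCommutative (P : Subgroup H) := by
    intro hc
    have h1 := hc.is_comm.comm
      (⟨(e.symm (a 1) : H), hQP (e.symm (a 1)).2⟩ : (P : Subgroup H))
      ⟨(e.symm (xa 0) : H), hQP (e.symm (xa 0)).2⟩
    have h2 : ((e.symm (a 1) : Q) : H) * (e.symm (xa 0) : Q) = (e.symm (xa 0) : Q) * (e.symm (a 1) : Q) :=
      congrArg Subtype.val h1
    have h3 : e.symm (a 1) * e.symm (xa 0) = e.symm (xa 0) * e.symm (a 1) := Subtype.ext h2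
    rw [← map_mul, ← map_mul] at h3
    exact q8_noncomm (e.symm.injective h3)
  -- unique involution
  have hu : ∃! x : (P : Subgroup H), orderOf x = 2 := by
    have hz : orderOf (e.symm (a 2)) = 2 := by
      rw [MulEquiv.orderOf_eq]
      exact orderOf_eq_prime q8_a2_sq q8_a2_ne
    refine ⟨⟨(e.symm (a 2) : H), hQP (e.symm (a 2)).2⟩, ?_, ?_⟩
    · show orderOf (⟨(e.symm (a 2) : H), hQP (e.symm (a 2)).2⟩ : (P : Subgroup H)) = 2
      rw [← Subgroup.orderOf_coe]
      show orderOf ((e.symm (a 2) : Q) : H) = 2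
      rw [Subgroup.orderOf_coe]
      exact hz
    · intro y hy
      have hy' : orderOf (y : H) = 2 := by rw [Subgroup.orderOf_coe]; exact hy
      have hyQ : (y : H) ∈ Q := hinv _ hy'
      have hy2 : orderOf (e ⟨(y : H), hyQ⟩) = 2 := by
        rw [MulEquiv.orderOf_eq, ← Subgroup.orderOf_coe]
        exact hy'
      have hsq : e ⟨(y : H), hyQ⟩ * e ⟨(y : H), hyQ⟩ = 1 := by
        have h0 := pow_orderOf_eq_one (e ⟨(y : H), hyQ⟩)
        rw [hy2, pow_two] at h0
        exact h0
      rcases q8_invol _ hsq with h1 | h1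
      · rw [h1, orderOf_one] at hy2
        omega
      · apply Subtype.ext
        show (y : H) = ((e.symm (a 2) : Q) : H)
        rw [← h1, MulEquiv.symm_apply_apply]
  obtain ⟨k, hk1, ⟨f⟩⟩ := Cfsg.Agent.Lib.Helper61.quat_of_unique_involution P.isPGroup' hna hu
  have hk : 2 ^ k = 4 := by
    have h1 : Nat.card (P : Subgroup H) = 4 * 2 ^ k := by
      rw [Nat.card_congr f.toEquiv, Nat.card_eq_fintype_card, QuaternionGroup.card]
    omega
  rw [hk] at f
  exact ⟨f⟩

end Cfsg.Agent.Lib.Helper79.GL23D
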