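import Mathlib

/-!
# S4025 piece ARITH (helper79 for helper69)
-/

set_option autoImplicit false

namespace Cfsg.Agent.Lib.Helper79.SAF

theorem arith_two (n : ℕ) (hn : 7 ≤ n) : 12 * n + 2 < 2 ^ n := by
  induction n, hn using Nat.le_induction with
  | base => norm_num
  | succ n hn ih => rw [pow_succ]; omega

theorem arith_three (n : ℕ) (hn : 5 ≤ n) : 36 * n + 3 < 3 ^ n := by
  induction n, hn using Nat.le_induction with
  | base => norm_num
  | succ n hn ih => rw [pow_succ]; omega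

theorem arith_five (p : ℕ) (hp : 5 ≤ p) (n : ℕ) (hn : 4 ≤ n) :
    n * (p ^ 2 * (p + 1)) + p < p ^ n := by
  induction n, hn using Nat.le_induction with
  | base =>
    obtain ⟨k, rfl⟩ : ∃ k, p = k + 5 := ⟨p - 5, by omega⟩
    ring_nf
    nlinarith [Nat.zero_le (k ^ 2), Nat.zero_le (k ^ 3), Nat.zero_le (k ^ 4), Nat.zero_le k]
  | succ n hn ih =>
    rw [pow_succ p n]
    have h1 : (n * (p ^ 2 * (p + 1)) + p + 1) * p ≤ p ^ n * p := Nat.mul_le_mul_right p ih
    have h2 : 5 * (n * (p ^ 2 * (p + 1))) ≤ p * (n * (p ^ 2 * (p + 1))) :=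
      Nat.mul_le_mul_right _ hp
    have h3 : 4 * (p ^ 2 * (p + 1)) ≤ n * (p ^ 2 * (p + 1)) := Nat.mul_le_mul_right _ hn
    nlinarith [h1, h2, h3]

theorem arith_bound (p n : ℕ) (hp : p.Prime) (hn : 3 ≤ n)
    (h : p ^ n - p ≤ n * (p ^ 2 * (p + 1))) :
    n = 3 ∨ (p = 2 ∧ n ≤ 6) ∨ (p = 3 ∧ n = 4) := by
  have h' : p ^ n ≤ n * (p ^ 2 * (p + 1)) + p := Nat.sub_le_iff_le_add.mp h
  by_contra hcon
  push_neg at hcon
  obtain ⟨hn3, h2, h3⟩ := hcon
  have hn4 : 4 ≤ n := by omega
  rcases Nat.lt_or_ge p 5 with hlt | hge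
  · have hp2 := hp.two_le
    interval_cases p
    · have := arith_two n (by have := h2 rfl; omega)
      norm_num at h'
      omega
    · have := arith_three n (by have := h3 rfl; omega)
      norm_num at h'
      omega
    · exact absurd hp (by norm_num)
  · have := arith_five p hge n hn4
    omega

end Cfsg.Agent.Lib.Helper79.SAF
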