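import Mathlib
import Cfsg.Prelude.Def_Perm

/-!
# S4025 piece CARDAFF (helper79 for helper69)
-/

set_option autoImplicit false

namespace Cfsg.Agent.Lib.Helper79.SAF

theorem card_affineGroup_le (F : Type) [Field F] [Finite F] :
    Nat.card ↥(Cfsg.affineGroup F) ≤ Nat.card F * (Nat.card F - 1) := by
  classical
  have hchoose : ∀ σ : ↥(Cfsg.affineGroup F), ∃ ab : Fˣ × F,
      ∀ x, σ.1 x = (ab.1 : F) * x + ab.2 := by
    rintro ⟨σ, a, b, h⟩
    exact ⟨(a, b), h⟩
  choose f hf using hchoose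
  have hinj : Function.Injective f := by
    intro σ τ h
    apply Subtype.ext
    ext x
    rw [hf σ x, hf τ x, h]
  have h1 := Nat.card_le_card_of_injective f hinj
  rw [Nat.card_prod, Nat.card_units] at h1
  rw [mul_comm]
  exact h1

theorem card_semiaffineGroup_le (F : Type) [Field F] [Finite F] :
    Nat.card ↥(Cfsg.semiaffineGroup F) ≤ Nat.card F * (Nat.card F - 1) * Nat.card (F ≃+* F) := by
  classical
  haveI : Finite (F ≃+* F) :=
    Finite.of_injective (fun e : F ≃+* F => (e : F → F)) DFunLike.coe_injective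
  have hchoose : ∀ σ : ↥(Cfsg.semiaffineGroup F), ∃ ab : Fˣ × F × (F ≃+* F),
      ∀ x, σ.1 x = (ab.1 : F) * ab.2.2 x + ab.2.1 := by
    rintro ⟨σ, a, b, φ, h⟩
    exact ⟨(a, b, φ), h⟩
  choose f hf using hchoose
  have hinj : Function.Injective f := by
    intro σ τ h
    apply Subtype.ext
    ext x
    rw [hf σ x, hf τ x, h]
  have h1 := Nat.card_le_card_of_injective f hinj
  rw [Nat.card_prod, Nat.card_prod, Nat.card_units] at h1
  refine h1.trans (le_of_eq ?_)
  ring

end Cfsg.Agent.Lib.Helper79.SAF
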