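import Mathlib

/-!
# S4025 piece INDEX (helper79 for helper69)
-/

set_option autoImplicit false

namespace Cfsg.Agent.Lib.Helper79.SAF

theorem card_mul_card_range_dvd {M H : Type*} [Group M] [Finite M] [Group H] (c : M →* H)
    (Q K : Subgroup M) [K.Normal] (hQ : Q ≤ c.ker) (hK : K ≤ c.ker) (hQK : Q ⊓ K = ⊥) :
    Nat.card ↥Q * Nat.card ↥c.range ∣ Nat.card (M ⧸ K) := by
  have h1 : Nat.card (M ⧸ K) = K.relIndex c.ker * c.ker.index := by
    rw [← Subgroup.index_eq_card, Subgroup.relIndex_mul_index hK]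
  rw [h1, Subgroup.index_ker]
  apply mul_dvd_mul_right
  -- `|Q|` divides `|ker c : K|`
  have h2 : Nat.card Q ∣ Nat.card (↥c.ker ⧸ K.subgroupOf c.ker) := by
    let f : Q →* ↥c.ker ⧸ K.subgroupOf c.ker :=
      (QuotientGroup.mk' (K.subgroupOf c.ker)).comp (Subgroup.inclusion hQ)
    have hf : Function.Injective f := by
      rw [injective_iff_map_eq_one]
      intro q hq
      have hq' : Subgroup.inclusion hQ q ∈ K.subgroupOf c.ker := by
        have : (QuotientGroup.mk' (K.subgroupOf c.ker)) (Subgroup.inclusion hQ q) = 1 := hq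
        exact (QuotientGroup.eq_one_iff _).mp this
      have hqK : (q : M) ∈ K := Subgroup.mem_subgroupOf.mp hq'
      have hq1 : (q : M) ∈ Q ⊓ K := ⟨q.2, hqK⟩
      rw [hQK, Subgroup.mem_bot] at hq1
      exact Subtype.ext hq1
    rw [Nat.card_congr (MonoidHom.ofInjective hf).toEquiv]
    exact Subgroup.card_subgroup_dvd_card _
  exact h2

end Cfsg.Agent.Lib.Helper79.SAF
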