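import Mathlib

/-!
# S4025 piece ISO (helper79 for helper69)
-/

set_option autoImplicit false

namespace Cfsg.Agent.Lib.Helper79.SAF

theorem emb_of_range {M X : Type*} [Group M] (Ψ : M →* Equiv.Perm X) (K : Subgroup M)
    [K.Normal] (hK : Ψ.ker = K) (S : Subgroup (Equiv.Perm X)) (hS : ∀ m, Ψ m ∈ S) :
    ∃ f : M ⧸ K →* ↥S, Function.Injective f := by
  have hle : K ≤ (Ψ.codRestrict S hS).ker := by
    intro m hm
    rw [MonoidHom.mem_ker]
    apply Subtype.ext
    rw [← hK] at hm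
    exact hm
  refine ⟨QuotientGroup.lift K (Ψ.codRestrict S hS) hle, ?_⟩
  rw [injective_iff_map_eq_one]
  intro x hx
  induction x using QuotientGroup.induction_on with
  | H m =>
    have h1 : (Ψ.codRestrict S hS) m = 1 := hx
    have h2 : Ψ m = 1 := congrArg Subtype.val h1
    have h3 : m ∈ K := by
      rw [← hK]
      exact h2
    exact (QuotientGroup.eq_one_iff m).mpr h3

theorem iso_of_range {M X : Type*} [Group M] [Finite M] (Ψ : M →* Equiv.Perm X)
    (K : Subgroup M) [K.Normal] (hK : Ψ.ker = K) (S : Subgroup (Equiv.Perm X)) [Finite ↥S]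
    (hS : ∀ m, Ψ m ∈ S) (hcard : Nat.card ↥S ≤ Nat.card (M ⧸ K)) :
    Nonempty (M ⧸ K ≃* ↥S) := by
  obtain ⟨f, hf⟩ := emb_of_range Ψ K hK S hS
  exact ⟨MulEquiv.ofBijective f (hf.bijective_of_nat_card_le hcard)⟩

end Cfsg.Agent.Lib.Helper79.SAF
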