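import Mathlib
import Cfsg.Prelude.Def_Perm

/-!
# S4025 piece MEM (helper79 for helper69)
-/

set_option autoImplicit false

namespace Cfsg.Agent.Lib.Helper79.SAF

theorem mem_semiaffine_of {M : Type*} [Group M] (Q L : Subgroup M) (hL : Q.IsComplement' L)
    (F : Type) [Field F] (Ψ : M →* Equiv.Perm F) (b : ↥Q → F)
    (hQ : ∀ (u : ↥Q) (x : F), Ψ (u : M) x = b u + x)
    (hLs : ∀ l ∈ L, ∃ (a : F) (σ : F ≃+* F), ∀ x : F, Ψ l x = a * σ x) :
    ∀ m : M, Ψ m ∈ Cfsg.semiaffineGroup F := by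
  intro m
  obtain ⟨⟨q, l⟩, hql⟩ := hL.2 m
  have hm : m = (q : M) * (l : M) := hql.symm
  rw [hm, map_mul]
  apply Subgroup.mul_mem
  · refine ⟨1, b ⟨q.1, q.2⟩, RingEquiv.refl F, fun x => ?_⟩
    have := hQ ⟨q.1, q.2⟩ x
    rw [this]
    simp [add_comm]
  · obtain ⟨a, σ, ha⟩ := hLs l.1 l.2
    have ha0 : a ≠ 0 := by
      rintro rfl
      have h0 := ha 0
      have h1 := ha 1
      simp only [zero_mul] at h0 h1
      exact zero_ne_one ((Ψ l.1).injective (h0.trans h1.symm))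
    refine ⟨Units.mk0 a ha0, 0, σ, fun x => ?_⟩
    simp [ha]

theorem mem_affine_of {M : Type*} [Group M] (Q L : Subgroup M) (hL : Q.IsComplement' L)
    (F : Type) [Field F] (Ψ : M →* Equiv.Perm F) (b : ↥Q → F)
    (hQ : ∀ (u : ↥Q) (x : F), Ψ (u : M) x = b u + x)
    (hLs : ∀ l ∈ L, ∃ a : F, ∀ x : F, Ψ l x = a * x) :
    ∀ m : M, Ψ m ∈ Cfsg.affineGroup F := by
  intro m
  obtain ⟨⟨q, l⟩, hql⟩ := hL.2 m
  have hm : m = (q : M) * (l : M) := hql.symm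
  rw [hm, map_mul]
  apply Subgroup.mul_mem
  · refine ⟨1, b ⟨q.1, q.2⟩, fun x => ?_⟩
    have := hQ ⟨q.1, q.2⟩ x
    rw [this]
    simp [add_comm]
  · obtain ⟨a, ha⟩ := hLs l.1 l.2
    have ha0 : a ≠ 0 := by
      rintro rfl
      have h0 := ha 0
      have h1 := ha 1
      simp only [zero_mul] at h0 h1
      exact zero_ne_one ((Ψ l.1).injective (h0.trans h1.symm))
    refine ⟨Units.mk0 a ha0, 0, fun x => ?_⟩
    simp [ha]

end Cfsg.Agent.Lib.Helper79.SAF
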