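import Mathlib

/-!
# S4025 piece TRANSP (helper79 for helper69)
-/

set_option autoImplicit false

namespace Cfsg.Agent.Lib.Helper79.SAF

theorem transport_galois (p n : ℕ) [Fact p.Prime] {V : Type*} [AddCommGroup V]
    (F : Type) [Field F] [Fintype F] (hF : Nat.card F = p ^ n) (e₁ : V ≃+ F) :
    ∃ e : V ≃+ GaloisField p n, ∀ g : V → V,
      ((∃ (a : F) (σ : F ≃+* F), ∀ v, e₁ (g v) = a * σ (e₁ v)) →
        ∃ (a : GaloisField p n) (σ : GaloisField p n ≃+* GaloisField p n),
          ∀ v, e (g v) = a * σ (e v)) ∧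
      ((∃ a : F, ∀ v, e₁ (g v) = a * e₁ v) → ∃ a : GaloisField p n, ∀ v, e (g v) = a * e v) := by
  have hn : n ≠ 0 := by
    rintro rfl
    rw [pow_zero, Nat.card_eq_fintype_card] at hF
    have := Fintype.one_lt_card (α := F)
    omega
  haveI : Fintype (GaloisField p n) := Fintype.ofFinite _
  have hcard : Fintype.card F = Fintype.card (GaloisField p n) := by
    rw [← Nat.card_eq_fintype_card, ← Nat.card_eq_fintype_card, hF, GaloisField.card p n hn]
  let r : F ≃+* GaloisField p n := FiniteField.ringEquivOfCardEq hcard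
  refine ⟨e₁.trans r.toAddEquiv, fun g => ⟨?_, ?_⟩⟩
  · rintro ⟨a, σ, h⟩
    refine ⟨r a, (r.symm.trans σ).trans r, fun v => ?_⟩
    simp [h]
  · rintro ⟨a, h⟩
    refine ⟨r a, fun v => ?_⟩
    simp [h]

end Cfsg.Agent.Lib.Helper79.SAF
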