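import Mathlib
import Cfsg.Agent.Lib.Helper84.CliffInd
import Cfsg.Agent.Lib.Helper79.FSCount
import Cfsg.Agent.Lib.Helper83.Linear

set_option autoImplicit false

namespace Cfsg.Agent.Lib.Helper79

open Cfsg Cfsg.Agent.Lib
open scoped ComplexConjugate

section SRAvg

variable {G : Type*} [Group G] [Fintype G]

/-- The Frobenius–Schur indicator of an induced function. -/
theorem fsInd_indFun_gen (H : Subgroup G) (θ : H → ℂ) :
    fsInd (indFun H θ) = (Nat.card H : ℂ)⁻¹ * ∑ s : G, extendByZero H θ (s * s) := by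
  unfold fsInd indFun
  have hG : (Nat.card G : ℂ) ≠ 0 := by exact_mod_cast (Nat.card_pos (α := G)).ne'
  rw [← Finset.mul_sum, Finset.sum_comm]
  have h : ∀ x : G, ∑ s : G, extendByZero H θ (x⁻¹ * (s * s) * x) =
      ∑ s : G, extendByZero H θ (s * s) := by
    intro x
    rw [← Equiv.sum_comp (MulAut.conj x⁻¹).toEquiv (fun s => extendByZero H θ (s * s))]
    apply Finset.sum_congr rfl
    intro s _
    congr 1
    simp only [MulEquiv.toEquiv_eq_coe, EquivLike.coe_coe, MulAut.conj_apply, inv_inv]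
    group
  simp_rw [h]
  rw [Finset.sum_const, Finset.card_univ, nsmul_eq_mul, ← Nat.card_eq_fintype_card]
  field_simp

variable (N : Subgroup G) [hN : N.Normal]

/-- The conjugate of a linear character of a normal subgroup. -/
noncomputable def cjHom (φ : N →* ℂˣ) (g : G) : N →* ℂˣ :=
  φ.comp (MulAut.conjNormal g : N ≃* N).toMonoidHom

omit [Fintype G] in
theorem cjHom_apply (φ : N →* ℂˣ) (g : G) (n : N) :
    cjHom N φ g n = φ ⟨g * n * g⁻¹, hN.conj_mem n n.2 g⟩ := by
  unfold cjHom
  simp only [MonoidHom.comp_apply]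
  congr 1

omit [Fintype G] in
theorem cjHom_mul (φ : N →* ℂˣ) (a b : G) :
    cjHom N φ (a * b) = cjHom N (cjHom N φ a) b := by
  ext n
  rw [cjHom_apply, cjHom_apply, cjHom_apply]
  congr 3
  simp [mul_assoc]

omit [Fintype G] in
theorem cjHom_one (φ : N →* ℂˣ) : cjHom N φ 1 = φ := by
  ext n
  rw [cjHom_apply]
  congr 3
  simp

omit [Fintype G] in
theorem cjHom_of_mem (φ : N →* ℂˣ) {a : G} (ha : a ∈ N) : cjHom N φ a = φ := by
  ext n
  rw [cjHom_apply]
  have h : (⟨a * n * a⁻¹, hN.conj_mem n n.2 a⟩ : N) = ⟨a, ha⟩ * n * ⟨a, ha⟩⁻¹ := by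
    apply Subtype.ext
    simp
  rw [h, map_mul, map_mul, map_inv, mul_comm, inv_mul_cancel_left]

/-- The inertia group of a linear character of a normal subgroup. -/
noncomputable def inertiaHom (φ : N →* ℂˣ) : Subgroup G where
  carrier := {g | cjHom N φ g = φ}
  mul_mem' := by
    intro a b ha hb
    show cjHom N φ (a * b) = φ
    rw [cjHom_mul, show cjHom N φ a = φ from ha, show cjHom N φ b = φ from hb]
  one_mem' := cjHom_one N φ
  inv_mem' := by
    intro a ha
    show cjHom N φ a⁻¹ = φ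
    have h := cjHom_mul N φ a a⁻¹
    rw [mul_inv_cancel, cjHom_one, show cjHom N φ a = φ from ha] at h
    exact h.symm

omit [Fintype G] in
theorem mem_inertiaHom (φ : N →* ℂˣ) (g : G) : g ∈ inertiaHom N φ ↔ cjHom N φ g = φ := Iff.rfl

omit [Fintype G] in
theorem le_inertiaHom (φ : N →* ℂˣ) : N ≤ inertiaHom N φ := fun _ ha => cjHom_of_mem N φ ha

/-- The retraction of `G` onto a complement `P` of the normal subgroup `N`. -/
noncomputable def retr (P : Subgroup G) (hc : P.IsComplement' N) : G →* G :=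
  P.subtype.comp ((hc.QuotientMulEquiv).toMonoidHom.comp (QuotientGroup.mk' N))

omit [Fintype G] in
theorem retr_of_mem_compl (P : Subgroup G) (hc : P.IsComplement' N) {y : G} (hy : y ∈ P) :
    retr N P hc y = y := by
  have h : hc.QuotientMulEquiv (QuotientGroup.mk y) = ⟨y, hy⟩ := by
    rw [MulEquiv.apply_eq_iff_symm_apply]
    rfl
  show ((hc.QuotientMulEquiv (QuotientGroup.mk y) : P) : G) = y
  rw [h]

omit [Fintype G] in
theorem retr_of_mem (P : Subgroup G) (hc : P.IsComplement' N) {n : G} (hn : n ∈ N) :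
    retr N P hc n = 1 := by
  have h : (QuotientGroup.mk n : G ⧸ N) = 1 := (QuotientGroup.eq_one_iff n).mpr hn
  show ((hc.QuotientMulEquiv (QuotientGroup.mk n) : P) : G) = 1
  rw [h, map_one]
  rfl

omit [Fintype G] in
theorem mul_retr_inv_mem (P : Subgroup G) (hc : P.IsComplement' N) (x : G) :
    x * (retr N P hc x)⁻¹ ∈ N := by
  have h : (QuotientGroup.mk (retr N P hc x) : G ⧸ N) = QuotientGroup.mk x :=
    hc.QuotientMulEquiv.symm_apply_apply (QuotientGroup.mk x)
  have h2 : (retr N P hc x)⁻¹ * x ∈ N := QuotientGroup.eq.mp h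
  have h3 := hN.conj_mem _ h2 (retr N P hc x)
  have h4 : retr N P hc x * ((retr N P hc x)⁻¹ * x) * (retr N P hc x)⁻¹ =
      x * (retr N P hc x)⁻¹ := by group
  rwa [h4] at h3

/-- The canonical extension of `φ` to its inertia group. -/
noncomputable def extHom (P : Subgroup G) (hc : P.IsComplement' N) (φ : N →* ℂˣ) :
    inertiaHom N φ →* ℂˣ where
  toFun x := φ ⟨(x : G) * (retr N P hc x)⁻¹, mul_retr_inv_mem N P hc x⟩
  map_one' := by
    have h : (⟨((1 : inertiaHom N φ) : G) * (retr N P hc ((1 : inertiaHom N φ) : G))⁻¹,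
        mul_retr_inv_mem N P hc _⟩ : N) = 1 := by
      apply Subtype.ext
      simp
    rw [h, map_one]
  map_mul' := by
    intro x y
    have hx : cjHom N φ (x : G) = φ := x.2
    have key : (⟨((x * y : inertiaHom N φ) : G) *
        (retr N P hc ((x * y : inertiaHom N φ) : G))⁻¹, mul_retr_inv_mem N P hc _⟩ : N)
        = ⟨(x : G) * ((y : G) * (retr N P hc y)⁻¹) * (x : G)⁻¹,
            hN.conj_mem _ (mul_retr_inv_mem N P hc y) x⟩ *
          ⟨(x : G) * (retr N P hc x)⁻¹, mul_retr_inv_mem N P hc x⟩ := by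
      apply Subtype.ext
      simp only [Subgroup.coe_mul, map_mul, mul_inv_rev]
      group
    rw [key, map_mul]
    have h2 := cjHom_apply N φ (x : G) ⟨(y : G) * (retr N P hc y)⁻¹, mul_retr_inv_mem N P hc y⟩
    rw [hx] at h2
    rw [← h2, mul_comm]

omit [Fintype G] in
theorem extHom_apply (P : Subgroup G) (hc : P.IsComplement' N) (φ : N →* ℂˣ)
    (x : inertiaHom N φ) :
    extHom N P hc φ x = φ ⟨(x : G) * (retr N P hc x)⁻¹, mul_retr_inv_mem N P hc x⟩ := rfl

omit [Fintype G] in
theorem extHom_ext (P : Subgroup G) (hc : P.IsComplement' N) (φ : N →* ℂˣ) (n : N) :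
    extHom N P hc φ (Subgroup.inclusion (le_inertiaHom N φ) n) = φ n := by
  rw [extHom_apply]
  congr 1
  apply Subtype.ext
  simp [retr_of_mem N P hc n.2]


omit [Fintype G] hN in
/-- The sum of a linear character over a finite group. -/
theorem sum_hom_complex [Fintype N] (μ : N →* ℂˣ) :
    ∑ n : N, ((μ n : ℂˣ) : ℂ) = if μ = 1 then (Nat.card N : ℂ) else 0 := by
  classical
  split_ifs with h
  · subst h
    simp [Nat.card_eq_fintype_card]
  · have h2 : (Units.coeHom ℂ).comp μ ≠ 1 := by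
      intro h'
      apply h
      ext n
      have h3 := DFunLike.congr_fun h' n
      simpa using h3
    have h4 := sum_hom_units_eq_zero ((Units.coeHom ℂ).comp μ) h2
    simpa using h4

/-- Squares in the semidirect product. -/
theorem sq_mem_inertia_iff (P : Subgroup G) (φ : N →* ℂˣ) (n : N) (y : G) :
    ((n : G) * y) * ((n : G) * y) ∈ inertiaHom N φ ↔ y * y ∈ inertiaHom N φ := by
  have h1 : ((n : G) * y) * ((n : G) * y) = ((n : G) * (y * n * y⁻¹)) * (y * y) := by group
  have h2 : (n : G) * (y * n * y⁻¹) ∈ inertiaHom N φ :=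
    le_inertiaHom N φ (N.mul_mem n.2 (hN.conj_mem n n.2 y))
  rw [h1, Subgroup.mul_mem_cancel_left _ h2]

/-- The value of the extension on a square. -/
theorem extHom_sq (P : Subgroup G) (hc : P.IsComplement' N) (φ : N →* ℂˣ) (n : N) (y : G)
    (hy : y ∈ P) (h : ((n : G) * y) * ((n : G) * y) ∈ inertiaHom N φ) :
    extHom N P hc φ ⟨((n : G) * y) * ((n : G) * y), h⟩ = (φ * cjHom N φ y) n := by
  rw [extHom_apply, MonoidHom.mul_apply, cjHom_apply, ← map_mul]
  congr 1
  apply Subtype.ext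
  simp only [map_mul, retr_of_mem N P hc n.2, retr_of_mem_compl N P hc hy, Subgroup.coe_mul]
  group

/-- The Frobenius–Schur indicator of the character induced from the canonical extension:
it is a positive rational number. -/
theorem fsInd_ind_ext [Fintype N] (P : Subgroup G) (hc : P.IsComplement' N) (φ : N →* ℂˣ)
    (t : G) (htP : t ∈ P) (ht : t * t = 1) (hinv : cjHom N φ t = φ⁻¹) :
    ∃ k : ℕ, 0 < k ∧
      fsInd (indFun (inertiaHom N φ) (fun x => ((extHom N P hc φ x : ℂˣ) : ℂ))) =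
        (Nat.card (inertiaHom N φ) : ℂ)⁻¹ * ((Nat.card N * k : ℕ) : ℂ) := by
  classical
  letI : Fintype P := Fintype.ofFinite P
  set I := inertiaHom N φ with hIdef
  set ψc : I → ℂ := fun x => ((extHom N P hc φ x : ℂˣ) : ℂ) with hψc
  refine ⟨(Finset.univ.filter (fun y : P => (y : G) * y ∈ I ∧ φ * cjHom N φ y = 1)).card, ?_, ?_⟩
  · apply Finset.card_pos.mpr
    refine ⟨⟨t, htP⟩, ?_⟩
    simp only [Finset.mem_filter, Finset.mem_univ, true_and]
    refine ⟨?_, ?_⟩
    · rw [ht]; exact I.one_mem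
    · rw [hinv]
      exact mul_inv_cancel φ
  · rw [fsInd_indFun_gen]
    congr 1
    -- parametrize `G` by `N × P`
    have hbij : Function.Bijective (fun x : N × P => (x.1 : G) * (x.2 : G)) := hc.symm
    let e : N × P ≃ G := Equiv.ofBijective _ hbij
    have hval : ∀ (y : P) (n : N), extendByZero I ψc (((n : G) * y) * ((n : G) * y)) =
        if (y : G) * y ∈ I then (((φ * cjHom N φ y) n : ℂˣ) : ℂ) else 0 := by
      intro y n
      by_cases hy : (y : G) * y ∈ I
      · rw [if_pos hy]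
        have hmem : ((n : G) * y) * ((n : G) * y) ∈ I := (sq_mem_inertia_iff N P φ n y).mpr hy
        rw [Helper35.ext_mem I ψc _ hmem]
        show ((extHom N P hc φ ⟨_, hmem⟩ : ℂˣ) : ℂ) = _
        rw [extHom_sq N P hc φ n y y.2 hmem]
      · rw [if_neg hy]
        exact Helper35.ext_not_mem I ψc _ (fun hmem => hy ((sq_mem_inertia_iff N P φ n y).mp hmem))
    calc ∑ s : G, extendByZero I ψc (s * s)
        = ∑ x : N × P, extendByZero I ψc (e x * e x) :=
          (Equiv.sum_comp e (fun s => extendByZero I ψc (s * s))).symm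
      _ = ∑ n : N, ∑ y : P, extendByZero I ψc (((n : G) * y) * ((n : G) * y)) :=
          Fintype.sum_prod_type _
      _ = ∑ y : P, ∑ n : N, extendByZero I ψc (((n : G) * y) * ((n : G) * y)) :=
          Finset.sum_comm
      _ = ∑ y : P, if ((y : G) * y ∈ I ∧ φ * cjHom N φ y = 1) then (Nat.card N : ℂ) else 0 := by
          apply Finset.sum_congr rfl
          intro y _
          simp_rw [hval y]
          by_cases hy : (y : G) * y ∈ I
          · have h1 : ((y : G) * y ∈ I ∧ φ * cjHom N φ y = 1) ↔ φ * cjHom N φ y = 1 :=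
              and_iff_right hy
            simp only [if_pos hy, h1]
            exact sum_hom_complex N (φ * cjHom N φ y)
          · have h1 : ¬ ((y : G) * y ∈ I ∧ φ * cjHom N φ y = 1) := fun h => hy h.1
            rw [if_neg h1]
            simp only [if_neg hy, Finset.sum_const_zero]
      _ = ((Nat.card N * (Finset.univ.filter
            (fun y : P => (y : G) * y ∈ I ∧ φ * cjHom N φ y = 1)).card : ℕ) : ℂ) := by
          rw [Finset.sum_ite, Finset.sum_const_zero, add_zero, Finset.sum_const, nsmul_eq_mul]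
          push_cast
          ring


/-- Existence of an irreducible character of even degree `m` with Frobenius–Schur indicator `1`
whose restriction to `N` has norm `m`. -/
theorem exists_sr_induced [Fintype N] (P : Subgroup G) (hc : P.IsComplement' N)
    (hP : IsPGroup 2 P) (hodd : Odd (Nat.card N))
    (φ : N →* ℂˣ) (hφ : φ ≠ 1) (t : G) (htP : t ∈ P) (ht : t * t = 1)
    (hinv : cjHom N φ t = φ⁻¹) :
    ∃ (χ₀ : G → ℂ) (m : ℕ), IsIrrCharacter G χ₀ ∧ χ₀ 1 = (m : ℂ) ∧ 2 ∣ m ∧
      classInner (fun n : N => χ₀ n) (fun n : N => χ₀ n) = (m : ℂ) ∧ fsInd χ₀ = 1 := by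
  classical
  haveI : Fact (Nat.Prime 2) := ⟨Nat.prime_two⟩
  set I := inertiaHom N φ with hIdef
  letI : Fintype I := Fintype.ofFinite I
  have hNI : N ≤ I := le_inertiaHom N φ
  set φc : N → ℂ := fun n => ((φ n : ℂˣ) : ℂ) with hφc
  set ψc : I → ℂ := fun x => ((extHom N P hc φ x : ℂˣ) : ℂ) with hψc
  have hφirr : IsIrrCharacter N φc := Helper83.isIrr_of_hom φ
  have hψirr : IsIrrCharacter I ψc := Helper83.isIrr_of_hom (extHom N P hc φ)
  have hI' : ∀ g : G, g ∈ I ↔ Helper20.conjFun N φc g = φc := by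
    intro g
    rw [hIdef, mem_inertiaHom]
    constructor
    · intro h
      funext n
      rw [Helper20.conjFun_apply]
      show ((φ _ : ℂˣ) : ℂ) = ((φ n : ℂˣ) : ℂ)
      rw [← cjHom_apply, h]
    · intro h
      ext n
      have h1 := congrFun h n
      rw [Helper20.conjFun_apply] at h1
      rw [cjHom_apply]
      exact h1
  have hext : ∀ n : N, ψc (Subgroup.inclusion hNI n) = φc n := by
    intro n
    show ((extHom N P hc φ (Subgroup.inclusion hNI n) : ℂˣ) : ℂ) = _
    rw [extHom_ext]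
  have hχ₀ : IsIrrCharacter G (indFun I ψc) :=
    Helper84.ind_ext_irr N I hNI φc hφirr hI' ψc hψirr hext
  have hk := Helper84.classInner_res_ind_self N I hNI φc hφirr hI' ψc hext
  refine ⟨indFun I ψc, I.index, hχ₀, ?_, ?_, hk, ?_⟩
  · rw [Helper35.indFun_one_eq]
    show (I.index : ℂ) * ((extHom N P hc φ 1 : ℂˣ) : ℂ) = _
    rw [map_one]
    simp
  · have htI : t ∉ I := by
      intro h
      have h1 : cjHom N φ t = φ := h
      rw [hinv] at h1
      apply hφ
      ext n
      have h2 : (φ n)⁻¹ = φ n := by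
        have := DFunLike.congr_fun h1 n
        simpa using this
      have h3 : (φ n) ^ 2 = 1 := by
        rw [pow_two]
        nth_rewrite 1 [← h2]
        exact inv_mul_cancel _
      have h4 : (φ n) ^ Nat.card N = 1 := by
        rw [← map_pow, pow_card_eq_one', map_one]
      obtain ⟨k, hk⟩ := hodd
      have h5 : φ n = 1 := by
        have h6 : (φ n) ^ (2 * k + 1) = 1 := by rw [← hk]; exact h4
        rw [pow_succ, pow_mul, h3, one_pow, one_mul] at h6
        exact h6
      simp [h5]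
    have hdvd : I.index ∣ N.index := Subgroup.index_dvd_of_le hNI
    have hNidx : N.index = Nat.card P := hc.index_eq_card
    obtain ⟨j, hj⟩ := (IsPGroup.iff_card (p := 2) (G := P)).mp hP
    rw [hNidx, hj] at hdvd
    obtain ⟨i, -, hi⟩ := (Nat.dvd_prime_pow Nat.prime_two).mp hdvd
    rcases Nat.eq_zero_or_pos i with h0 | hpos
    · exfalso
      rw [h0, pow_zero] at hi
      have h7 := Subgroup.index_eq_one.mp hi
      apply htI
      rw [h7]
      trivial
    · rw [hi]
      exact dvd_pow_self 2 hpos.ne'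
  · obtain ⟨k, hkpos, hfs⟩ := fsInd_ind_ext N P hc φ t htP ht hinv
    have hspec : fsInd (indFun I ψc) = (fsSign (⟨indFun I ψc, hχ₀⟩ : IrrCharacter G) : ℂ) :=
      fsSign_spec ⟨_, hχ₀⟩
    have hpos : (0 : ℝ) < ((Nat.card I : ℝ))⁻¹ * ((Nat.card N * k : ℕ) : ℝ) := by
      have h1 : (0 : ℝ) < (Nat.card I : ℝ) := by exact_mod_cast Nat.card_pos
      have h2 : (0 : ℝ) < ((Nat.card N * k : ℕ) : ℝ) := by
        exact_mod_cast Nat.mul_pos Nat.card_pos hkpos
      positivity
    have hre : fsInd (indFun I ψc) =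
        ((((Nat.card I : ℝ))⁻¹ * ((Nat.card N * k : ℕ) : ℝ) : ℝ) : ℂ) := by
      rw [hfs]
      push_cast
      ring
    rcases fsSign_cases (⟨indFun I ψc, hχ₀⟩ : IrrCharacter G) with h | h | h
    · exfalso
      rw [h, hre] at hspec
      have h1 : ((Nat.card I : ℝ))⁻¹ * ((Nat.card N * k : ℕ) : ℝ) = 0 := by
        exact_mod_cast hspec
      exact hpos.ne' h1
    · rw [hspec, h]
      simp
    · exfalso
      rw [h, hre] at hspec
      have h1 : ((Nat.card I : ℝ))⁻¹ * ((Nat.card N * k : ℕ) : ℝ) = -1 := by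
        exact_mod_cast hspec
      linarith


omit [Fintype G] in
theorem cjHom_mul_hom (a b : N →* ℂˣ) (g : G) :
    cjHom N (a * b) g = cjHom N a g * cjHom N b g := by
  ext n
  simp only [cjHom_apply, MonoidHom.mul_apply]

omit [Fintype G] in
theorem cjHom_inv_hom (a : N →* ℂˣ) (g : G) : cjHom N a⁻¹ g = (cjHom N a g)⁻¹ := by
  ext n
  simp only [cjHom_apply, MonoidHom.inv_apply]

/-- Group-theoretic setup: in `G = N ⋊ P` with `N` abelian the unique minimal normal subgroup and
`P ≠ 1` a `2`-group, some involution of `P` inverts a nontrivial linear character of `N`. -/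
theorem sr_setup (P : Subgroup G) (hNab : IsMulCommutative N) (hP1 : P ≠ ⊥) (hP : IsPGroup 2 P)
    (hdisj : N ⊓ P = ⊥) (hprod : N ⊔ P = ⊤)
    (hmin : N ≠ ⊥ ∧ ∀ M : Subgroup G, M.Normal → M ≠ ⊥ → N ≤ M) :
    P.IsComplement' N ∧ N ≤ commutator G ∧
    ∃ (φ : N →* ℂˣ) (t : G), φ ≠ 1 ∧ t ∈ P ∧ t * t = 1 ∧ cjHom N φ t = φ⁻¹ := by
  classical
  haveI : Fact (Nat.Prime 2) := ⟨Nat.prime_two⟩
  have hc : P.IsComplement' N := by
    apply Subgroup.isComplement'_of_disjoint_and_mul_eq_univ
    · rw [disjoint_iff, inf_comm]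
      exact hdisj
    · rw [← Subgroup.mul_normal P N, sup_comm, hprod]
      rfl
  -- an involution in P
  obtain ⟨j, hj⟩ := (IsPGroup.iff_card (p := 2) (G := P)).mp hP
  have hj0 : j ≠ 0 := by
    intro h0
    rw [h0, pow_zero] at hj
    exact hP1 (Subgroup.card_eq_one.mp hj)
  have h2dvd : 2 ∣ Nat.card P := by
    rw [hj]
    exact dvd_pow_self 2 hj0
  obtain ⟨x, hx⟩ := exists_prime_orderOf_dvd_card' 2 h2dvd
  have hxx : (x : G) * (x : G) = 1 := by
    have h1 : x ^ 2 = 1 := by rw [← hx]; exact pow_orderOf_eq_one x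
    have h2 : ((x ^ 2 : P) : G) = 1 := by rw [h1]; rfl
    rw [← pow_two]
    exact_mod_cast h2
  have hx1 : (x : G) ≠ 1 := by
    intro h
    have h1 : x = 1 := Subtype.ext h
    rw [h1, orderOf_one] at hx
    norm_num at hx
  -- the involution does not centralize N
  have hact : ∃ n : N, (x : G) * n * (x : G)⁻¹ ≠ n := by
    by_contra hcon
    push Not at hcon
    have hQn : (P ⊓ Subgroup.centralizer (N : Set G)).Normal := by
      constructor
      intro y hy g
      have hg : g ∈ (↑(N ⊔ P) : Set G) := by rw [hprod]; trivial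
      rw [Subgroup.normal_mul N P] at hg
      obtain ⟨n, hn, p, hp, rfl⟩ := hg
      have hy' : p * y * p⁻¹ ∈ Subgroup.centralizer (N : Set G) :=
        (Subgroup.normal_centralizer (H := N)).conj_mem y hy.2 p
      have h1 : n * p * y * (n * p)⁻¹ = p * y * p⁻¹ := by
        have h2 := (Subgroup.mem_centralizer_iff.mp hy') n hn
        calc n * p * y * (n * p)⁻¹ = n * (p * y * p⁻¹) * n⁻¹ := by group
          _ = (p * y * p⁻¹) * n * n⁻¹ := by rw [h2]
          _ = p * y * p⁻¹ := by group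
      rw [h1]
      exact ⟨P.mul_mem (P.mul_mem hp hy.1) (P.inv_mem hp), hy'⟩
    have hxQ : (x : G) ∈ P ⊓ Subgroup.centralizer (N : Set G) := by
      refine ⟨x.2, Subgroup.mem_centralizer_iff.mpr ?_⟩
      intro m hm
      have h1 := hcon ⟨m, hm⟩
      have h2 : (x : G) * m = m * (x : G) := by
        calc (x : G) * m = ((x : G) * m * (x : G)⁻¹) * (x : G) := by group
          _ = m * (x : G) := by rw [h1]
      exact h2.symm
    have hQ1 : P ⊓ Subgroup.centralizer (N : Set G) ≠ ⊥ := by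
      intro h
      rw [h, Subgroup.mem_bot] at hxQ
      exact hx1 hxQ
    have hNQ := hmin.2 _ hQn hQ1
    have hNP : N ≤ N ⊓ P := le_inf le_rfl (hNQ.trans inf_le_left)
    rw [hdisj] at hNP
    exact hmin.1 (le_bot_iff.mp hNP)
  obtain ⟨n₀, hn₀⟩ := hact
  refine ⟨hc, ?_, ?_⟩
  · -- N ≤ commutator
    apply hmin.2 (commutator G) inferInstance
    intro h
    have h1 : (x : G) * n₀ * (x : G)⁻¹ * (n₀ : G)⁻¹ ∈ commutator G := by
      rw [commutator_def]
      exact Subgroup.commutator_mem_commutator (Subgroup.mem_top _) (Subgroup.mem_top _)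
    rw [h, Subgroup.mem_bot] at h1
    apply hn₀
    calc (x : G) * n₀ * (x : G)⁻¹ = ((x : G) * n₀ * (x : G)⁻¹ * (n₀ : G)⁻¹) * n₀ := by group
      _ = n₀ := by rw [h1, one_mul]
  · -- the character
    set w : N := ⟨(x : G) * n₀ * (x : G)⁻¹, hN.conj_mem n₀ n₀.2 x⟩ * n₀⁻¹ with hw
    have hw1 : w ≠ 1 := by
      intro h
      apply hn₀
      have h1 : (⟨(x : G) * n₀ * (x : G)⁻¹, hN.conj_mem n₀ n₀.2 x⟩ : N) = n₀ :=
        mul_inv_eq_one.mp h
      exact congrArg Subtype.val h1
    obtain ⟨φ₀, hφ₀⟩ : ∃ φ₀ : N →* ℂˣ, φ₀ w ≠ 1 := by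
      letI : CommGroup N :=
        { (inferInstance : Group N) with mul_comm := fun a b => hNab.is_comm.comm a b }
      haveI : NeZero (Monoid.exponent N) := ⟨Monoid.exponent_ne_zero_of_finite⟩
      exact CommGroup.exists_apply_ne_one_of_hasEnoughRootsOfUnity N ℂ hw1
    refine ⟨cjHom N φ₀ x * φ₀⁻¹, x, ?_, x.2, hxx, ?_⟩
    · intro h
      apply hφ₀
      have h1 := DFunLike.congr_fun h n₀
      rw [MonoidHom.mul_apply, MonoidHom.inv_apply, cjHom_apply, MonoidHom.one_apply] at h1
      rw [hw, map_mul, map_inv]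
      exact h1
    · rw [cjHom_mul_hom, cjHom_inv_hom, ← cjHom_mul, hxx, cjHom_one]
      apply MonoidHom.ext
      intro n
      simp only [MonoidHom.mul_apply, MonoidHom.inv_apply, mul_inv_rev, inv_inv]

end SRAvg

end Cfsg.Agent.Lib.Helper79
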