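import Mathlib
import Cfsg.Agent.S0713

set_option autoImplicit false

namespace Cfsg.Agent.Lib.Helper79.TwoPr

open Equiv Equiv.Perm MulAction

/-- TP-CARD -/
theorem t13_card {Ω : Type*} [Fintype Ω] [DecidableEq Ω] (hΩ : Fintype.card Ω = 13)
    (K : Subgroup (Perm Ω)) [IsPretransitive K Ω] {c : Perm Ω} (hc : c ∈ K) (hcc : c.IsCycle)
    (h11 : c.support.card = 11) :
    IsMultiplyPretransitive K Ω 3 ∧
      Nat.card K = 156 * Nat.card (Cfsg.Agent.S0713.fixG K c.supportᶜ) := by
  classical
  have hcard : Nat.card Ω = 13 := by rw [Nat.card_eq_fintype_card, hΩ]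
  have hG : IsPreprimitive K Ω := IsPreprimitive.of_prime_card (by rw [hcard]; norm_num)
  have hsn : ((c.support : Set Ω)ᶜ).ncard = 1 + 1 := by
    apply Nat.add_left_cancel (n := (c.support : Set Ω).ncard)
    rw [Set.ncard_add_ncard_compl, Set.ncard_coe_finset, h11, hcard]
  have hprim : IsPreprimitive (fixingSubgroup K ((c.support : Set Ω)ᶜ))
      (SubMulAction.ofFixingSubgroup K ((c.support : Set Ω)ᶜ)) := by
    have := isPretransitive_of_isCycle_mem hcc hc
    apply IsPreprimitive.of_prime_card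
    have h11p : Nat.Prime 11 := by norm_num
    convert! h11p
    rw [Nat.card_eq_fintype_card, Fintype.card_subtype, ← h11]
    apply congr_arg
    ext x
    simp [SubMulAction.mem_ofFixingSubgroup_iff]
  have h3' : IsMultiplyPreprimitive K Ω 3 :=
    hG.isMultiplyPreprimitive (s := ((c.support : Set Ω))ᶜ) (n := 1) hsn
      (by rw [hcard]; norm_num) hprim
  have h3 : IsMultiplyPretransitive K Ω 3 := IsMultiplyPreprimitive.isMultiplyPretransitive ..
  have h2 : IsMultiplyPretransitive K Ω 2 :=
    isMultiplyPretransitive_of_le (n := 3) (by norm_num) (by rw [hcard]; norm_num)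
  refine ⟨h3, ?_⟩
  have hidx := h2.index_of_fixingSubgroup_mul (s := ((c.support : Set Ω))ᶜ) hsn
  rw [hcard] at hidx
  have hidx' : (fixingSubgroup K ((c.support : Set Ω)ᶜ)).index = 156 := by
    have h1 : (13 - 2).factorial = 39916800 := by decide
    have h2 : (13 : ℕ).factorial = 156 * 39916800 := by decide
    rw [h1, h2] at hidx
    exact Nat.eq_of_mul_eq_mul_right (by norm_num) hidx
  rw [← Subgroup.index_mul_card (fixingSubgroup K ((c.support : Set Ω)ᶜ)), hidx']
  congr 1
  refine Nat.card_congr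
    { toFun := fun g => ⟨g.1.1, ?_⟩
      invFun := fun g => ⟨⟨g.1, ?_⟩, ?_⟩
      left_inv := fun g => rfl
      right_inv := fun g => rfl }
  · rw [Cfsg.Agent.S0713.mem_fixG]
    refine ⟨g.1.2, fun d hd => ?_⟩
    have := (mem_fixingSubgroup_iff K).mp g.2 d (by simpa using hd)
    exact this
  · exact ((Cfsg.Agent.S0713.mem_fixG K _ g.1).mp g.2).1
  · rw [mem_fixingSubgroup_iff]
    intro y hy
    exact ((Cfsg.Agent.S0713.mem_fixG K _ g.1).mp g.2).2 y (by simpa using hy)

end Cfsg.Agent.Lib.Helper79.TwoPr
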